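import Cfsg.Agent.Lib.helper19.SL2D

/-!
Finite 2-subgroups of `GL_2(F)` with determinants `±1`, `-1` a non-square, whose determinant-one
part is non-abelian: squares lie in the commutator subgroup.
-/

namespace Cfsg.Agent.Lib.helper19.GL2E

open Matrix Cfsg.Agent.Lib.helper19.SylAb Cfsg.Agent.Lib.helper19.SL2Q

variable {F : Type*} [Field F]

theorem conj_neg (C T G : Matrix (Fin 2) (Fin 2) F)
    (hc : ¬ (C 0 1 = 0 ∧ C 1 0 = 0 ∧ C 0 0 = C 1 1)) (hCC : C * C = -1) (htr : C.trace = 0)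
    (hdC : C.det = 1) (hGC : G * C = C * G) (hdG : G.det = -1) (hTC : T * C = -(C * T)) :
    G * T * G = -T := by
  obtain ⟨α, β, rfl⟩ := comm_form C G hc hGC
  have hd : α * α + β * β = -1 := by
    have := det_form C α β
    rw [hdG, htr, hdC] at this
    linear_combination -this
  have h1 : (α • (1 : Matrix (Fin 2) (Fin 2) F) + β • C) * T = T * (α • 1 - β • C) := by
    rw [add_mul, mul_sub, smul_mul_assoc, smul_mul_assoc, mul_smul_comm, mul_smul_comm, one_mul,
      mul_one, hTC, smul_neg, sub_neg_eq_add]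
  have e00 := congrFun (congrFun hCC 0) 0
  have e01 := congrFun (congrFun hCC 0) 1
  have e10 := congrFun (congrFun hCC 1) 0
  have e11 := congrFun (congrFun hCC 1) 1
  simp only [Matrix.mul_apply, Fin.sum_univ_two, Matrix.neg_apply, Matrix.one_apply_eq,
    Matrix.one_apply_ne, ne_eq, zero_ne_one, one_ne_zero, not_false_eq_true, neg_zero] at e00 e01 e10 e11
  have h2 : (α • (1 : Matrix (Fin 2) (Fin 2) F) - β • C) * (α • 1 + β • C) =
      (α * α + β * β) • (1 : Matrix (Fin 2) (Fin 2) F) := by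
    ext i j
    fin_cases i <;> fin_cases j <;> simp [Matrix.mul_apply, Fin.sum_univ_two] <;>
      first
        | linear_combination (-β * β) * e00
        | linear_combination (-β * β) * e01
        | linear_combination (-β * β) * e10
        | linear_combination (-β * β) * e11
  rw [h1, mul_assoc, h2, hd, mul_smul_comm, mul_one, neg_one_smul]

theorem sq_one_of_anti (h2 : (2 : F) ≠ 0) (G E E' : Matrix (Fin 2) (Fin 2) F) (hE : E * E' = 1)
    (hdG : G.det = -1) (hGE : E * G = -(G * E)) : G * G = 1 := by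
  have ht : G.trace = 0 := trace_zero_of_anti h2 E E' G hE hGE
  rw [ch2, ht, hdG]
  simp

theorem gl2_EE {Q : Type*} [Group Q] [Finite Q] (hQ : IsPGroup 2 Q) (hF : ¬ IsSquare (-1 : F))
    (ρ : Q →* GL (Fin 2) F) (hρ : Function.Injective ρ)
    (hdet : ∀ g : Q, (ρ g).1.det = 1 ∨ (ρ g).1.det = -1)
    (hna : ∃ a b : Q, (ρ a).1.det = 1 ∧ (ρ b).1.det = 1 ∧ a * b ≠ b * a) : EE 2 Q := by
  classical
  have h2 : (2 : F) ≠ 0 := by
    intro h
    apply hF
    refine ⟨1, ?_⟩
    linear_combination -h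
  obtain ⟨M, hM⟩ : ∃ M : Q → Matrix (Fin 2) (Fin 2) F, M = fun g => (ρ g).1 := ⟨_, rfl⟩
  have hMmul : ∀ a b, M (a * b) = M a * M b := by
    intro a b
    rw [hM]
    simp
  have hMone : M 1 = 1 := by
    rw [hM]
    simp
  have hMinj : Function.Injective M := by
    intro a b h
    rw [hM] at h
    exact hρ (Units.ext h)
  have hMinv : ∀ a, M a * M a⁻¹ = 1 := by
    intro a
    rw [← hMmul, mul_inv_cancel, hMone]
  have hMinv' : ∀ a, M a⁻¹ * M a = 1 := by
    intro a
    rw [← hMmul, inv_mul_cancel, hMone]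
  have hMdet : ∀ g, (M g).det = 1 ∨ (M g).det = -1 := by
    intro g
    rw [hM]
    exact hdet g
  obtain ⟨Q₀, hQ₀mem⟩ : ∃ Q₀ : Subgroup Q, ∀ g, g ∈ Q₀ ↔ (M g).det = 1 :=
    ⟨{ carrier := {g | (M g).det = 1}
       one_mem' := by
         show (M 1).det = 1
         rw [hMone, det_one]
       mul_mem' := by
         intro a b ha hb
         have ha' : (M a).det = 1 := ha
         have hb' : (M b).det = 1 := hb
         show (M (a * b)).det = 1
         rw [hMmul, det_mul, ha', hb', mul_one]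
       inv_mem' := by
         intro a ha
         have ha' : (M a).det = 1 := ha
         have := congrArg det (hMinv a)
         rw [det_mul, ha', one_mul, det_one] at this
         exact this }, fun g => Iff.rfl⟩
  have hnorm : ∀ (g : Q) (y : Q), y ∈ Q₀ → g * y * g⁻¹ ∈ Q₀ := by
    intro g y hy
    rw [hQ₀mem] at hy ⊢
    rw [hMmul, hMmul, det_mul, det_mul, hy, mul_one, ← det_mul, hMinv, det_one]
  obtain ⟨ρ₀, hρ₀def⟩ : ∃ ρ₀ : Q₀ →* Matrix (Fin 2) (Fin 2) F, ∀ y, ρ₀ y = M y.1 :=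
    ⟨{ toFun := fun y => M y.1
       map_one' := hMone
       map_mul' := fun a b => hMmul a.1 b.1 }, fun y => rfl⟩
  have hρ₀ : Function.Injective ρ₀ := by
    intro a b h
    rw [hρ₀def, hρ₀def] at h
    exact Subtype.ext (hMinj h)
  have hdet₀ : ∀ y : Q₀, (ρ₀ y).det = 1 := by
    intro y
    rw [hρ₀def]
    exact (hQ₀mem _).mp y.2
  have hna₀ : ∃ a b : Q₀, a * b ≠ b * a := by
    obtain ⟨a, b, ha, hb, hab⟩ := hna
    refine ⟨⟨a, by rw [hQ₀mem, hM]; exact ha⟩, ⟨b, by rw [hQ₀mem, hM]; exact hb⟩, ?_⟩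
    intro h
    exact hab (congrArg Subtype.val h)
  have hQ₀p : IsPGroup 2 Q₀ := hQ.to_subgroup Q₀
  obtain ⟨c, hc, hca⟩ := sl2_struct hQ₀p h2 ρ₀ hρ₀ hdet₀ hna₀
  have hEE₀ : EE 2 Q₀ := sl2_EE hQ₀p h2 ρ₀ hρ₀ hdet₀ hna₀
  have hsq₀ : ∀ y : Q, y ∈ Q₀ → y ^ 2 ∈ commutator Q := by
    intro y hy
    have := comm_map Q₀.subtype (hEE₀ ⟨y, hy⟩)
    simpa using this
  obtain ⟨t, ht⟩ : ∃ t : Q₀, ρ₀ t * ρ₀ c = -(ρ₀ c * ρ₀ t) := by
    by_contra hcon
    push Not at hcon
    obtain ⟨a, b, hab⟩ := hna₀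
    apply hab
    apply hρ₀
    rw [map_mul, map_mul]
    have ha := (hca a).resolve_right (hcon a)
    have hb := (hca b).resolve_right (hcon b)
    obtain ⟨α₁, β₁, h1⟩ := comm_form (ρ₀ c) (ρ₀ a) hc ha
    obtain ⟨α₂, β₂, h2'⟩ := comm_form (ρ₀ c) (ρ₀ b) hc hb
    rw [h1, h2']
    exact form_comm (ρ₀ c) α₁ β₁ α₂ β₂
  simp only [hρ₀def] at hc hca ht
  have hdC : (M c.1).det = 1 := (hQ₀mem _).mp c.2
  have htrC : (M c.1).trace = 0 :=
    trace_zero_of_anti h2 (M t.1) (M t.1⁻¹) (M c.1) (hMinv t.1) ht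
  have hCC : M c.1 * M c.1 = -1 := sq_of_trace_zero (M c.1) hdC htrC
  have hcsq : c.1 ^ 2 ∈ commutator Q := hsq₀ c.1 c.2
  have hMcc : M (c.1 * c.1) = -1 := by rw [hMmul, hCC]
  -- commuting case
  have K : ∀ (g e t' : Q), (M g).det = -1 →
      ¬ ((M e) 0 1 = 0 ∧ (M e) 1 0 = 0 ∧ (M e) 0 0 = (M e) 1 1) →
      M e * M e = -1 → (M e).trace = 0 → (M e).det = 1 → M g * M e = M e * M g →
      M t' * M e = -(M e * M t') → g ^ 2 ∈ commutator Q := by
    intro g e t' hdg hne hee htr hde hge hte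
    have h1 := conj_neg (M e) (M t') (M g) hne hee htr hde hge hdg hte
    have h3 : g * t' * g = c.1 * c.1 * t' := by
      apply hMinj
      rw [hMmul, hMmul, h1, hMmul, hMcc, neg_one_mul]
    have h5 : c.1 * c.1 = g * t' * g * t'⁻¹ := by
      rw [h3]
      group
    have h4 : g ^ 2 = c.1 ^ 2 * (t' * g⁻¹ * t'⁻¹ * g⁻¹⁻¹) := by
      rw [inv_inv, pow_two, pow_two, h5]
      group
    rw [h4]
    refine Subgroup.mul_mem _ hcsq ?_
    rw [commutator_def]
    exact Subgroup.commutator_mem_commutator (Subgroup.mem_top _) (Subgroup.mem_top _)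
  -- anticommuting case
  have K2 : ∀ (g e : Q), (M g).det = -1 → M e * M g = -(M g * M e) → g ^ 2 ∈ commutator Q := by
    intro g e hdg hge
    have h1 := sq_one_of_anti h2 (M g) (M e) (M e⁻¹) (hMinv e) hdg hge
    have h3 : g ^ 2 = 1 := by
      apply hMinj
      rw [pow_two, hMmul, h1, hMone]
    rw [h3]
    exact Subgroup.one_mem _
  intro g
  by_cases hg : g ∈ Q₀
  · exact hsq₀ g hg
  have hdg : (M g).det = -1 := (hMdet g).resolve_left (fun h => hg ((hQ₀mem g).mpr h))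
  have hc₁mem : g * c.1 * g⁻¹ ∈ Q₀ := hnorm g c.1 c.2
  obtain ⟨C₁, hC₁⟩ : ∃ C₁, C₁ = M (g * c.1 * g⁻¹) := ⟨_, rfl⟩
  have hC₁' : C₁ = M g * M c.1 * M g⁻¹ := by rw [hC₁, hMmul, hMmul]
  have hGC : M g * M c.1 = C₁ * M g := by
    rw [hC₁', mul_assoc, hMinv', mul_one]
  have hC₁sq : C₁ * C₁ = -1 := by
    rw [hC₁']
    calc M g * M c.1 * M g⁻¹ * (M g * M c.1 * M g⁻¹)
        = M g * M c.1 * (M g⁻¹ * M g) * M c.1 * M g⁻¹ := by simp only [mul_assoc]
      _ = M g * (M c.1 * M c.1) * M g⁻¹ := by rw [hMinv', mul_one, mul_assoc (M g)]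
      _ = -1 := by rw [hCC, mul_neg, mul_one, neg_mul, hMinv]
  have hC₁tr : C₁.trace = 0 := by
    rw [hC₁', Matrix.trace_mul_comm, ← mul_assoc, hMinv', one_mul, htrC]
  have hC₁det : C₁.det = 1 := by
    rw [hC₁]
    exact (hQ₀mem _).mp hc₁mem
  rcases hca ⟨g * c.1 * g⁻¹, hc₁mem⟩ with hcom | hanti
  · have hcom' : C₁ * M c.1 = M c.1 * C₁ := by
      rw [hC₁]
      exact hcom
    obtain ⟨α, β, hαβ⟩ := comm_form (M c.1) C₁ hc hcom'
    have hα : α = 0 := by
      have ht1 : (α • (1 : Matrix (Fin 2) (Fin 2) F) + β • M c.1).trace =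
          2 * α + β * (M c.1).trace := by
        rw [Matrix.trace_fin_two, Matrix.trace_fin_two]
        simp
        ring
      rw [← hαβ, hC₁tr, htrC, mul_zero, add_zero] at ht1
      exact (mul_eq_zero.mp ht1.symm).resolve_left h2
    have hβ : β * β = 1 := by
      have hd1 := det_form (M c.1) α β
      rw [← hαβ, hC₁det, htrC, hdC, hα] at hd1
      linear_combination -hd1
    have hβ' : β = 1 ∨ β = -1 := by
      have : (β - 1) * (β + 1) = 0 := by linear_combination hβ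
      rcases mul_eq_zero.mp this with h | h
      · left
        exact sub_eq_zero.mp h
      · right
        exact eq_neg_of_add_eq_zero_left h
    rw [hα, zero_smul, zero_add] at hαβ
    rcases hβ' with rfl | rfl
    · rw [one_smul] at hαβ
      rw [hαβ] at hGC
      exact K g c.1 t.1 hdg hc hCC htrC hdC hGC ht
    · rw [neg_one_smul] at hαβ
      rw [hαβ] at hGC
      apply K2 g c.1 hdg
      rw [hGC, neg_mul, neg_neg]
  · have hanti' : C₁ * M c.1 = -(M c.1 * C₁) := by
      rw [hC₁]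
      exact hanti
    obtain ⟨e, he⟩ : ∃ e : Q, e = c.1 * (g * c.1 * g⁻¹) := ⟨_, rfl⟩
    have heM : M e = M c.1 * C₁ := by rw [he, hMmul, hC₁]
    have heQ : e ∈ Q₀ := by
      rw [he]
      exact Q₀.mul_mem c.2 hc₁mem
    have hEE : M e * M e = -1 := by
      rw [heM]
      calc M c.1 * C₁ * (M c.1 * C₁) = M c.1 * (C₁ * M c.1) * C₁ := by simp only [mul_assoc]
        _ = -(M c.1 * M c.1 * (C₁ * C₁)) := by
          rw [hanti']
          simp only [mul_neg, neg_mul, mul_assoc]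
        _ = -1 := by
          rw [hCC, hC₁sq]
          simp
    have hEns : ¬ ((M e) 0 1 = 0 ∧ (M e) 1 0 = 0 ∧ (M e) 0 0 = (M e) 1 1) := by
      rintro ⟨h01, h10, h00⟩
      apply hF
      refine ⟨(M e) 0 0, ?_⟩
      have := congrFun (congrFun hEE 0) 0
      rw [Matrix.mul_apply, Fin.sum_univ_two, h01, zero_mul, add_zero, Matrix.neg_apply,
        Matrix.one_apply_eq] at this
      exact this.symm
    have hCE : M c.1 * M e = -(M e * M c.1) := by
      rw [heM, mul_assoc (M c.1) C₁ (M c.1), hanti', mul_neg, neg_neg]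
    have hEtr : (M e).trace = 0 :=
      trace_zero_of_anti h2 (M c.1) (M c.1⁻¹) (M e) (hMinv c.1) hCE
    have hEdet : (M e).det = 1 := (hQ₀mem e).mp heQ
    have hg2 : g * g ∈ Q₀ := by
      rw [hQ₀mem, hMmul, det_mul, hdg]
      norm_num
    have key : ∀ s : F, M g * M g * M c.1 = s • (M c.1 * (M g * M g)) →
        M g * C₁ = s • (M c.1 * M g) := by
      intro s hs
      rw [hC₁', ← mul_assoc, ← mul_assoc, hs, smul_mul_assoc]
      congr 1
      simp only [mul_assoc, hMinv, mul_one]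
    have key2 : ∀ s : F, M g * M g * M c.1 = s • (M c.1 * (M g * M g)) →
        M g * M e = (-s) • (M e * M g) := by
      intro s hs
      rw [heM]
      calc M g * (M c.1 * C₁) = M g * M c.1 * C₁ := by rw [mul_assoc]
        _ = C₁ * (M g * C₁) := by rw [hGC, mul_assoc]
        _ = s • (C₁ * M c.1 * M g) := by rw [key s hs, mul_smul_comm, mul_assoc]
        _ = (-s) • (M c.1 * C₁ * M g) := by
          rw [hanti']
          simp only [neg_mul, smul_neg, neg_smul]
    rcases hca ⟨g * g, hg2⟩ with hcom2 | hanti2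
    · rw [hMmul] at hcom2
      have hk := key2 1 (by rw [one_smul]; exact hcom2)
      apply K2 g e hdg
      rw [hk]
      simp
    · rw [hMmul] at hanti2
      have hk := key2 (-1) (by rw [neg_one_smul]; exact hanti2)
      refine K g e c.1 hdg hEns hEE hEtr hEdet ?_ hCE
      rw [hk]
      simp

end Cfsg.Agent.Lib.helper19.GL2E
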