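import Cfsg.Agent.Lib.helper19.GL2E
import Cfsg.Agent.Lib.helper19.GLpB
import Cfsg.Agent.Lib.helper19.SL2Q3

/-!
Sylow 2-subgroups of `SL_{2m+1}(F)`, `|F| ≡ 3 mod 4`: the abelianization is elementary abelian.
-/

namespace Cfsg.Agent.Lib.helper19.GL2S

open Matrix Cfsg.Agent.Lib.helper19.SylAb Cfsg.Agent.Lib.helper19.SL2Q
  Cfsg.Agent.Lib.helper4.GLWreath

section general

variable {F : Type*} [Field F]

/-- the matrix `[[0,-1],[1,0]]` -/
def mA (F : Type*) [Field F] : Matrix (Fin 2) (Fin 2) F := !![0, -1; 1, 0]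

/-- the matrix `[[x,y],[y,-x]]` -/
def mB (x y : F) : Matrix (Fin 2) (Fin 2) F := !![x, y; y, -x]

theorem mA_sq : mA F * mA F = -1 := by
  ext i j
  fin_cases i <;> fin_cases j <;> simp [mA, Matrix.mul_apply, Fin.sum_univ_two]

theorem mB_sq (x y : F) (hxy : x * x + y * y = -1) : mB x y * mB x y = -1 := by
  ext i j
  fin_cases i <;> fin_cases j <;> simp [mB, Matrix.mul_apply, Fin.sum_univ_two] <;>
    first | linear_combination hxy | ring1

theorem mB_mA (x y : F) : mB x y * mA F = -(mA F * mB x y) := by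
  ext i j
  fin_cases i <;> fin_cases j <;> simp [mA, mB, Matrix.mul_apply, Fin.sum_univ_two]

theorem mA_det : (mA F).det = 1 := by
  simp [mA, Matrix.det_fin_two]

theorem mB_det (x y : F) (hxy : x * x + y * y = -1) : (mB x y).det = 1 := by
  rw [Matrix.det_fin_two]
  simp [mB]
  linear_combination -hxy

/-- block embedding of `n × n` matrices into `(n+1) × (n+1)` matrices -/
noncomputable def iotaM (n : ℕ) (A : Matrix (Fin n) (Fin n) F) (d : F) :
    Matrix (Fin (n + 1)) (Fin (n + 1)) F :=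
  Matrix.reindex finSumFinEquiv finSumFinEquiv
    (Matrix.fromBlocks A 0 0 (d • (1 : Matrix (Fin 1) (Fin 1) F)))

theorem iotaM_det (n : ℕ) (A : Matrix (Fin n) (Fin n) F) (d : F) :
    (iotaM n A d).det = A.det * d := by
  rw [iotaM, Matrix.det_reindex_self, Matrix.det_fromBlocks_zero₂₁, Matrix.det_smul,
    Fintype.card_fin, pow_one, det_one, mul_one]

theorem iotaM_mul (n : ℕ) (A B : Matrix (Fin n) (Fin n) F) (d e : F) :
    iotaM n A d * iotaM n B e = iotaM n (A * B) (d * e) := by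
  rw [iotaM, iotaM, iotaM, Matrix.reindex_apply, Matrix.reindex_apply, Matrix.reindex_apply,
    Matrix.submatrix_mul_equiv, Matrix.fromBlocks_multiply]
  simp [smul_smul, mul_comm]

theorem iotaM_one (n : ℕ) : iotaM n (1 : Matrix (Fin n) (Fin n) F) 1 = 1 := by
  rw [iotaM, one_smul, Matrix.fromBlocks_one, Matrix.reindex_apply, Matrix.submatrix_one_equiv]

theorem iotaM_inj (n : ℕ) (A B : Matrix (Fin n) (Fin n) F) (d e : F)
    (h : iotaM n A d = iotaM n B e) : A = B := by
  rw [iotaM, iotaM] at h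
  have := (Matrix.reindex finSumFinEquiv finSumFinEquiv).injective h
  exact (Matrix.fromBlocks_inj.mp this).1

/-- the embedding `GL_n → SL_{n+1}` -/
noncomputable def iota (F : Type*) [Field F] (n : ℕ) :
    GL (Fin n) F →* Matrix.SpecialLinearGroup (Fin (n + 1)) F where
  toFun g := ⟨iotaM n g.1 (g.1.det)⁻¹, by
    rw [iotaM_det]
    exact mul_inv_cancel₀ (Matrix.GeneralLinearGroup.det_ne_zero g)⟩
  map_one' := by
    apply Subtype.ext
    show iotaM n (1 : GL (Fin n) F).1 ((1 : GL (Fin n) F).1.det)⁻¹ = 1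
    rw [Units.val_one, det_one, inv_one, iotaM_one]
  map_mul' g h := by
    apply Subtype.ext
    show iotaM n (g * h).1 ((g * h).1.det)⁻¹ =
      iotaM n g.1 (g.1.det)⁻¹ * iotaM n h.1 (h.1.det)⁻¹
    rw [iotaM_mul, Units.val_mul, det_mul, mul_inv]

theorem iota_injective (n : ℕ) : Function.Injective (iota F n) := by
  intro g h hgh
  have h1 : iotaM n g.1 (g.1.det)⁻¹ = iotaM n h.1 (h.1.det)⁻¹ := congrArg Subtype.val hgh
  exact Units.ext (iotaM_inj n _ _ _ _ h1)

end general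

section finite

variable {F : Type*} [Field F] [Fintype F]

theorem det_pm (hq : Fintype.card F % 4 = 3) (d : Fˣ) (k : ℕ) (hd : d ^ 2 ^ k = 1) :
    (d : F) = 1 ∨ (d : F) = -1 := by
  classical
  have h1 : d ^ (Fintype.card F - 1) = 1 := by
    rw [← Fintype.card_units]
    exact pow_card_eq_one
  have h2 : orderOf d ∣ 2 ^ k := orderOf_dvd_of_pow_eq_one hd
  have h3 : orderOf d ∣ Fintype.card F - 1 := orderOf_dvd_of_pow_eq_one h1
  obtain ⟨i, -, hi⟩ := (Nat.dvd_prime_pow Nat.prime_two).mp h2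
  have hi1 : i ≤ 1 := by
    by_contra hcon
    have h4 : 2 ^ 2 ∣ orderOf d := by
      rw [hi]
      exact pow_dvd_pow 2 (by omega)
    have h5 : 2 ^ 2 ∣ Fintype.card F - 1 := dvd_trans h4 h3
    omega
  have h4 : d ^ 2 = 1 := by
    apply orderOf_dvd_iff_pow_eq_one.mp
    rw [hi]
    simpa using pow_dvd_pow 2 hi1
  have h5 : ((d : F) - 1) * ((d : F) + 1) = 0 := by
    have := congrArg Units.val h4
    push_cast at this
    linear_combination this
  rcases mul_eq_zero.mp h5 with h | h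
  · left
    exact sub_eq_zero.mp h
  · right
    exact eq_neg_of_add_eq_zero_left h

theorem gl2_nonab (hq : Fintype.card F % 4 = 3) (D : Sylow 2 (GL (Fin 2) F)) :
    ∃ a b : ↥(D : Subgroup (GL (Fin 2) F)), a.1.1.det = 1 ∧ b.1.1.det = 1 ∧ a * b ≠ b * a := by
  classical
  have : Fact (Nat.Prime 2) := ⟨Nat.prime_two⟩
  have hodd : Fintype.card F % 2 = 1 := by omega
  have h2 : (2 : F) ≠ 0 :=
    Cfsg.Agent.Lib.helper4.SpSylowEA.two_ne_zero_of_odd (Nat.odd_iff.mpr hodd)
  obtain ⟨x, y, hxy0⟩ := FiniteField.exists_root_sum_quadratic (R := F)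
    (f := Polynomial.X ^ 2) (g := Polynomial.X ^ 2 - Polynomial.C (-1))
    (Polynomial.degree_X_pow 2) (Polynomial.degree_X_pow_sub_C (by decide) _) hodd
  have hxy : x * x + y * y = -1 := by
    simp only [Polynomial.eval_pow, Polynomial.eval_X, Polynomial.eval_sub, Polynomial.eval_C]
      at hxy0
    linear_combination hxy0
  obtain ⟨a, ha⟩ : ∃ a : GL (Fin 2) F, a.1 = mA F :=
    ⟨⟨mA F, -mA F, by rw [mul_neg, mA_sq, neg_neg], by rw [neg_mul, mA_sq, neg_neg]⟩, rfl⟩
  obtain ⟨b, hb⟩ : ∃ b : GL (Fin 2) F, b.1 = mB x y :=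
    ⟨⟨mB x y, -mB x y, by rw [mul_neg, mB_sq x y hxy, neg_neg],
      by rw [neg_mul, mB_sq x y hxy, neg_neg]⟩, rfl⟩
  have haa : a.1 * a.1 = -1 := by rw [ha]; exact mA_sq
  have hbb : b.1 * b.1 = -1 := by rw [hb]; exact mB_sq x y hxy
  have hba : b.1 * a.1 = -(a.1 * b.1) := by rw [ha, hb]; exact mB_mA x y
  have ha4 : a ^ 4 = 1 := by
    have e : a ^ 4 = a * a * (a * a) := by
      rw [show (4 : ℕ) = 2 + 2 from rfl, pow_add, pow_two]
    rw [e]
    apply Units.ext
    show a.1 * a.1 * (a.1 * a.1) = 1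
    rw [haa, neg_one_mul, neg_neg]
  have hb4 : b ^ 4 = 1 := by
    have e : b ^ 4 = b * b * (b * b) := by
      rw [show (4 : ℕ) = 2 + 2 from rfl, pow_add, pow_two]
    rw [e]
    apply Units.ext
    show b.1 * b.1 * (b.1 * b.1) = 1
    rw [hbb, neg_one_mul, neg_neg]
  have haba : a * b * a = b := by
    apply Units.ext
    show a.1 * b.1 * a.1 = b.1
    rw [mul_assoc, hba, mul_neg, ← mul_assoc, haa, neg_one_mul, neg_neg]
  have hconj : b * a * b⁻¹ = a⁻¹ := by
    apply eq_inv_of_mul_eq_one_right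
    rw [← mul_assoc, ← mul_assoc, haba, mul_inv_cancel]
  have hne : a * b ≠ b * a := by
    intro hab
    have h1 : a.1 * b.1 = b.1 * a.1 := congrArg Units.val hab
    rw [hba] at h1
    have h3 : (2 : F) • (a.1 * b.1) = 0 := by
      rw [two_smul]
      nth_rewrite 1 [h1]
      rw [neg_add_cancel]
    have h4 : a.1 * b.1 = 0 := (smul_eq_zero.mp h3).resolve_left h2
    have h5 : b.1 = 0 := by
      have : a.1 * (a.1 * b.1) = -b.1 := by rw [← mul_assoc, haa, neg_one_mul]
      rw [h4, mul_zero] at this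
      exact neg_eq_zero.mp this.symm
    rw [h5, mul_zero] at hbb
    have h6 := congrFun (congrFun hbb 0) 0
    simp at h6
  have hK : IsPGroup 2 ↥(Subgroup.zpowers b ⊔ Subgroup.zpowers a) :=
    IsPGroup.to_sup_of_normal_right' (pgroup_zpowers b hb4) (pgroup_zpowers a ha4)
      (Subgroup.zpowers_le.mpr (normalizer_of_inv a b hconj))
  obtain ⟨Q₀, hQ₀⟩ := hK.exists_le_sylow
  obtain ⟨g, hg⟩ := MulAction.exists_smul_eq (GL (Fin 2) F) Q₀ D
  have hmem : ∀ z ∈ (Q₀ : Subgroup (GL (Fin 2) F)),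
      g * z * g⁻¹ ∈ (D : Subgroup (GL (Fin 2) F)) := by
    intro z hz
    rw [← hg, Sylow.coe_subgroup_smul]
    exact Subgroup.smul_mem_pointwise_smul _ _ _ hz
  have haQ : a ∈ (Q₀ : Subgroup (GL (Fin 2) F)) :=
    hQ₀ ((le_sup_right : Subgroup.zpowers a ≤ _) (Subgroup.mem_zpowers a))
  have hbQ : b ∈ (Q₀ : Subgroup (GL (Fin 2) F)) :=
    hQ₀ ((le_sup_left : Subgroup.zpowers b ≤ _) (Subgroup.mem_zpowers b))
  have hdconj : ∀ z : GL (Fin 2) F, (g * z * g⁻¹).1.det = z.1.det := by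
    intro z
    have h1 : (g * z * g⁻¹).1 = g.1 * z.1 * (g⁻¹).1 := rfl
    rw [h1, det_mul, det_mul, mul_comm, ← mul_assoc, ← det_mul, Units.inv_mul, det_one, one_mul]
  refine ⟨⟨g * a * g⁻¹, hmem a haQ⟩, ⟨g * b * g⁻¹, hmem b hbQ⟩, ?_, ?_, ?_⟩
  · show (g * a * g⁻¹).1.det = 1
    rw [hdconj, ha, mA_det]
  · show (g * b * g⁻¹).1.det = 1
    rw [hdconj, hb, mB_det x y hxy]
  · intro h
    apply hne
    have h1 : g * a * g⁻¹ * (g * b * g⁻¹) = g * b * g⁻¹ * (g * a * g⁻¹) := congrArg Subtype.val h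
    have h2' : g * (a * b) * g⁻¹ = g * (b * a) * g⁻¹ := by
      calc g * (a * b) * g⁻¹ = g * a * g⁻¹ * (g * b * g⁻¹) := by group
        _ = g * b * g⁻¹ * (g * a * g⁻¹) := h1
        _ = g * (b * a) * g⁻¹ := by group
    exact mul_left_cancel (mul_right_cancel h2')

theorem gl2_sylow_EE (hq : Fintype.card F % 4 = 3) (D : Sylow 2 (GL (Fin 2) F)) :
    EE 2 ↥(D : Subgroup (GL (Fin 2) F)) := by
  classical
  have : Fact (Nat.Prime 2) := ⟨Nat.prime_two⟩
  have hF : ¬ IsSquare (-1 : F) := by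
    rw [FiniteField.isSquare_neg_one_iff]
    omega
  refine GL2E.gl2_EE D.isPGroup' hF (D : Subgroup (GL (Fin 2) F)).subtype
    (Subgroup.subtype_injective _) ?_ (gl2_nonab hq D)
  intro g
  obtain ⟨k, hk⟩ := D.isPGroup' g
  have hk' : (g : GL (Fin 2) F) ^ 2 ^ k = 1 := by
    have := congrArg Subtype.val hk
    simpa using this
  have hd : (Matrix.GeneralLinearGroup.det (g : GL (Fin 2) F)) ^ 2 ^ k = 1 := by
    rw [← map_pow, hk', map_one]
  exact det_pm hq _ k hd

theorem fact_card_GL (p : ℕ) [hp : Fact p.Prime] (hpq : ¬ p ∣ Fintype.card F) (n : ℕ) :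
    (Nat.card (GL (Fin n) F)).factorization p =
      ∑ j ∈ Finset.range n, padicValNat p (Fintype.card F ^ (j + 1) - 1) := by
  have hq2 : 2 ≤ Fintype.card F := Fintype.one_lt_card
  have hne : ∀ i ∈ (Finset.univ : Finset (Fin n)),
      Fintype.card F ^ n - Fintype.card F ^ (i : ℕ) ≠ 0 := by
    intro i _
    have := Nat.pow_lt_pow_right (a := Fintype.card F) (by omega) i.2
    omega
  rw [Matrix.card_GL_field, Nat.factorization_prod hne, Finsupp.finsetSum_apply]
  have hterm : ∀ i : Fin n, (Fintype.card F ^ n - Fintype.card F ^ (i : ℕ)).factorization p =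
      padicValNat p (Fintype.card F ^ (n - 1 - (i : ℕ) + 1) - 1) := by
    intro i
    have hi := i.2
    have e : Fintype.card F ^ n - Fintype.card F ^ (i : ℕ) =
        Fintype.card F ^ (i : ℕ) * (Fintype.card F ^ (n - 1 - (i : ℕ) + 1) - 1) := by
      rw [Nat.mul_sub, ← pow_add, mul_one]
      congr 2
      omega
    have hm : Fintype.card F ^ (n - 1 - (i : ℕ) + 1) - 1 ≠ 0 := by
      have := Nat.one_lt_pow (n := n - 1 - (i : ℕ) + 1) (a := Fintype.card F) (by omega)
        (by omega)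
      omega
    rw [e, Nat.factorization_def _ hp.out, padicValNat.mul (pow_ne_zero _ (by omega)) hm,
      padicValNat.pow, padicValNat.eq_zero_of_not_dvd hpq, mul_zero, zero_add]
  rw [Finset.sum_congr rfl (fun i _ => hterm i),
    Fin.sum_univ_eq_sum_range
      (fun i => padicValNat p (Fintype.card F ^ (n - 1 - i + 1) - 1)) n,
    Finset.sum_range_reflect (fun j => padicValNat p (Fintype.card F ^ (j + 1) - 1)) n]

theorem v2_odd (q : ℕ) (hq : q % 4 = 3) (i : ℕ) : padicValNat 2 (q ^ (2 * i + 1) - 1) = 1 := by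
  have h0 : q ^ 2 % 4 = 1 := by
    rw [Nat.pow_mod, hq]
  have h1 : q ^ (2 * i + 1) % 4 = 3 := by
    rw [pow_succ, pow_mul, Nat.mul_mod, Nat.pow_mod, h0, hq]
    simp
  obtain ⟨k, hk⟩ : ∃ k, q ^ (2 * i + 1) - 1 = 2 * (2 * k + 1) :=
    ⟨q ^ (2 * i + 1) / 4, by omega⟩
  rw [hk, padicValNat.mul (by norm_num) (by omega), padicValNat_self,
    padicValNat.eq_zero_of_not_dvd (by omega)]

theorem sum_v2 (q : ℕ) (hq : q % 4 = 3) (m : ℕ) :
    ∑ j ∈ Finset.range (2 * m), padicValNat 2 (q ^ (j + 1) - 1) =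
      m * (1 + padicValNat 2 (q ^ 2 - 1)) + padicValNat 2 m.factorial := by
  induction m with
  | zero => simp
  | succ m ih =>
    have e : 2 * (m + 1) = 2 * m + 1 + 1 := by ring
    have e2 : q ^ (2 * m + 1 + 1) = q ^ (2 * (m + 1)) := by rw [e]
    rw [e, Finset.sum_range_succ, Finset.sum_range_succ, ih, v2_odd q hq m, e2,
      Cfsg.Agent.Lib.helper4.SpSylowEA.v2_lte q (Nat.odd_iff.mpr (by omega)) (by omega) m,
      Nat.factorial_succ, padicValNat.mul (by omega) (Nat.factorial_ne_zero _)]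
    ring

theorem card_SL (n : ℕ) (hn : 0 < n) :
    Nat.card (GL (Fin n) F) =
      Nat.card (Matrix.SpecialLinearGroup (Fin n) F) * (Fintype.card F - 1) := by
  classical
  haveI : Nonempty (Fin n) := ⟨⟨0, hn⟩⟩
  obtain ⟨f, hf⟩ : ∃ f : GL (Fin n) F →* Fˣ, f = Matrix.GeneralLinearGroup.det := ⟨_, rfl⟩
  have hsurj : Function.Surjective f := by
    rw [hf]
    exact Matrix.GeneralLinearGroup.det_surjective
  have h1 := Subgroup.card_mul_index f.ker
  rw [Subgroup.index_ker, MonoidHom.range_eq_top.mpr hsurj, Subgroup.card_top] at h1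
  have h2 : Nat.card Fˣ = Fintype.card F - 1 := by
    rw [Nat.card_units, Nat.card_eq_fintype_card]
  have e : Matrix.SpecialLinearGroup (Fin n) F ≃ f.ker :=
    { toFun := fun A => ⟨Matrix.SpecialLinearGroup.toGL A, by
        rw [MonoidHom.mem_ker, hf]
        exact Matrix.SpecialLinearGroup.coeToGL_det A⟩
      invFun := fun g => ⟨g.1.1, by
        have h : f g.1 = 1 := MonoidHom.mem_ker.mp g.2
        have h' : Matrix.GeneralLinearGroup.det g.1 = 1 := by
          rw [← hf]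
          exact h
        exact congrArg Units.val h'⟩
      left_inv := fun A => Subtype.ext rfl
      right_inv := fun g => Subtype.ext (Units.ext rfl) }
  rw [← h1, Nat.card_congr e, h2]

theorem sl_odd_EE (hq : Fintype.card F % 4 = 3) (m : ℕ)
    (P : Sylow 2 (Matrix.SpecialLinearGroup (Fin (2 * m + 1)) F)) :
    EE 2 ↥(P : Subgroup (Matrix.SpecialLinearGroup (Fin (2 * m + 1)) F)) := by
  classical
  have : Fact (Nat.Prime 2) := ⟨Nat.prime_two⟩
  obtain ⟨D⟩ : Nonempty (Sylow 2 (GL (Fin 2) F)) := inferInstance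
  obtain ⟨R⟩ : Nonempty (Sylow 2 (Equiv.Perm (Fin m))) := inferInstance
  have hD : EE 2 ↥(D : Subgroup (GL (Fin 2) F)) := gl2_sylow_EE hq D
  have hR : EE 2 ↥(R : Subgroup (Equiv.Perm (Fin m))) := sym_EE 2 m (Fin m) R (by simp)
  obtain ⟨φ, hφ⟩ : ∃ φ : ↥(R : Subgroup (Equiv.Perm (Fin m))) →*
      MulAut (Fin m → ↥(D : Subgroup (GL (Fin 2) F))),
      φ = mulAutArrow (G := ↥(R : Subgroup (Equiv.Perm (Fin m)))) (A := Fin m)
        (M := ↥(D : Subgroup (GL (Fin 2) F))) := ⟨_, rfl⟩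
  let Ψ : (Fin m → ↥(D : Subgroup (GL (Fin 2) F))) ⋊[φ]
      ↥(R : Subgroup (Equiv.Perm (Fin m))) →* W F (Fin 2) m :=
    SemidirectProduct.map
      ((D : Subgroup (GL (Fin 2) F)).subtype.compLeft (Fin m))
      (R : Subgroup (Equiv.Perm (Fin m))).subtype
      (fun g => by
        rw [hφ]
        exact MonoidHom.ext fun f => funext fun i => rfl)
  have hΨ : Function.Injective Ψ := by
    intro w w' h
    have h1 : ((D : Subgroup (GL (Fin 2) F)).subtype.compLeft (Fin m)) w.left =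
        ((D : Subgroup (GL (Fin 2) F)).subtype.compLeft (Fin m)) w'.left :=
      congrArg SemidirectProduct.left h
    have h2 : (w.right : Equiv.Perm (Fin m)) = w'.right := congrArg SemidirectProduct.right h
    apply SemidirectProduct.ext
    · funext i
      exact Subtype.ext (congrFun h1 i)
    · exact Subtype.ext h2
  obtain ⟨Ψ₀, hΨ₀⟩ := GLp.exists_glw (F := F) 2 m (2 * m) (by norm_num) le_rfl
  have hΘ : Function.Injective (((iota F (2 * m)).comp Ψ₀).comp Ψ) :=
    (iota_injective _).comp (hΨ₀.comp hΨ)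
  have hT : EE 2 ((Fin m → ↥(D : Subgroup (GL (Fin 2) F))) ⋊[φ]
      ↥(R : Subgroup (Equiv.Perm (Fin m)))) := by
    intro w
    have e := (SemidirectProduct.inl_left_mul_inr_right w).symm
    have h1 : (SemidirectProduct.inl (w.left ^ 2) :
        (Fin m → ↥(D : Subgroup (GL (Fin 2) F))) ⋊[φ]
          ↥(R : Subgroup (Equiv.Perm (Fin m)))) ∈ commutator _ :=
      comm_map SemidirectProduct.inl (pi_comm _ (fun i => hD (w.left i)))
    have h2 : (SemidirectProduct.inr (w.right ^ 2) :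
        (Fin m → ↥(D : Subgroup (GL (Fin 2) F))) ⋊[φ]
          ↥(R : Subgroup (Equiv.Perm (Fin m)))) ∈ commutator _ :=
      comm_map SemidirectProduct.inr (hR w.right)
    rw [← Abelianization.ker_of, MonoidHom.mem_ker] at h1 h2 ⊢
    conv_lhs => rw [e]
    rw [map_pow, map_mul, mul_pow, ← map_pow, ← map_pow, ← map_pow, ← map_pow, h1, h2, one_mul]
  -- cardinalities
  have hodd : ¬ 2 ∣ Fintype.card F := by omega
  have hq2 : 2 ≤ Fintype.card F := Fintype.one_lt_card
  have hv1 : padicValNat 2 (Fintype.card F - 1) = 1 := by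
    have := v2_odd (Fintype.card F) hq 0
    rwa [mul_zero, zero_add, pow_one] at this
  have hv2 : (Nat.card (GL (Fin 2) F)).factorization 2 =
      1 + padicValNat 2 (Fintype.card F ^ 2 - 1) := by
    rw [fact_card_GL 2 hodd 2, Finset.sum_range_succ, Finset.sum_range_one, zero_add, pow_one,
      hv1]
  have hvn : (Nat.card (Matrix.SpecialLinearGroup (Fin (2 * m + 1)) F)).factorization 2 =
      m * (1 + padicValNat 2 (Fintype.card F ^ 2 - 1)) + padicValNat 2 m.factorial := by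
    have h1 := card_SL (F := F) (2 * m + 1) (by omega)
    have h2 := fact_card_GL (F := F) 2 hodd (2 * m + 1)
    rw [h1, Finset.sum_range_succ, sum_v2 _ hq m, v2_odd _ hq m,
      Nat.factorization_mul Nat.card_pos.ne' (by omega), Finsupp.add_apply,
      Nat.factorization_def (Fintype.card F - 1) Nat.prime_two, hv1] at h2
    omega
  have hvp : (Nat.card (Equiv.Perm (Fin m))).factorization 2 = padicValNat 2 m.factorial := by
    rw [Nat.factorization_def _ Nat.prime_two, Nat.card_perm, Nat.card_fin]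
  have hcard : Nat.card (((iota F (2 * m)).comp Ψ₀).comp Ψ).range =
      2 ^ (Nat.card (Matrix.SpecialLinearGroup (Fin (2 * m + 1)) F)).factorization 2 := by
    rw [← Nat.card_congr (MonoidHom.ofInjective hΘ).toEquiv, SemidirectProduct.card,
      Nat.card_fun, Nat.card_fin, D.card_eq_multiplicity, R.card_eq_multiplicity, hv2, hvp, hvn,
      ← pow_mul, ← pow_add, mul_comm]
  let S₀ : Sylow 2 (Matrix.SpecialLinearGroup (Fin (2 * m + 1)) F) :=
    Sylow.ofCard (((iota F (2 * m)).comp Ψ₀).comp Ψ).range hcard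
  have e1 : ↥(P : Subgroup (Matrix.SpecialLinearGroup (Fin (2 * m + 1)) F)) ≃*
      ↥(((iota F (2 * m)).comp Ψ₀).comp Ψ).range := P.equiv S₀
  have e2 := MonoidHom.ofInjective hΘ
  exact EE_of_surj (e2.trans e1.symm).toMonoidHom (e2.trans e1.symm).surjective hT

end finite

end Cfsg.Agent.Lib.helper19.GL2S
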