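import Cfsg.Agent.Lib.helper19.GL2S

/-!
Sylow 2-subgroups of `SL_{2m}(F)`, `|F|` odd.
-/

namespace Cfsg.Agent.Lib.helper19.GL2T

open Matrix Cfsg.Agent.Lib.helper19.SylAb Cfsg.Agent.Lib.helper19.SL2Q
  Cfsg.Agent.Lib.helper4.GLWreath Cfsg.Agent.Lib.helper19.GL2S

section abstract

theorem comm_mem {N A : Type*} [Group N] [CommGroup A] (σ : N →* A) (a b : N) (ha : σ a = 1)
    (hb : σ b = 1) : a * b * a⁻¹ * b⁻¹ ∈ (commutator ↥σ.ker).map σ.ker.subtype := by
  refine Subgroup.mem_map.mpr ⟨(⟨a, MonoidHom.mem_ker.mpr ha⟩ : σ.ker) *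
    ⟨b, MonoidHom.mem_ker.mpr hb⟩ * (⟨a, MonoidHom.mem_ker.mpr ha⟩ : σ.ker)⁻¹ *
    (⟨b, MonoidHom.mem_ker.mpr hb⟩ : σ.ker)⁻¹, ?_, rfl⟩
  rw [commutator_def]
  exact Subgroup.commutator_mem_commutator (Subgroup.mem_top _) (Subgroup.mem_top _)

/-- product of the values of `δ` over the coordinates -/
def dPi {D A : Type*} [Group D] [CommGroup A] (δ : D →* A) (m : ℕ) : (Fin m → D) →* A where
  toFun f := ∏ i, δ (f i)
  map_one' := by simp
  map_mul' f g := by simp [Finset.prod_mul_distrib]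

theorem dPi_single {D A : Type*} [Group D] [CommGroup A] (δ : D →* A) {m : ℕ} (i : Fin m)
    (d : D) : dPi δ m (Pi.mulSingle i d) = δ d := by
  show ∏ k, δ ((Pi.mulSingle i d : Fin m → D) k) = δ d
  rw [Finset.prod_eq_single i]
  · rw [Pi.mulSingle_eq_same]
  · intro k _ hk
    rw [Pi.mulSingle_eq_of_ne hk, map_one]
  · intro h
    exact absurd (Finset.mem_univ i) h

theorem semi_EE {D : Type*} [Group D] {m : ℕ} (R : Subgroup (Equiv.Perm (Fin m)))
    {A : Type*} [CommGroup A] (δ : D →* A) (φ : ↥R →* MulAut (Fin m → D))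
    (σ : (Fin m → D) ⋊[φ] ↥R →* A) (hσ : ∀ w, σ w = dPi δ m w.left) (i₀ : Fin m)
    (hR : EE 2 ↥R) (hD₀ : EE 2 ↥δ.ker)
    (hY : ∀ (i : Fin m), i ≠ i₀ → ∀ d : D,
      (SemidirectProduct.inl (((Pi.mulSingle i d * Pi.mulSingle i₀ d⁻¹ : Fin m → D)) *
        (Pi.mulSingle i d * Pi.mulSingle i₀ d⁻¹)) : (Fin m → D) ⋊[φ] ↥R) ∈
        (commutator ↥σ.ker).map σ.ker.subtype) :
    EE 2 ↥σ.ker := by
  classical
  obtain ⟨C, hC⟩ : ∃ C : Subgroup ((Fin m → D) ⋊[φ] ↥R),
      C = (commutator ↥σ.ker).map σ.ker.subtype := ⟨_, rfl⟩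
  rw [← hC] at hY
  have F0 : ∀ a b : (Fin m → D) ⋊[φ] ↥R, σ a = 1 → σ b = 1 → a * b * a⁻¹ * b⁻¹ ∈ C := by
    intro a b ha hb
    rw [hC]
    exact comm_mem σ a b ha hb
  have F1 : ∀ a b : (Fin m → D) ⋊[φ] ↥R, σ a = 1 → σ b = 1 → a * a ∈ C → b * b ∈ C →
      (a * b) * (a * b) ∈ C := by
    intro a b ha hb haa hbb
    have e : (a * b) * (a * b) = (a * a) * (a⁻¹ * b * a⁻¹⁻¹ * b⁻¹) * (b * b) := by group
    rw [e]
    exact C.mul_mem (C.mul_mem haa (F0 a⁻¹ b (by rw [map_inv, ha, inv_one]) hb)) hbb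
  have hinr : ∀ π : ↥R, σ (SemidirectProduct.inr π : (Fin m → D) ⋊[φ] ↥R) = 1 := by
    intro π
    rw [hσ]
    exact map_one _
  have S1 : ∀ π : ↥R, (SemidirectProduct.inr (π * π) : (Fin m → D) ⋊[φ] ↥R) ∈ C := by
    intro π
    let ir : ↥R →* ↥σ.ker :=
      (SemidirectProduct.inr : ↥R →* (Fin m → D) ⋊[φ] ↥R).codRestrict σ.ker
        (fun π => MonoidHom.mem_ker.mpr (hinr π))
    have h := comm_map ir (hR π)
    rw [hC]
    refine Subgroup.mem_map.mpr ⟨ir (π ^ 2), h, ?_⟩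
    show SemidirectProduct.inr (π ^ 2) = SemidirectProduct.inr (π * π)
    rw [pow_two]
  have S2 : ∀ d : D, δ d = 1 →
      (SemidirectProduct.inl (Pi.mulSingle i₀ (d * d)) : (Fin m → D) ⋊[φ] ↥R) ∈ C := by
    intro d hd
    let j0 : ↥δ.ker →* ↥σ.ker :=
      ((SemidirectProduct.inl : (Fin m → D) →* (Fin m → D) ⋊[φ] ↥R).comp
        ((MonoidHom.mulSingle (fun _ : Fin m => D) i₀).comp δ.ker.subtype)).codRestrict σ.ker
        (fun d => by
          rw [MonoidHom.mem_ker, hσ]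
          show dPi δ m (Pi.mulSingle i₀ (d : D)) = 1
          rw [dPi_single]
          exact MonoidHom.mem_ker.mp d.2)
    have h := comm_map j0 (hD₀ ⟨d, MonoidHom.mem_ker.mpr hd⟩)
    rw [hC]
    refine Subgroup.mem_map.mpr ⟨j0 (⟨d, MonoidHom.mem_ker.mpr hd⟩ ^ 2), h, ?_⟩
    show SemidirectProduct.inl (Pi.mulSingle i₀ (d ^ 2) : Fin m → D) = _
    rw [pow_two]
  have S4 : ∀ (n : ℕ) (f : Fin m → D), dPi δ m f = 1 →
      (Finset.univ.filter (fun k => k ≠ i₀ ∧ f k ≠ 1)).card ≤ n →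
      (SemidirectProduct.inl (f * f) : (Fin m → D) ⋊[φ] ↥R) ∈ C := by
    intro n
    induction n with
    | zero =>
      intro f hf hcard
      have hz : ∀ k, k ≠ i₀ → f k = 1 := by
        intro k hk
        by_contra hne
        have hmem : k ∈ Finset.univ.filter (fun k => k ≠ i₀ ∧ f k ≠ 1) := by simp [hk, hne]
        have := Finset.card_pos.mpr ⟨k, hmem⟩
        omega
      have hf' : f = Pi.mulSingle i₀ (f i₀) := by
        funext k
        by_cases hk : k = i₀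
        · subst hk
          rw [Pi.mulSingle_eq_same]
        · rw [Pi.mulSingle_eq_of_ne hk, hz k hk]
      have hd : δ (f i₀) = 1 := by
        have h1 := dPi_single δ i₀ (f i₀)
        rw [← hf', hf] at h1
        exact h1.symm
      have e : f * f = Pi.mulSingle i₀ (f i₀ * f i₀) := by
        rw [Pi.mulSingle_mul, ← hf']
      rw [e]
      exact S2 (f i₀) hd
    | succ n ih =>
      intro f hf hcard
      by_cases hex : ∃ i, i ≠ i₀ ∧ f i ≠ 1
      · obtain ⟨i, hi, hfi⟩ := hex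
        obtain ⟨y, hy⟩ : ∃ y : Fin m → D, y = Pi.mulSingle i (f i) * Pi.mulSingle i₀ (f i)⁻¹ :=
          ⟨_, rfl⟩
        have hyσ : dPi δ m y = 1 := by
          rw [hy, map_mul, dPi_single, dPi_single, map_inv, mul_inv_cancel]
        have hyi : y i = f i := by
          rw [hy, Pi.mul_apply, Pi.mulSingle_eq_same, Pi.mulSingle_eq_of_ne hi, mul_one]
        have hyk : ∀ k, k ≠ i → k ≠ i₀ → y k = 1 := by
          intro k hk hk0
          rw [hy, Pi.mul_apply, Pi.mulSingle_eq_of_ne hk, Pi.mulSingle_eq_of_ne hk0, mul_one]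
        have hf'σ : dPi δ m (y⁻¹ * f) = 1 := by
          rw [map_mul, map_inv, hyσ, hf, inv_one, mul_one]
        have hsub : Finset.univ.filter (fun k => k ≠ i₀ ∧ (y⁻¹ * f) k ≠ 1) ⊆
            (Finset.univ.filter (fun k => k ≠ i₀ ∧ f k ≠ 1)).erase i := by
          intro k hk
          rw [Finset.mem_filter] at hk
          obtain ⟨-, hk0, hkne⟩ := hk
          have hki : k ≠ i := by
            rintro rfl
            apply hkne
            rw [Pi.mul_apply, Pi.inv_apply, hyi, inv_mul_cancel]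
          rw [Finset.mem_erase, Finset.mem_filter]
          refine ⟨hki, Finset.mem_univ _, hk0, ?_⟩
          intro h1
          apply hkne
          rw [Pi.mul_apply, Pi.inv_apply, hyk k hki hk0, h1, inv_one, one_mul]
        have hcard' : (Finset.univ.filter (fun k => k ≠ i₀ ∧ (y⁻¹ * f) k ≠ 1)).card ≤ n := by
          have h1 := Finset.card_le_card hsub
          have h2 : i ∈ Finset.univ.filter (fun k => k ≠ i₀ ∧ f k ≠ 1) := by simp [hi, hfi]
          rw [Finset.card_erase_of_mem h2] at h1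
          omega
        have h1 := ih (y⁻¹ * f) hf'σ hcard'
        have h2 : (SemidirectProduct.inl (y * y) : (Fin m → D) ⋊[φ] ↥R) ∈ C := by
          rw [hy]
          exact hY i hi (f i)
        have e : f = y * (y⁻¹ * f) := by group
        have h3 := F1 (SemidirectProduct.inl y) (SemidirectProduct.inl (y⁻¹ * f))
          (by rw [hσ]; exact hyσ) (by rw [hσ]; exact hf'σ)
          (by rw [← map_mul]; exact h2) (by rw [← map_mul]; exact h1)
        have e2 : (SemidirectProduct.inl (f * f) : (Fin m → D) ⋊[φ] ↥R) =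
            SemidirectProduct.inl y * SemidirectProduct.inl (y⁻¹ * f) *
              (SemidirectProduct.inl y * SemidirectProduct.inl (y⁻¹ * f)) := by
          rw [← map_mul, ← map_mul, ← e]
        rw [e2]
        exact h3
      · push Not at hex
        refine ih f hf ?_
        have h0 : (Finset.univ.filter (fun k => k ≠ i₀ ∧ f k ≠ 1)).card = 0 :=
          Finset.card_eq_zero.mpr
            (Finset.filter_eq_empty_iff.mpr (fun k _ h => h.2 (hex k h.1)))
        omega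
  intro x
  have hx : σ x.1 = 1 := MonoidHom.mem_ker.mp x.2
  have e := (SemidirectProduct.inl_left_mul_inr_right x.1).symm
  have h1 : σ (SemidirectProduct.inr x.1.right : (Fin m → D) ⋊[φ] ↥R) = 1 := hinr _
  have hcard : dPi δ m x.1.left = 1 := by
    rw [← hσ]
    exact hx
  have h2 : σ (SemidirectProduct.inl x.1.left : (Fin m → D) ⋊[φ] ↥R) = 1 := by
    rw [hσ]
    exact hcard
  have h4 := S4 _ x.1.left hcard le_rfl
  have h5 := S1 x.1.right
  have h6 := F1 (SemidirectProduct.inl x.1.left) (SemidirectProduct.inr x.1.right) h2 h1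
    (by rw [← map_mul]; exact h4) (by rw [← map_mul]; exact h5)
  rw [← e, hC] at h6
  obtain ⟨z, hz, hzx⟩ := Subgroup.mem_map.mp h6
  have hxz : x ^ 2 = z := Subtype.ext (by rw [pow_two]; exact hzx.symm)
  rw [hxz]
  exact hz

theorem pi_comm_single {D : Type*} [Group D] {m : ℕ} (i j : Fin m) (hij : i ≠ j)
    (d₁ d₂ x₁ x₂ : D) :
    ((Pi.mulSingle i d₁ * Pi.mulSingle j x₁ : Fin m → D) *
      (Pi.mulSingle i d₂ * Pi.mulSingle j x₂) *
      (Pi.mulSingle i d₁ * Pi.mulSingle j x₁)⁻¹ * (Pi.mulSingle i d₂ * Pi.mulSingle j x₂)⁻¹) =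
      Pi.mulSingle i (d₁ * d₂ * d₁⁻¹ * d₂⁻¹) * Pi.mulSingle j (x₁ * x₂ * x₁⁻¹ * x₂⁻¹) := by
  funext k
  simp only [Pi.mul_apply, Pi.inv_apply, Pi.mulSingle_apply]
  rcases eq_or_ne k i with rfl | h1
  · simp [hij]
  · rcases eq_or_ne k j with rfl | h2
    · simp [h1]
    · simp [h1, h2]

theorem single_mem {D : Type*} [Group D] {m : ℕ} (R : Subgroup (Equiv.Perm (Fin m)))
    {A : Type*} [CommGroup A] (δ : D →* A) (φ : ↥R →* MulAut (Fin m → D))
    (σ : (Fin m → D) ⋊[φ] ↥R →* A) (hσ : ∀ w, σ w = dPi δ m w.left)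
    (ε : A) (hpm : ∀ d : D, δ d = 1 ∨ δ d = ε) (i j : Fin m) (hij : i ≠ j) (c : D)
    (hc : c ∈ commutator D) :
    (SemidirectProduct.inl (Pi.mulSingle i c) : (Fin m → D) ⋊[φ] ↥R) ∈
      (commutator ↥σ.ker).map σ.ker.subtype := by
  classical
  obtain ⟨s, hs⟩ : ∃ s : D →* (Fin m → D) ⋊[φ] ↥R,
      ∀ d, s d = SemidirectProduct.inl (Pi.mulSingle i d) :=
    ⟨(SemidirectProduct.inl).comp (MonoidHom.mulSingle (fun _ : Fin m => D) i), fun d => rfl⟩
  have hle : commutator D ≤ ((commutator ↥σ.ker).map σ.ker.subtype).comap s := by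
    rw [commutator_def, Subgroup.commutator_le]
    intro d₁ _ d₂ _
    rw [commutatorElement_def, Subgroup.mem_comap]
    have key : ∀ x₁ x₂ : D, x₁ * x₂ * x₁⁻¹ * x₂⁻¹ = 1 → δ d₁ * δ x₁ = 1 → δ d₂ * δ x₂ = 1 →
        s (d₁ * d₂ * d₁⁻¹ * d₂⁻¹) ∈ (commutator ↥σ.ker).map σ.ker.subtype := by
      intro x₁ x₂ hx h1 h2
      have e := pi_comm_single i j hij d₁ d₂ x₁ x₂
      rw [hx, Pi.mulSingle_one, mul_one] at e
      have e2 : s (d₁ * d₂ * d₁⁻¹ * d₂⁻¹) =
          SemidirectProduct.inl (Pi.mulSingle i d₁ * Pi.mulSingle j x₁ : Fin m → D) *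
          SemidirectProduct.inl (Pi.mulSingle i d₂ * Pi.mulSingle j x₂ : Fin m → D) *
          (SemidirectProduct.inl (Pi.mulSingle i d₁ * Pi.mulSingle j x₁ : Fin m → D))⁻¹ *
          (SemidirectProduct.inl (Pi.mulSingle i d₂ * Pi.mulSingle j x₂ : Fin m → D))⁻¹ := by
        rw [← map_mul, ← map_inv, ← map_mul, ← map_inv, ← map_mul, e, hs]
      rw [e2]
      apply comm_mem
      · rw [hσ]
        show dPi δ m (Pi.mulSingle i d₁ * Pi.mulSingle j x₁) = 1
        rw [map_mul, dPi_single, dPi_single, h1]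
      · rw [hσ]
        show dPi δ m (Pi.mulSingle i d₂ * Pi.mulSingle j x₂) = 1
        rw [map_mul, dPi_single, dPi_single, h2]
    rcases hpm d₁ with h1 | h1
    · exact key 1 d₂⁻¹ (by group) (by rw [h1, map_one, mul_one]) (by rw [map_inv, mul_inv_cancel])
    · rcases hpm d₂ with h2 | h2
      · exact key d₁⁻¹ 1 (by group) (by rw [map_inv, mul_inv_cancel])
          (by rw [h2, map_one, mul_one])
      · exact key d₁⁻¹ d₁⁻¹ (by group) (by rw [map_inv, mul_inv_cancel])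
          (by rw [map_inv, h1, h2, mul_inv_cancel])
  have := hle hc
  rw [Subgroup.mem_comap, hs] at this
  exact this

theorem swap_mem {D : Type*} [Group D] {m : ℕ} (R : Subgroup (Equiv.Perm (Fin m)))
    {A : Type*} [CommGroup A] (δ : D →* A) (φ : ↥R →* MulAut (Fin m → D))
    (hφ : ∀ (π : ↥R) (f : Fin m → D) (k : Fin m),
      φ π f k = f ((π : Equiv.Perm (Fin m))⁻¹ k))
    (σ : (Fin m → D) ⋊[φ] ↥R →* A) (hσ : ∀ w, σ w = dPi δ m w.left)
    (i i₀ : Fin m) (hi : i ≠ i₀) (π : ↥R) (h1 : (π : Equiv.Perm (Fin m)) i = i₀)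
    (h2 : (π : Equiv.Perm (Fin m)) i₀ = i) (d : D) :
    (SemidirectProduct.inl (((Pi.mulSingle i d * Pi.mulSingle i₀ d⁻¹ : Fin m → D)) *
        (Pi.mulSingle i d * Pi.mulSingle i₀ d⁻¹)) : (Fin m → D) ⋊[φ] ↥R) ∈
        (commutator ↥σ.ker).map σ.ker.subtype := by
  classical
  obtain ⟨y, hy⟩ : ∃ y : Fin m → D, y = Pi.mulSingle i d * Pi.mulSingle i₀ d⁻¹ := ⟨_, rfl⟩
  rw [← hy]
  have hφy : φ π y⁻¹ = y := by
    funext k
    rw [hφ, hy]
    have e1 : ((π : Equiv.Perm (Fin m))⁻¹ k = i) = (k = i₀) := by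
      rw [Equiv.Perm.inv_eq_iff_eq, h1]
    have e2 : ((π : Equiv.Perm (Fin m))⁻¹ k = i₀) = (k = i) := by
      rw [Equiv.Perm.inv_eq_iff_eq, h2]
    simp only [Pi.mul_apply, Pi.inv_apply, Pi.mulSingle_apply, e1, e2]
    rcases eq_or_ne k i with rfl | hk1
    · simp [hi]
    · rcases eq_or_ne k i₀ with rfl | hk2
      · simp [hk1]
      · simp [hk1, hk2]
  have e : (SemidirectProduct.inl (y * y) : (Fin m → D) ⋊[φ] ↥R) =
      SemidirectProduct.inl y * SemidirectProduct.inr π * (SemidirectProduct.inl y)⁻¹ *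
        (SemidirectProduct.inr π)⁻¹ := by
    calc (SemidirectProduct.inl (y * y) : (Fin m → D) ⋊[φ] ↥R)
        = SemidirectProduct.inl y * SemidirectProduct.inl y := map_mul _ _ _
      _ = SemidirectProduct.inl y *
          (SemidirectProduct.inr π * SemidirectProduct.inl y⁻¹ * SemidirectProduct.inr π⁻¹) := by
        rw [← SemidirectProduct.inl_aut, hφy]
      _ = SemidirectProduct.inl y * SemidirectProduct.inr π * (SemidirectProduct.inl y)⁻¹ *
          (SemidirectProduct.inr π)⁻¹ := by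
        rw [map_inv, map_inv]
        group
  rw [e]
  apply comm_mem
  · rw [hσ]
    show dPi δ m y = 1
    rw [hy, map_mul, dPi_single, dPi_single, map_inv, mul_inv_cancel]
  · rw [hσ]
    exact map_one _

theorem swap_lemma (a : ℕ) (m : ℕ) (hm : m = 2 ^ a) (R : Sylow 2 (Equiv.Perm (Fin m)))
    (i j : Fin m) : ∃ π ∈ (R : Subgroup (Equiv.Perm (Fin m))), π i = j ∧ π j = i := by
  classical
  have : Fact (Nat.Prime 2) := ⟨Nat.prime_two⟩
  have hΓ : Nat.card (Multiplicative (Fin a → ZMod 2)) = 2 ^ a := by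
    rw [Nat.card_congr Multiplicative.toAdd, Nat.card_fun, Nat.card_fin, Nat.card_zmod]
  have hsq : ∀ γ : Multiplicative (Fin a → ZMod 2), γ * γ = 1 := by
    intro γ
    apply Multiplicative.toAdd.injective
    funext k
    show (Multiplicative.toAdd γ) k + (Multiplicative.toAdd γ) k = 0
    exact CharTwo.add_self_eq_zero _
  obtain ⟨e⟩ : Nonempty (Multiplicative (Fin a → ZMod 2) ≃ Fin m) :=
    ⟨Finite.equivFinOfCardEq (by rw [hΓ, hm])⟩
  obtain ⟨reg, hreg⟩ : ∃ reg : Multiplicative (Fin a → ZMod 2) →* Equiv.Perm (Fin m),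
      ∀ γ x, reg γ (e x) = e (γ * x) :=
    ⟨(e.permCongrHom.toMonoidHom).comp (MulAction.toPermHom _ _), fun γ x => by
      show e.permCongr (MulAction.toPerm γ) (e x) = _
      rw [Equiv.permCongr_apply, Equiv.symm_apply_apply]
      rfl⟩
  have hp : IsPGroup 2 reg.range :=
    (IsPGroup.of_card hΓ).of_surjective reg.rangeRestrict reg.rangeRestrict_surjective
  obtain ⟨R₀, hR₀⟩ := hp.exists_le_sylow
  obtain ⟨g, hg⟩ := MulAction.exists_smul_eq (Equiv.Perm (Fin m)) R₀ R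
  obtain ⟨x, hx⟩ : ∃ x, e x = g⁻¹ i := ⟨e.symm (g⁻¹ i), e.apply_symm_apply _⟩
  obtain ⟨y, hy⟩ : ∃ y, e y = g⁻¹ j := ⟨e.symm (g⁻¹ j), e.apply_symm_apply _⟩
  have hxinv : x⁻¹ = x := inv_eq_of_mul_eq_one_right (hsq x)
  have hγx : reg (y * x⁻¹) (g⁻¹ i) = g⁻¹ j := by
    rw [← hx, hreg, inv_mul_cancel_right, hy]
  have hγy : reg (y * x⁻¹) (g⁻¹ j) = g⁻¹ i := by
    rw [← hy, hreg, hxinv, mul_comm y x, mul_assoc, hsq y, mul_one, hx]
  refine ⟨g * reg (y * x⁻¹) * g⁻¹, ?_, ?_, ?_⟩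
  · rw [← hg, Sylow.coe_subgroup_smul]
    exact Subgroup.smul_mem_pointwise_smul _ _ _ (hR₀ ⟨y * x⁻¹, rfl⟩)
  · show g (reg (y * x⁻¹) (g⁻¹ i)) = j
    rw [hγx]
    exact Equiv.apply_symm_apply g j
  · show g (reg (y * x⁻¹) (g⁻¹ j)) = i
    rw [hγy]
    exact Equiv.apply_symm_apply g i

end abstract

section general

variable {F : Type*} [Field F]

theorem det_P (m : ℕ) (σ : Equiv.Perm (Fin m)) : (P F (Fin 2) σ).det = 1 := by
  have h1 : Equiv.Perm.sign (shE (Fin 2) σ⁻¹) = 1 := by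
    rw [shE, Equiv.prodCongr_refl_left, Equiv.Perm.sign_prodCongrRight, Finset.prod_const,
      Finset.card_univ, Fintype.card_fin]
    exact Int.units_sq _
  rw [P, Matrix.det_permute, det_one, mul_one, h1]
  simp

theorem det_Φ (m : ℕ) (w : W F (Fin 2) m) :
    (Φ F (Fin 2) m w).1.det = ∏ i, (w.left i).1.det := by
  rw [Φ_apply, Units.val_mul, det_mul, f₁_coe, f₂_coe, det_P, mul_one, Matrix.det_blockDiagonal]

/-- determinant-one matrices, reindexed, as elements of the special linear group -/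
noncomputable def toSL {ι : Type*} [Fintype ι] [DecidableEq ι] {n : ℕ} (e : ι ≃ Fin n) :
    ↥(Matrix.GeneralLinearGroup.det (n := ι) (R := F)).ker →*
      Matrix.SpecialLinearGroup (Fin n) F where
  toFun g := ⟨Matrix.reindex e e g.1.1, by
    rw [Matrix.det_reindex_self]
    exact congrArg Units.val (MonoidHom.mem_ker.mp g.2)⟩
  map_one' := by
    apply Subtype.ext
    show Matrix.reindex e e (1 : Matrix ι ι F) = 1
    rw [Matrix.reindex_apply, Matrix.submatrix_one_equiv]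
  map_mul' g h := by
    apply Subtype.ext
    show Matrix.reindex e e (g.1.1 * h.1.1) =
      Matrix.reindex e e g.1.1 * Matrix.reindex e e h.1.1
    rw [Matrix.reindex_apply, Matrix.reindex_apply, Matrix.reindex_apply,
      Matrix.submatrix_mul_equiv]

theorem toSL_injective {ι : Type*} [Fintype ι] [DecidableEq ι] {n : ℕ} (e : ι ≃ Fin n) :
    Function.Injective (toSL (F := F) e) := by
  intro g h hgh
  have h1 : Matrix.reindex e e g.1.1 = Matrix.reindex e e h.1.1 := congrArg Subtype.val hgh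
  exact Subtype.ext (Units.ext ((Matrix.reindex e e).injective h1))

end general

section finite

variable {F : Type*} [Field F] [Fintype F]

theorem gl2_nonab' (hodd : Fintype.card F % 2 = 1) (D : Sylow 2 (GL (Fin 2) F)) :
    ∃ a b : ↥(D : Subgroup (GL (Fin 2) F)), a.1.1.det = 1 ∧ b.1.1.det = 1 ∧ a * b ≠ b * a := by
  classical
  have : Fact (Nat.Prime 2) := ⟨Nat.prime_two⟩
  have h2 : (2 : F) ≠ 0 :=
    Cfsg.Agent.Lib.helper4.SpSylowEA.two_ne_zero_of_odd (Nat.odd_iff.mpr hodd)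
  obtain ⟨x, y, hxy0⟩ := FiniteField.exists_root_sum_quadratic (R := F)
    (f := Polynomial.X ^ 2) (g := Polynomial.X ^ 2 - Polynomial.C (-1))
    (Polynomial.degree_X_pow 2) (Polynomial.degree_X_pow_sub_C (by decide) _) hodd
  have hxy : x * x + y * y = -1 := by
    simp only [Polynomial.eval_pow, Polynomial.eval_X, Polynomial.eval_sub, Polynomial.eval_C]
      at hxy0
    linear_combination hxy0
  obtain ⟨a, ha⟩ : ∃ a : GL (Fin 2) F, a.1 = mA F :=
    ⟨⟨mA F, -mA F, by rw [mul_neg, mA_sq, neg_neg], by rw [neg_mul, mA_sq, neg_neg]⟩, rfl⟩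
  obtain ⟨b, hb⟩ : ∃ b : GL (Fin 2) F, b.1 = mB x y :=
    ⟨⟨mB x y, -mB x y, by rw [mul_neg, mB_sq x y hxy, neg_neg],
      by rw [neg_mul, mB_sq x y hxy, neg_neg]⟩, rfl⟩
  have haa : a.1 * a.1 = -1 := by rw [ha]; exact mA_sq
  have hbb : b.1 * b.1 = -1 := by rw [hb]; exact mB_sq x y hxy
  have hba : b.1 * a.1 = -(a.1 * b.1) := by rw [ha, hb]; exact mB_mA x y
  have ha4 : a ^ 4 = 1 := by
    have e : a ^ 4 = a * a * (a * a) := by
      rw [show (4 : ℕ) = 2 + 2 from rfl, pow_add, pow_two]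
    rw [e]
    apply Units.ext
    show a.1 * a.1 * (a.1 * a.1) = 1
    rw [haa, neg_one_mul, neg_neg]
  have hb4 : b ^ 4 = 1 := by
    have e : b ^ 4 = b * b * (b * b) := by
      rw [show (4 : ℕ) = 2 + 2 from rfl, pow_add, pow_two]
    rw [e]
    apply Units.ext
    show b.1 * b.1 * (b.1 * b.1) = 1
    rw [hbb, neg_one_mul, neg_neg]
  have haba : a * b * a = b := by
    apply Units.ext
    show a.1 * b.1 * a.1 = b.1
    rw [mul_assoc, hba, mul_neg, ← mul_assoc, haa, neg_one_mul, neg_neg]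
  have hconj : b * a * b⁻¹ = a⁻¹ := by
    apply eq_inv_of_mul_eq_one_right
    rw [← mul_assoc, ← mul_assoc, haba, mul_inv_cancel]
  have hne : a * b ≠ b * a := by
    intro hab
    have h1 : a.1 * b.1 = b.1 * a.1 := congrArg Units.val hab
    rw [hba] at h1
    have h3 : (2 : F) • (a.1 * b.1) = 0 := by
      rw [two_smul]
      nth_rewrite 1 [h1]
      rw [neg_add_cancel]
    have h4 : a.1 * b.1 = 0 := (smul_eq_zero.mp h3).resolve_left h2
    have h5 : b.1 = 0 := by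
      have : a.1 * (a.1 * b.1) = -b.1 := by rw [← mul_assoc, haa, neg_one_mul]
      rw [h4, mul_zero] at this
      exact neg_eq_zero.mp this.symm
    rw [h5, mul_zero] at hbb
    have h6 := congrFun (congrFun hbb 0) 0
    simp at h6
  have hK : IsPGroup 2 ↥(Subgroup.zpowers b ⊔ Subgroup.zpowers a) :=
    IsPGroup.to_sup_of_normal_right' (pgroup_zpowers b hb4) (pgroup_zpowers a ha4)
      (Subgroup.zpowers_le.mpr (normalizer_of_inv a b hconj))
  obtain ⟨Q₀, hQ₀⟩ := hK.exists_le_sylow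
  obtain ⟨g, hg⟩ := MulAction.exists_smul_eq (GL (Fin 2) F) Q₀ D
  have hmem : ∀ z ∈ (Q₀ : Subgroup (GL (Fin 2) F)),
      g * z * g⁻¹ ∈ (D : Subgroup (GL (Fin 2) F)) := by
    intro z hz
    rw [← hg, Sylow.coe_subgroup_smul]
    exact Subgroup.smul_mem_pointwise_smul _ _ _ hz
  have haQ : a ∈ (Q₀ : Subgroup (GL (Fin 2) F)) :=
    hQ₀ ((le_sup_right : Subgroup.zpowers a ≤ _) (Subgroup.mem_zpowers a))
  have hbQ : b ∈ (Q₀ : Subgroup (GL (Fin 2) F)) :=
    hQ₀ ((le_sup_left : Subgroup.zpowers b ≤ _) (Subgroup.mem_zpowers b))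
  have hdconj : ∀ z : GL (Fin 2) F, (g * z * g⁻¹).1.det = z.1.det := by
    intro z
    have h1 : (g * z * g⁻¹).1 = g.1 * z.1 * (g⁻¹).1 := rfl
    rw [h1, det_mul, det_mul, mul_comm, ← mul_assoc, ← det_mul, Units.inv_mul, det_one, one_mul]
  refine ⟨⟨g * a * g⁻¹, hmem a haQ⟩, ⟨g * b * g⁻¹, hmem b hbQ⟩, ?_, ?_, ?_⟩
  · show (g * a * g⁻¹).1.det = 1
    rw [hdconj, ha, mA_det]
  · show (g * b * g⁻¹).1.det = 1
    rw [hdconj, hb, mB_det x y hxy]
  · intro h
    apply hne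
    have h1 : g * a * g⁻¹ * (g * b * g⁻¹) = g * b * g⁻¹ * (g * a * g⁻¹) := congrArg Subtype.val h
    have h2' : g * (a * b) * g⁻¹ = g * (b * a) * g⁻¹ := by
      calc g * (a * b) * g⁻¹ = g * a * g⁻¹ * (g * b * g⁻¹) := by group
        _ = g * b * g⁻¹ * (g * a * g⁻¹) := h1
        _ = g * (b * a) * g⁻¹ := by group
    exact mul_left_cancel (mul_right_cancel h2')

theorem v2_odd' (r : ℕ) (hr : Even r) (hr0 : r ≠ 0) (i : ℕ) :
    padicValNat 2 ((r + 1) ^ (2 * i + 1) - 1) = padicValNat 2 r := by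
  have key : ∃ S, Odd S ∧ (r + 1) ^ (2 * i + 1) = r * S + 1 := by
    induction i with
    | zero => exact ⟨1, odd_one, by ring⟩
    | succ i ih =>
      obtain ⟨S, hS, hS1⟩ := ih
      refine ⟨S * (r + 1) ^ 2 + (r + 2), ?_, ?_⟩
      · have h1 : Odd (r + 1) := hr.add_one
        have h2 : Even (r + 2) := hr.add even_two
        exact (hS.mul (h1.pow)).add_even h2
      · have e : 2 * (i + 1) + 1 = (2 * i + 1) + 2 := by ring
        rw [e, pow_add, hS1]
        ring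
  obtain ⟨S, hS, hS1⟩ := key
  have hS0 : S ≠ 0 := by
    rintro rfl
    exact absurd hS (by decide)
  have hnd : ¬ 2 ∣ S := by
    rw [Nat.odd_iff] at hS
    omega
  rw [hS1, Nat.add_sub_cancel, padicValNat.mul hr0 hS0, padicValNat.eq_zero_of_not_dvd hnd,
    add_zero]

theorem sum_v2' (q : ℕ) (hq : Odd q) (hq1 : 1 < q) (m : ℕ) :
    ∑ j ∈ Finset.range (2 * m), padicValNat 2 (q ^ (j + 1) - 1) =
      m * (padicValNat 2 (q - 1) + padicValNat 2 (q ^ 2 - 1)) + padicValNat 2 m.factorial := by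
  have hv : ∀ i, padicValNat 2 (q ^ (2 * i + 1) - 1) = padicValNat 2 (q - 1) := by
    intro i
    obtain ⟨r, rfl⟩ : ∃ r, q = r + 1 := ⟨q - 1, by omega⟩
    have hr : Even r := by
      rcases Nat.even_or_odd r with h | h
      · exact h
      · exact absurd hq (by rw [Nat.not_odd_iff_even]; exact h.add_one)
    rw [Nat.add_sub_cancel]
    exact v2_odd' r hr (by omega) i
  induction m with
  | zero => simp
  | succ m ih =>
    have e : 2 * (m + 1) = 2 * m + 1 + 1 := by ring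
    have e2 : q ^ (2 * m + 1 + 1) = q ^ (2 * (m + 1)) := by rw [e]
    rw [e, Finset.sum_range_succ, Finset.sum_range_succ, ih, hv m, e2,
      Cfsg.Agent.Lib.helper4.SpSylowEA.v2_lte q hq hq1 m,
      Nat.factorial_succ, padicValNat.mul (by omega) (Nat.factorial_ne_zero _)]
    ring

theorem sl_even_EE (hodd : Fintype.card F % 2 = 1) (m : ℕ) (hm : 1 ≤ m)
    (hq : Fintype.card F % 4 = 3 ∨ (Fintype.card F % 4 = 1 ∧ ∃ j : ℕ, m = 2 ^ j))
    (P : Sylow 2 (Matrix.SpecialLinearGroup (Fin (2 * m)) F)) :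
    EE 2 ↥(P : Subgroup (Matrix.SpecialLinearGroup (Fin (2 * m)) F)) := by
  classical
  have : Fact (Nat.Prime 2) := ⟨Nat.prime_two⟩
  have h2 : (2 : F) ≠ 0 :=
    Cfsg.Agent.Lib.helper4.SpSylowEA.two_ne_zero_of_odd (Nat.odd_iff.mpr hodd)
  obtain ⟨D⟩ : Nonempty (Sylow 2 (GL (Fin 2) F)) := inferInstance
  obtain ⟨R⟩ : Nonempty (Sylow 2 (Equiv.Perm (Fin m))) := inferInstance
  have hR : EE 2 ↥(R : Subgroup (Equiv.Perm (Fin m))) := sym_EE 2 m (Fin m) R (by simp)
  obtain ⟨φ, hφ⟩ : ∃ φ : ↥(R : Subgroup (Equiv.Perm (Fin m))) →*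
      MulAut (Fin m → ↥(D : Subgroup (GL (Fin 2) F))),
      φ = mulAutArrow (G := ↥(R : Subgroup (Equiv.Perm (Fin m)))) (A := Fin m)
        (M := ↥(D : Subgroup (GL (Fin 2) F))) := ⟨_, rfl⟩
  have hφ' : ∀ (π : ↥(R : Subgroup (Equiv.Perm (Fin m))))
      (f : Fin m → ↥(D : Subgroup (GL (Fin 2) F))) (k : Fin m),
      φ π f k = f ((π : Equiv.Perm (Fin m))⁻¹ k) := by
    intro π f k
    rw [hφ]
    rfl
  let Ψ : (Fin m → ↥(D : Subgroup (GL (Fin 2) F))) ⋊[φ]
      ↥(R : Subgroup (Equiv.Perm (Fin m))) →* W F (Fin 2) m :=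
    SemidirectProduct.map
      ((D : Subgroup (GL (Fin 2) F)).subtype.compLeft (Fin m))
      (R : Subgroup (Equiv.Perm (Fin m))).subtype
      (fun g => by
        rw [hφ]
        exact MonoidHom.ext fun f => funext fun i => rfl)
  have hΨ : Function.Injective Ψ := by
    intro w w' h
    have h1 : ((D : Subgroup (GL (Fin 2) F)).subtype.compLeft (Fin m)) w.left =
        ((D : Subgroup (GL (Fin 2) F)).subtype.compLeft (Fin m)) w'.left :=
      congrArg SemidirectProduct.left h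
    have h2 : (w.right : Equiv.Perm (Fin m)) = w'.right := congrArg SemidirectProduct.right h
    apply SemidirectProduct.ext
    · funext i
      exact Subtype.ext (congrFun h1 i)
    · exact Subtype.ext h2
  have hΘ₁ : Function.Injective ((Φ F (Fin 2) m).comp Ψ) := Φ_injective.comp hΨ
  obtain ⟨δ, hδ⟩ : ∃ δ : ↥(D : Subgroup (GL (Fin 2) F)) →* Fˣ, ∀ d, (δ d : F) = d.1.1.det :=
    ⟨Matrix.GeneralLinearGroup.det.comp (D : Subgroup (GL (Fin 2) F)).subtype, fun d => rfl⟩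
  obtain ⟨σ, hσ, hσ2⟩ : ∃ σ : (Fin m → ↥(D : Subgroup (GL (Fin 2) F))) ⋊[φ]
      ↥(R : Subgroup (Equiv.Perm (Fin m))) →* Fˣ, (∀ w, σ w = dPi δ m w.left) ∧
      (∀ w, (σ w : F) = ((Φ F (Fin 2) m) (Ψ w)).1.det) := by
    refine ⟨Matrix.GeneralLinearGroup.det.comp ((Φ F (Fin 2) m).comp Ψ), ?_, fun w => rfl⟩
    intro w
    apply Units.ext
    show (Φ F (Fin 2) m (Ψ w)).1.det = ((∏ i, δ (w.left i) : Fˣ) : F)
    rw [det_Φ, Units.coe_prod]
    refine Finset.prod_congr rfl (fun i _ => ?_)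
    rw [hδ]
    rfl
  have hD₀ : EE 2 ↥δ.ker := by
    refine sl2_EE (D.isPGroup'.to_subgroup _) h2
      ((Units.coeHom (Matrix (Fin 2) (Fin 2) F)).comp
        ((D : Subgroup (GL (Fin 2) F)).subtype.comp δ.ker.subtype)) ?_ ?_ ?_
    · intro a b h
      exact Subtype.ext (Subtype.ext (Units.ext h))
    · intro g
      have hg : δ g.1 = 1 := MonoidHom.mem_ker.mp g.2
      have h3 := hδ g.1
      rw [hg] at h3
      exact h3.symm
    · obtain ⟨a, b, ha, hb, hab⟩ := gl2_nonab' hodd D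
      refine ⟨⟨a, ?_⟩, ⟨b, ?_⟩, ?_⟩
      · rw [MonoidHom.mem_ker]
        exact Units.ext ((hδ a).trans ha)
      · rw [MonoidHom.mem_ker]
        exact Units.ext ((hδ b).trans hb)
      · intro h
        exact hab (congrArg Subtype.val h)
  obtain ⟨i₀, -⟩ : ∃ i₀ : Fin m, True := ⟨⟨0, hm⟩, trivial⟩
  have hY : ∀ (i : Fin m), i ≠ i₀ → ∀ d : ↥(D : Subgroup (GL (Fin 2) F)),
      (SemidirectProduct.inl (((Pi.mulSingle i d * Pi.mulSingle i₀ d⁻¹ :
        Fin m → ↥(D : Subgroup (GL (Fin 2) F)))) * (Pi.mulSingle i d * Pi.mulSingle i₀ d⁻¹)) :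
        (Fin m → ↥(D : Subgroup (GL (Fin 2) F))) ⋊[φ] ↥(R : Subgroup (Equiv.Perm (Fin m)))) ∈
        (commutator ↥σ.ker).map σ.ker.subtype := by
    intro i hi d
    rcases hq with hq3 | ⟨-, j, hj⟩
    · have hD : EE 2 ↥(D : Subgroup (GL (Fin 2) F)) := gl2_sylow_EE hq3 D
      have hpm : ∀ d : ↥(D : Subgroup (GL (Fin 2) F)), δ d = 1 ∨ δ d = -1 := by
        intro d
        obtain ⟨k, hk⟩ := D.isPGroup' d
        have hd : δ d ^ 2 ^ k = 1 := by rw [← map_pow, hk, map_one]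
        rcases det_pm hq3 (δ d) k hd with h | h
        · left
          exact Units.ext h
        · right
          exact Units.ext (by rw [h]; simp)
      have e : ((Pi.mulSingle i d * Pi.mulSingle i₀ d⁻¹ :
          Fin m → ↥(D : Subgroup (GL (Fin 2) F))) * (Pi.mulSingle i d * Pi.mulSingle i₀ d⁻¹)) =
          Pi.mulSingle i (d * d) * Pi.mulSingle i₀ (d⁻¹ * d⁻¹) := by
        funext k
        simp only [Pi.mul_apply, Pi.mulSingle_apply]
        rcases eq_or_ne k i with rfl | hk1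
        · simp [hi]
        · rcases eq_or_ne k i₀ with rfl | hk2
          · simp [hk1]
          · simp [hk1, hk2]
      rw [e, map_mul]
      refine Subgroup.mul_mem _ ?_ ?_
      · exact single_mem (R : Subgroup (Equiv.Perm (Fin m))) δ φ σ hσ (-1) hpm i i₀ hi (d * d)
          (by rw [← pow_two]; exact hD d)
      · exact single_mem (R : Subgroup (Equiv.Perm (Fin m))) δ φ σ hσ (-1) hpm i₀ i hi.symm
          (d⁻¹ * d⁻¹) (by rw [← pow_two]; exact hD d⁻¹)
    · obtain ⟨π, hπ, h1, h2'⟩ := swap_lemma j m hj R i i₀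
      exact swap_mem (R : Subgroup (Equiv.Perm (Fin m))) δ φ hφ' σ hσ i i₀ hi ⟨π, hπ⟩ h1 h2' d
  have hK : EE 2 ↥σ.ker :=
    semi_EE (R : Subgroup (Equiv.Perm (Fin m))) δ φ σ hσ i₀ hR hD₀ hY
  -- the embedding into SL
  let κ₀ : ↥σ.ker →* ↥(Matrix.GeneralLinearGroup.det (n := Fin 2 × Fin m) (R := F)).ker :=
    (((Φ F (Fin 2) m).comp Ψ).comp σ.ker.subtype).codRestrict _ (fun x => by
      rw [MonoidHom.mem_ker]
      apply Units.ext
      have hx : σ x.1 = 1 := MonoidHom.mem_ker.mp x.2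
      have h3 := hσ2 x.1
      rw [hx] at h3
      exact h3.symm)
  obtain ⟨κ, hκdef⟩ : ∃ κ : ↥σ.ker →* Matrix.SpecialLinearGroup (Fin (2 * m)) F,
      κ = (toSL (F := F) (finProdFinEquiv : Fin 2 × Fin m ≃ Fin (2 * m))).comp κ₀ := ⟨_, rfl⟩
  have hκ : Function.Injective κ := by
    intro a b h
    rw [hκdef] at h
    have h1 := toSL_injective _ h
    have h2' : ((Φ F (Fin 2) m).comp Ψ) a.1 = ((Φ F (Fin 2) m).comp Ψ) b.1 :=
      congrArg Subtype.val h1
    exact Subtype.ext (hΘ₁ h2')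
  -- cardinalities
  have hq1' : 1 < Fintype.card F := Fintype.one_lt_card
  have hoddq : Odd (Fintype.card F) := Nat.odd_iff.mpr hodd
  have hnd : ¬ 2 ∣ Fintype.card F := by omega
  obtain ⟨V, hV⟩ : ∃ V, V = padicValNat 2 (Fintype.card F - 1) := ⟨_, rfl⟩
  obtain ⟨B, hB⟩ : ∃ B, B = padicValNat 2 (Fintype.card F ^ 2 - 1) := ⟨_, rfl⟩
  have hv2 : (Nat.card (GL (Fin 2) F)).factorization 2 = V + B := by
    rw [fact_card_GL 2 hnd 2, Finset.sum_range_succ, Finset.sum_range_one, zero_add, pow_one,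
      hV, hB]
  have hvGL : (Nat.card (GL (Fin (2 * m)) F)).factorization 2 =
      m * (V + B) + padicValNat 2 m.factorial := by
    rw [fact_card_GL 2 hnd (2 * m), sum_v2' _ hoddq hq1' m, hV, hB]
  have hSLne : Nat.card (Matrix.SpecialLinearGroup (Fin (2 * m)) F) ≠ 0 := Nat.card_pos.ne'
  have hvSL : (Nat.card (Matrix.SpecialLinearGroup (Fin (2 * m)) F)).factorization 2 + V =
      m * (V + B) + padicValNat 2 m.factorial := by
    have h1 := card_SL (F := F) (2 * m) (by omega)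
    rw [← hvGL, h1, Nat.factorization_mul hSLne (by omega), Finsupp.add_apply,
      Nat.factorization_def (Fintype.card F - 1) Nat.prime_two, hV]
  have hvp : (Nat.card (Equiv.Perm (Fin m))).factorization 2 = padicValNat 2 m.factorial := by
    rw [Nat.factorization_def _ Nat.prime_two, Nat.card_perm, Nat.card_fin]
  have hcardN : Nat.card ((Fin m → ↥(D : Subgroup (GL (Fin 2) F))) ⋊[φ]
      ↥(R : Subgroup (Equiv.Perm (Fin m)))) = 2 ^ (m * (V + B) + padicValNat 2 m.factorial) := by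
    rw [SemidirectProduct.card, Nat.card_fun, Nat.card_fin, D.card_eq_multiplicity,
      R.card_eq_multiplicity, hv2, hvp, ← pow_mul, ← pow_add, mul_comm]
  have h1 := Subgroup.card_mul_index σ.ker
  rw [Subgroup.index_ker, hcardN] at h1
  obtain ⟨c, -, hc⟩ := (Nat.dvd_prime_pow Nat.prime_two).mp (Dvd.intro _ h1)
  obtain ⟨b, -, hb⟩ := (Nat.dvd_prime_pow Nat.prime_two).mp (Dvd.intro_left _ h1)
  rw [hc, hb, ← pow_add] at h1
  have h3 : c + b = m * (V + B) + padicValNat 2 m.factorial :=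
    Nat.pow_right_injective (le_refl 2) h1
  have h4 : b ≤ V := by
    have hdvd : Nat.card σ.range ∣ Nat.card Fˣ := Subgroup.card_subgroup_dvd_card _
    rw [hb, Nat.card_units, Nat.card_eq_fintype_card] at hdvd
    rw [hV]
    exact (padicValNat_dvd_iff_le (by omega)).mp hdvd
  have h5 : c ≤ (Nat.card (Matrix.SpecialLinearGroup (Fin (2 * m)) F)).factorization 2 := by
    have hdvd : Nat.card κ.range ∣ Nat.card (Matrix.SpecialLinearGroup (Fin (2 * m)) F) :=
      Subgroup.card_subgroup_dvd_card _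
    rw [← Nat.card_congr (MonoidHom.ofInjective hκ).toEquiv, hc] at hdvd
    exact (Nat.prime_two.pow_dvd_iff_le_factorization hSLne).mp hdvd
  have hcard : Nat.card κ.range =
      2 ^ (Nat.card (Matrix.SpecialLinearGroup (Fin (2 * m)) F)).factorization 2 := by
    rw [← Nat.card_congr (MonoidHom.ofInjective hκ).toEquiv, hc]
    congr 1
    omega
  let S₀ : Sylow 2 (Matrix.SpecialLinearGroup (Fin (2 * m)) F) := Sylow.ofCard κ.range hcard
  have e1 : ↥(P : Subgroup (Matrix.SpecialLinearGroup (Fin (2 * m)) F)) ≃* ↥κ.range :=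
    P.equiv S₀
  have e2 := MonoidHom.ofInjective hκ
  exact EE_of_surj (e2.trans e1.symm).toMonoidHom (e2.trans e1.symm).surjective hK

end finite

end Cfsg.Agent.Lib.helper19.GL2T
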