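import Cfsg.Agent.Lib.helper19.NilpSym2

/-!
Nilpotent subgroups of alternating groups: the order bound `ba n`.
-/

namespace Cfsg.Agent.Lib.helper19.NilpSym

universe u

theorem nu_two : nu 2 = 1 := by
  have := nu_two_mul 1
  simpa [nu_one] using this

theorem nu_three : nu 3 = 1 := by
  have := nu_two_mul_add_one 1
  simpa [nu_one] using this

theorem nu_four' : nu 4 = 3 := by
  have := nu_four 1
  simpa [nu_one] using this

theorem bb2 : bb 2 = 2 := by
  have := bbv 0 2 (by norm_num)
  simpa [cc, nu_zero] using this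

theorem bb3 : bb 3 = 3 := by
  have := bbv 0 3 (by norm_num)
  simpa [cc, nu_zero] using this

theorem bb4 : bb 4 = 8 := by
  have := bbv 1 0 (by norm_num)
  simpa [cc, nu_one] using this

theorem bb5 : bb 5 = 8 := by
  have := bbv 1 1 (by norm_num)
  simpa [cc, nu_one] using this

theorem bb6 : bb 6 = 16 := by
  have := bbv 1 2 (by norm_num)
  simpa [cc, nu_one] using this

theorem bb7 : bb 7 = 24 := by
  have := bbv 1 3 (by norm_num)
  simpa [cc, nu_one] using this

theorem bb8 : bb 8 = 128 := by
  have := bbv 2 0 (by norm_num)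
  simpa [cc, nu_two] using this

theorem bb9 : bb 9 = 128 := by
  have := bbv 2 1 (by norm_num)
  simpa [cc, nu_two] using this

theorem bb10 : bb 10 = 256 := by
  have := bbv 2 2 (by norm_num)
  simpa [cc, nu_two] using this

theorem bb11 : bb 11 = 384 := by
  have := bbv 2 3 (by norm_num)
  simpa [cc, nu_two] using this

theorem bb12 : bb 12 = 1024 := by
  have := bbv 3 0 (by norm_num)
  simpa [cc, nu_three] using this

theorem bb14 : bb 14 = 2048 := by
  have := bbv 3 2 (by norm_num)
  simpa [cc, nu_three] using this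

theorem bb15 : bb 15 = 3072 := by
  have := bbv 3 3 (by norm_num)
  simpa [cc, nu_three] using this

theorem bb18 : bb 18 = 65536 := by
  have := bbv 4 2 (by norm_num)
  simpa [cc, nu_four'] using this

/-- the maximal order of a nilpotent subgroup of `A_n` -/
def ba (n : ℕ) : ℕ :=
  if n = 3 then 3 else if n = 5 then 5 else if n = 6 then 9 else if n = 9 then 81
  else if n ≤ 1 then 1 else bb n / 2

theorem ba_pos (n : ℕ) : 0 < ba n := by
  unfold ba
  split_ifs with h1 h2 h3 h4 h5
  · norm_num
  · norm_num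
  · norm_num
  · norm_num
  · norm_num
  · have := bb_mono (show 2 ≤ n by omega)
    rw [bb2] at this
    omega

theorem half_le_ba (n : ℕ) : bb n / 2 ≤ ba n := by
  unfold ba
  split_ifs with h1 h2 h3 h4 h5
  · subst h1; rw [bb3]; norm_num
  · subst h2; rw [bb5]; norm_num
  · subst h3; rw [bb6]; norm_num
  · subst h4; rw [bb9]; norm_num
  · have : bb n ≤ 1 := by
      rcases Nat.le_one_iff_eq_zero_or_eq_one.mp h5 with rfl | rfl
      · rw [bb_zero]
      · rw [bb_one]
    omega
  · exact le_rfl

theorem ba_le_bb (n : ℕ) : ba n ≤ bb n := by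
  unfold ba
  split_ifs with h1 h2 h3 h4 h5
  · subst h1; rw [bb3]
  · subst h2; rw [bb5]; norm_num
  · subst h3; rw [bb6]; norm_num
  · subst h4; rw [bb9]; norm_num
  · exact bb_pos n
  · exact Nat.div_le_self _ _

theorem bb_even {n : ℕ} (h2 : 2 ≤ n) (h3 : n ≠ 3) : 2 ∣ bb n := by
  obtain ⟨k, r, hr, rfl⟩ : ∃ k r, r < 4 ∧ n = 4 * k + r :=
    ⟨n / 4, n % 4, Nat.mod_lt _ (by norm_num), (Nat.div_add_mod n 4).symm⟩
  rw [bbv k r hr]
  rcases Nat.eq_zero_or_pos k with rfl | hk
  · have : r = 2 := by omega
    subst this; simp [cc, nu_zero]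
  · have : 2 ∣ 8 ^ k := dvd_pow (by norm_num) (by omega)
    exact Dvd.dvd.mul_right (Dvd.dvd.mul_left this _) _

theorem two_ba {n : ℕ} (h2 : 2 ≤ n) (h3 : n ≠ 3) (h5 : n ≠ 5) (h6 : n ≠ 6) (h9 : n ≠ 9) :
    2 * ba n = bb n := by
  have := bb_even h2 h3
  unfold ba
  rw [if_neg h3, if_neg h5, if_neg h6, if_neg h9, if_neg (by omega)]
  omega

theorem ba_add {a c : ℕ} (ha : 1 ≤ a) (hc : 1 ≤ c) : ba a * ba c ≤ ba (a + c) := by
  by_cases hea : a = 1 ∨ a = 3 ∨ a = 5 ∨ a = 6 ∨ a = 9
  · by_cases hec : c = 1 ∨ c = 3 ∨ c = 5 ∨ c = 6 ∨ c = 9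
    · rcases hea with rfl | rfl | rfl | rfl | rfl <;>
        rcases hec with rfl | rfl | rfl | rfl | rfl <;>
        norm_num [ba, bb2, bb4, bb7, bb8, bb10, bb11, bb12, bb14, bb15, bb18]
    · have h := two_ba (n := c) (by omega) (by omega) (by omega) (by omega) (by omega)
      have h1 := Nat.mul_le_mul (ba_le_bb a) (le_refl (bb c))
      have h2 := bb_add a c
      have h3 := half_le_ba (a + c)
      have h4 : 2 * (ba a * ba c) ≤ bb (a + c) := by
        calc 2 * (ba a * ba c) = ba a * (2 * ba c) := by ring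
          _ = ba a * bb c := by rw [h]
          _ ≤ bb a * bb c := h1
          _ ≤ bb (a + c) := h2
      omega
  · have h := two_ba (n := a) (by omega) (by omega) (by omega) (by omega) (by omega)
    have h1 := Nat.mul_le_mul (le_refl (bb a)) (ba_le_bb c)
    have h2 := bb_add a c
    have h3 := half_le_ba (a + c)
    have h4 : 2 * (ba a * ba c) ≤ bb (a + c) := by
      calc 2 * (ba a * ba c) = (2 * ba a) * ba c := by ring
        _ = bb a * ba c := by rw [h]
        _ ≤ bb a * bb c := h1
        _ ≤ bb (a + c) := h2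
    omega

theorem two_five (V : ℕ) (hV : 2 ≤ V) : 2 * 5 ^ V ≤ 8 ^ V := by
  induction V, hV using Nat.le_induction with
  | base => norm_num
  | succ V hV ih => rw [pow_succ, pow_succ]; omega

theorem quarter_le_nu (j : ℕ) : j / 2 + j / 4 ≤ nu j := by
  obtain ⟨k, r, hr, rfl⟩ : ∃ k r, r < 4 ∧ j = 4 * k + r :=
    ⟨j / 4, j % 4, Nat.mod_lt _ (by norm_num), (Nat.div_add_mod j 4).symm⟩
  interval_cases r
  · have := nu_four k
    simp only [add_zero]
    omega
  · have := nu_four1 k; omega
  · have := nu_four2 k; omega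
  · have := nu_four3 k; omega

theorem nine_aux2 (i : ℕ) : ∀ r, r < 4 →
    2 * 9 ^ (4 * (i + 1) + r) ≤ 8 ^ (4 * (i + 1) + r) * 2 ^ (3 * (i + 1) + r / 2) := by
  induction i with
  | zero => intro r hr; interval_cases r <;> norm_num
  | succ i ih =>
    intro r hr
    have h := ih r hr
    have e1 : 2 * 9 ^ (4 * (i + 1 + 1) + r) = 6561 * (2 * 9 ^ (4 * (i + 1) + r)) := by ring
    have e2 : 8 ^ (4 * (i + 1 + 1) + r) * 2 ^ (3 * (i + 1 + 1) + r / 2)
        = 32768 * (8 ^ (4 * (i + 1) + r) * 2 ^ (3 * (i + 1) + r / 2)) := by ring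
    rw [e1, e2]; exact Nat.mul_le_mul (by norm_num) h

theorem nine_le2 {j : ℕ} (hj : 4 ≤ j) : 2 * 9 ^ j ≤ 8 ^ j * 2 ^ nu j := by
  obtain ⟨i, r, hr, rfl⟩ : ∃ i r, r < 4 ∧ j = 4 * (i + 1) + r :=
    ⟨j / 4 - 1, j % 4, Nat.mod_lt _ (by norm_num), by omega⟩
  have h := nine_aux2 i r hr
  have hq := quarter_le_nu (4 * (i + 1) + r)
  have : 3 * (i + 1) + r / 2 ≤ nu (4 * (i + 1) + r) := by omega
  exact h.trans (Nat.mul_le_mul_left _ (Nat.pow_le_pow_right (by norm_num) this))

theorem w_le_ba (p : ℕ) [hp : Fact p.Prime] (hp2 : p ≠ 2) (a : ℕ) (ha : 1 ≤ a) :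
    p ^ padicValNat p (p ^ a).factorial ≤ ba (p ^ a) := by
  have hV := val_pp p a
  obtain ⟨V, hVdef⟩ : ∃ V, V = padicValNat p (p ^ a).factorial := ⟨_, rfl⟩
  obtain ⟨q, hq⟩ : ∃ q, q = p ^ a := ⟨_, rfl⟩
  rw [← hVdef, ← hq] at hV
  rw [← hVdef, ← hq]
  have hh := half_le_ba q
  by_cases h3 : p = 3
  · subst h3
    have hq3 : q = 3 ∨ 9 ∣ q := by
      obtain ⟨a', rfl⟩ : ∃ a', a = a' + 1 := ⟨a - 1, by omega⟩
      rcases a' with _ | a'
      · left; rw [hq]; norm_num
      · right; rw [hq, pow_succ, pow_succ, mul_assoc]; exact Dvd.intro_left _ rfl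
    rcases Nat.even_or_odd' V with ⟨j, rfl | rfl⟩
    · have hqe : q = 4 * j + 1 := by omega
      rw [pow_mul]
      norm_num
      rcases hq3 with h | h
      · omega
      · by_cases hj2 : j = 2
        · subst hj2
          have : q = 9 := by omega
          rw [this]; norm_num [ba]
        · have hj4 : 4 ≤ j := by
            obtain ⟨t, ht⟩ := h
            omega
          have h1 := nine_le2 hj4
          have hb : bb q = 8 ^ j * 2 ^ nu j := by
            rw [hqe, bbv j 1 (by norm_num)]; simp [cc]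
          rw [← hb] at h1
          omega
    · have hqe : q = 4 * j + 3 := by omega
      rw [pow_succ, pow_mul]
      norm_num
      rcases hq3 with h | h
      · have : j = 0 := by omega
        subst this
        rw [h]; norm_num [ba]
      · have hj4 : 4 ≤ j := by
          obtain ⟨t, ht⟩ := h
          omega
        have h1 := nine_le2 hj4
        have hb : bb q = 3 * (8 ^ j * 2 ^ nu j) := by
          rw [hqe, bbv j 3 (by norm_num)]; simp [cc]; ring
        have h2 : 2 * (9 ^ j * 3) ≤ bb q := by rw [hb]; omega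
        omega
  by_cases h5 : p = 5
  · subst h5
    have hqe : q = 4 * V + 1 := by omega
    rcases Nat.lt_or_ge V 2 with hV2 | hV2
    · interval_cases V
      · rw [pow_zero]; exact ba_pos q
      · have : q = 5 := by omega
        rw [this]; norm_num [ba]
    · have h1 := two_five V hV2
      have hb : bb q = 8 ^ V * 2 ^ nu V := by
        rw [hqe, bbv V 1 (by norm_num)]; simp [cc]
      have h2 : 8 ^ V ≤ bb q := by
        rw [hb]; exact Nat.le_mul_of_pos_right _ (by positivity)
      omega
  · have hodd : Odd p := hp.out.eq_two_or_odd'.resolve_left hp2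
    obtain ⟨m, rfl⟩ := hodd
    have h1 := hp.out.one_lt
    have hm : 3 ≤ m := by omega
    have hqe : q = 2 * (m * V) + 1 := by
      have : (2 * m + 1 - 1) * V = 2 * (m * V) := by
        rw [Nat.add_sub_cancel]; ring
      omega
    rcases Nat.eq_zero_or_pos V with rfl | hVpos
    · rw [pow_zero]; exact ba_pos q
    · have hmV : 3 ≤ m * V := by nlinarith
      have h2 : (2 * m + 1) ^ V ≤ 2 ^ (m * V) := by
        calc (2 * m + 1) ^ V ≤ (2 ^ m) ^ V := Nat.pow_le_pow_left (odd_le_two_pow m hm) V
          _ = 2 ^ (m * V) := (pow_mul 2 m V).symm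
      have h3 : m * V + 1 ≤ nu q := by
        rw [hqe, nu_two_mul_add_one]
        have := half_le_nu (m * V)
        omega
      have h4 : 2 ^ (m * V + 1) ≤ bb q :=
        (Nat.pow_le_pow_right (by norm_num) h3).trans (bb_ge q)
      rw [pow_succ] at h4
      omega

/-- the order of a Sylow `p`-subgroup of the symmetric group of degree `p^{v_p(n)}` -/
def ww (p n : ℕ) : ℕ := p ^ padicValNat p ((p ^ n.factorization p).factorial)

theorem T2 {n : ℕ} (hn : n ≠ 0) (p₀ : ℕ) (hp₀ : p₀.Prime) (hodd : p₀ ≠ 2) (hd : p₀ ∣ n)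
    (S : Finset ℕ) (hS : ∀ p ∈ S, p.Prime) : ∏ p ∈ S, ww p n ≤ ba n := by
  classical
  haveI : Fact p₀.Prime := ⟨hp₀⟩
  have hwpos : ∀ p, p.Prime → 0 < ww p n := fun p hp => pow_pos hp.pos _
  -- enlarge `S` to contain `p₀`
  have hS' : ∀ p ∈ insert p₀ S, p.Prime := by
    intro p hp
    rcases Finset.mem_insert.mp hp with rfl | h
    · exact hp₀
    · exact hS p h
  have h1 : ∏ p ∈ S, ww p n ≤ ∏ p ∈ insert p₀ S, ww p n := by
    by_cases hmem : p₀ ∈ S
    · rw [Finset.insert_eq_of_mem hmem]
    · rw [Finset.prod_insert hmem]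
      exact Nat.le_mul_of_pos_left _ (hwpos p₀ hp₀)
  refine h1.trans ?_
  rw [← Finset.mul_prod_erase _ _ (Finset.mem_insert_self p₀ S)]
  obtain ⟨r, hr⟩ : ∃ r, r = n / p₀ ^ n.factorization p₀ := ⟨_, rfl⟩
  obtain ⟨e, he⟩ : ∃ e, e = n.factorization p₀ := ⟨_, rfl⟩
  have hqr : p₀ ^ e * r = n := by
    rw [he, hr]; exact Nat.ordProj_mul_ordCompl_eq_self n p₀
  have he1 : 1 ≤ e := by
    rw [he]; exact Nat.Prime.factorization_pos_of_dvd hp₀ hn hd
  have hr0 : r ≠ 0 := by
    rintro rfl
    rw [mul_zero] at hqr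
    exact hn hqr.symm
  have hrfac : ∀ p, p ≠ p₀ → r.factorization p = n.factorization p := by
    intro p hp
    rw [hr, Nat.factorization_ordCompl, Finsupp.erase_ne hp]
  have h2 : ∏ p ∈ (insert p₀ S).erase p₀, ww p n ≤ bb r := by
    refine le_trans ?_ (prod_bb_le hr0 ((insert p₀ S).erase p₀)
      (fun p hp => hS' p (Finset.mem_of_mem_erase hp)))
    apply Finset.prod_le_prod
    · intro i _; exact Nat.zero_le _
    · intro p hp
      haveI : Fact p.Prime := ⟨hS' p (Finset.mem_of_mem_erase hp)⟩
      rw [hrfac p (Finset.ne_of_mem_erase hp)]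
      exact w_le p _
  have hww : ww p₀ n = p₀ ^ padicValNat p₀ (p₀ ^ e).factorial := by
    unfold ww; rw [he]
  have h3 : ww p₀ n * ∏ p ∈ (insert p₀ S).erase p₀, ww p n ≤ ww p₀ n * bb r :=
    Nat.mul_le_mul_left _ h2
  refine h3.trans ?_
  rw [hww]
  have hq3 : 3 ≤ p₀ ^ e := by
    have h2le := hp₀.two_le
    have : 3 ≤ p₀ := by omega
    exact this.trans (Nat.le_self_pow (by omega) p₀)
  have hwq := w_le p₀ e
  have hhalf := half_le_ba n
  rcases Nat.lt_or_ge r 3 with hr3 | hr3
  · interval_cases r
    · exact absurd rfl hr0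
    · rw [bb_one, mul_one]
      have := w_le_ba p₀ hodd e he1
      rw [mul_one] at hqr
      calc p₀ ^ padicValNat p₀ (p₀ ^ e).factorial ≤ ba (p₀ ^ e) := this
        _ = ba n := by rw [hqr]
    · rw [bb2]
      by_cases hq : p₀ ^ e = 3
      · have hn6 : n = 6 := by rw [← hqr, hq]
        rw [hq, bb3] at hwq
        rw [hq, hn6]
        have : ba 6 = 9 := by norm_num [ba]
        rw [this]; omega
      · have hq4 : p₀ ^ e ≠ 4 := by
          intro h4
          have : p₀ ∣ 2 ^ 2 := by
            rw [show (2 : ℕ) ^ 2 = 4 by norm_num, ← h4]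
            exact dvd_pow_self p₀ (by omega)
          have := (Nat.prime_dvd_prime_iff_eq hp₀ Nat.prime_two).mp (hp₀.dvd_of_dvd_pow this)
          exact hodd this
        have hq5 : 5 ≤ p₀ ^ e := by omega
        have hb5 : 8 ≤ bb (p₀ ^ e) := by
          have := bb_mono hq5
          rwa [bb5] at this
        have hadd := bb_add (p₀ ^ e) (p₀ ^ e)
        have hn2 : p₀ ^ e + p₀ ^ e = n := by rw [← hqr]; ring
        rw [hn2] at hadd
        have : 4 * bb (p₀ ^ e) ≤ bb (p₀ ^ e) * bb (p₀ ^ e) := Nat.mul_le_mul_right _ (by omega)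
        omega
  · have hsum : p₀ ^ e + r + 3 ≤ n := by
      rw [← hqr]; nlinarith
    have hadd := bb_add (p₀ ^ e) r
    have hmono := bb_mono (show p₀ ^ e + r ≤ n - 3 by omega)
    have hadd3 := bb_add 3 (n - 3)
    rw [bb3, show 3 + (n - 3) = n by omega] at hadd3
    have h5 : p₀ ^ padicValNat p₀ (p₀ ^ e).factorial * bb r ≤ bb (p₀ ^ e) * bb r :=
      Nat.mul_le_mul_right _ hwq
    omega

theorem pvp_le_of_dvd (p : ℕ) [hp : Fact p.Prime] {a b : ℕ} (hb : b ≠ 0) (h : a ∣ b) :
    padicValNat p a ≤ padicValNat p b :=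
  (padicValNat_dvd_iff_le hb).mp (pow_padicValNat_dvd.trans h)

theorem res_inj {α : Type u} (N : Subgroup (Equiv.Perm α)) (s : Set α)
    (hs : ∀ g ∈ N, ∀ z, g z ∈ s ↔ z ∈ s) (g h : N)
    (h1 : resHom N s hs g = resHom N s hs h)
    (h2 : resHom N sᶜ (compl_inv N s hs) g = resHom N sᶜ (compl_inv N s hs) h) : g = h := by
  classical
  apply Subtype.ext
  ext z
  by_cases hz : z ∈ s
  · have := congrArg (fun f => ((f ⟨z, hz⟩ : {z // z ∈ s}) : α)) h1
    exact this
  · have := congrArg (fun f => ((f ⟨z, hz⟩ : {z // z ∈ sᶜ}) : α)) h2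
    exact this

theorem alt_le : ∀ (n : ℕ) (α : Type u) [Fintype α] [DecidableEq α]
    (N : Subgroup (Equiv.Perm α)),
    Group.IsNilpotent N → (∀ g ∈ N, Equiv.Perm.sign g = 1) → Fintype.card α = n →
    Nat.card N ≤ ba n := by
  intro n
  induction n using Nat.strong_induction_on with
  | _ n ih =>
    intro α _ _ N hN hev hcard
    classical
    rcases Nat.lt_or_ge n 2 with hn2 | hn2
    · have : Nat.card N = 1 := by
        haveI : Subsingleton α := Fintype.card_le_one_iff_subsingleton.mp (by omega)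
        haveI : Subsingleton (Equiv.Perm α) :=
          ⟨fun a b => Equiv.ext (fun x => Subsingleton.elim _ _)⟩
        exact Nat.card_eq_one_iff_unique.mpr ⟨inferInstance, ⟨1⟩⟩
      rw [this]; exact ba_pos n
    haveI : Nontrivial α := Fintype.one_lt_card_iff_nontrivial.mp (by omega)
    haveI : Nonempty α := inferInstance
    have hcardN : Nat.card α = n := by rw [Nat.card_eq_fintype_card, hcard]
    by_cases h2 : ∃ e, Nat.card N = 2 ^ e
    · obtain ⟨e, he⟩ := h2
      have hle : N ≤ alternatingGroup α :=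
        fun g hg => Equiv.Perm.mem_alternatingGroup.mpr (hev g hg)
      have hd : Nat.card N ∣ Nat.card (alternatingGroup α) := Subgroup.card_dvd_of_le hle
      have hA : 2 * Nat.card (alternatingGroup α) = n.factorial := by
        rw [two_mul_nat_card_alternatingGroup, Nat.card_perm, hcardN]
      have h1 : 2 ^ (e + 1) ∣ n.factorial := by
        rw [← hA, pow_succ, mul_comm, ← he]; exact Nat.mul_dvd_mul_left 2 hd
      have h2' : e + 1 ≤ nu n := (padicValNat_dvd_iff_le (Nat.factorial_ne_zero _)).mp h1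
      have h3 : 2 ^ (e + 1) ≤ bb n :=
        (Nat.pow_le_pow_right (by norm_num) h2').trans (bb_ge n)
      rw [pow_succ] at h3
      have := half_le_ba n
      rw [he]; omega
    by_cases htr : MulAction.IsPretransitive N α
    · obtain ⟨p₀, hp₀, hp₀d, hp₀2⟩ : ∃ p₀, p₀.Prime ∧ p₀ ∣ Nat.card N ∧ p₀ ≠ 2 := by
        by_contra hcon
        push Not at hcon
        apply h2
        exact ⟨_, Nat.eq_prime_pow_of_unique_prime_dvd Nat.card_pos.ne'
          (fun {d} hd hdd => hcon d hd hdd)⟩
      haveI : Fact p₀.Prime := ⟨hp₀⟩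
      obtain ⟨a, ha1, ha2⟩ := sylow_orbit N p₀
      have ha0 : a ≠ 0 := by
        rintro rfl
        have hpos : 0 < (Nat.card N).factorization p₀ :=
          Nat.Prime.factorization_pos_of_dvd hp₀ Nat.card_pos.ne' hp₀d
        have h1 : p₀ ^ (Nat.card N).factorization p₀ = 1 := by
          have : (p₀ ^ 0).factorial = 1 := by norm_num
          rw [this] at ha2
          exact Nat.dvd_one.mp ha2
        have : (Nat.card N).factorization p₀ = 0 := by
          by_contra hne
          have := Nat.one_lt_pow hne hp₀.one_lt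
          omega
        omega
      have hp₀n : p₀ ∣ Nat.card α := (dvd_pow_self p₀ ha0).trans ha1
      have hb : ∀ p ∈ (Nat.card N).primeFactors,
          p ^ (Nat.card N).factorization p ≤ ww p (Nat.card α) := by
        intro p hp
        have hpp := Nat.prime_of_mem_primeFactors hp
        haveI : Fact p.Prime := ⟨hpp⟩
        obtain ⟨b, hb1, hb2⟩ := sylow_orbit N p
        have hble : b ≤ (Nat.card α).factorization p :=
          (hpp.pow_dvd_iff_le_factorization (Nat.card_pos.ne')).mp hb1
        have hv : (Nat.card N).factorization p ≤ padicValNat p (p ^ b).factorial :=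
          (padicValNat_dvd_iff_le (Nat.factorial_ne_zero _)).mp hb2
        have hv2 : padicValNat p (p ^ b).factorial ≤
            padicValNat p (p ^ (Nat.card α).factorization p).factorial :=
          pvp_le_of_dvd p (Nat.factorial_ne_zero _)
            (Nat.factorial_dvd_factorial (Nat.pow_le_pow_right hpp.pos hble))
        unfold ww
        exact Nat.pow_le_pow_right hpp.pos (hv.trans hv2)
      have hc : Nat.card N ≠ 0 := Nat.card_pos.ne'
      have h1 : Nat.card N =
          ∏ p ∈ (Nat.card N).primeFactors, p ^ (Nat.card N).factorization p := by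
        have := Nat.prod_factorization_pow_eq_self hc
        rw [Finsupp.prod, Nat.support_factorization] at this
        exact this.symm
      calc Nat.card N = ∏ p ∈ (Nat.card N).primeFactors, p ^ (Nat.card N).factorization p := h1
        _ ≤ ∏ p ∈ (Nat.card N).primeFactors, ww p (Nat.card α) :=
            Finset.prod_le_prod (fun _ _ => Nat.zero_le _) hb
        _ ≤ ba (Nat.card α) := T2 (Nat.card_pos.ne') p₀ hp₀ hp₀2 hp₀n _
            (fun p hp => Nat.prime_of_mem_primeFactors hp)
        _ = ba n := by rw [hcardN]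
    · obtain ⟨x⟩ := ‹Nonempty α›
      have hne : ∃ y, y ∉ MulAction.orbit N x := by
        by_contra hall
        push Not at hall
        apply htr
        refine ⟨fun y z => ?_⟩
        obtain ⟨a, ha⟩ := hall y
        obtain ⟨b, hb⟩ := hall z
        refine ⟨b * a⁻¹, ?_⟩
        rw [← ha, ← hb, mul_smul, inv_smul_smul]
      obtain ⟨y, hy⟩ := hne
      have hs : ∀ g ∈ N, ∀ z, g z ∈ MulAction.orbit N x ↔ z ∈ MulAction.orbit N x := by
        intro g hg z
        constructor
        · intro h
          have := MulAction.mem_orbit_of_mem_orbit ((⟨g, hg⟩ : N)⁻¹) h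
          have e : ((⟨g, hg⟩ : N)⁻¹) • (g z) = z := by
            change (g⁻¹ : Equiv.Perm α) (g z) = z
            simp
          rwa [e] at this
        · intro h
          exact MulAction.mem_orbit_of_mem_orbit (⟨g, hg⟩ : N) h
      obtain ⟨s, hsdef⟩ : ∃ s : Set α, s = MulAction.orbit N x := ⟨_, rfl⟩
      rw [← hsdef] at hs hy
      have hsumN : Nat.card {z // z ∈ s} + Nat.card {z // z ∈ sᶜ} = n := by
        have h1 : Nat.card {z // z ∈ s} = s.ncard := Nat.card_coe_set_eq _
        have h2 : Nat.card {z // z ∈ sᶜ} = sᶜ.ncard := Nat.card_coe_set_eq sᶜ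
        rw [h1, h2, Set.ncard_add_ncard_compl, hcardN]
      have h1 : 0 < Nat.card {z // z ∈ s} := by
        haveI : Nonempty {z // z ∈ s} := ⟨⟨x, by rw [hsdef]; exact MulAction.mem_orbit_self x⟩⟩
        exact Nat.card_pos
      have h2' : 0 < Nat.card {z // z ∈ sᶜ} := by
        haveI : Nonempty {z // z ∈ sᶜ} := ⟨⟨y, hy⟩⟩
        exact Nat.card_pos
      have hsign : ∀ g : N, Equiv.Perm.sign (resHom N s hs g) *
          Equiv.Perm.sign (resHom N sᶜ (compl_inv N s hs) g) = 1 := by
        intro g
        have e : (g : Equiv.Perm α) = Equiv.Perm.ofSubtype (resHom N s hs g) *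
            Equiv.Perm.ofSubtype (resHom N sᶜ (compl_inv N s hs) g) := by
          ext z
          by_cases hz : z ∈ s
          · have hz' : ¬ z ∈ sᶜ := fun h => h hz
            rw [Equiv.Perm.mul_apply, Equiv.Perm.ofSubtype_apply_of_not_mem _ hz',
              Equiv.Perm.ofSubtype_apply_of_mem _ hz]
            rfl
          · have hgz : ¬ (g : Equiv.Perm α) z ∈ s := fun h => hz ((hs g.1 g.2 z).mp h)
            rw [Equiv.Perm.mul_apply,
              Equiv.Perm.ofSubtype_apply_of_mem _ (show z ∈ sᶜ from hz)]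
            have h3 : ((resHom N sᶜ (compl_inv N s hs) g) ⟨z, hz⟩ : α)
                = (g : Equiv.Perm α) z := rfl
            rw [h3, Equiv.Perm.ofSubtype_apply_of_not_mem _ hgz]
        have := hev g.1 g.2
        rw [e, map_mul, Equiv.Perm.sign_ofSubtype, Equiv.Perm.sign_ofSubtype] at this
        exact this
      have hnil₁ : Group.IsNilpotent (resHom N s hs).range :=
        Group.nilpotent_of_surjective _ (MonoidHom.rangeRestrict_surjective _)
      have hnil₂ : Group.IsNilpotent (resHom N sᶜ (compl_inv N s hs)).range :=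
        Group.nilpotent_of_surjective _ (MonoidHom.rangeRestrict_surjective _)
      have hdvd := res_card_dvd N s hs
      have hle : Nat.card N ≤ Nat.card (resHom N s hs).range *
          Nat.card (resHom N sᶜ (compl_inv N s hs)).range :=
        Nat.le_of_dvd (Nat.mul_pos Nat.card_pos Nat.card_pos) hdvd
      by_cases hpar : ∀ g : N, Equiv.Perm.sign (resHom N s hs g) = 1
      · have e1 : ∀ x ∈ (resHom N s hs).range, Equiv.Perm.sign x = 1 := by
          rintro _ ⟨g, rfl⟩; exact hpar g
        have e2 : ∀ y ∈ (resHom N sᶜ (compl_inv N s hs)).range, Equiv.Perm.sign y = 1 := by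
          rintro _ ⟨g, rfl⟩
          have := hsign g
          rwa [hpar g, one_mul] at this
        have c1 := ih (Fintype.card {z // z ∈ s})
          (by rw [← Nat.card_eq_fintype_card]; omega) _ _ hnil₁ e1 rfl
        have c2 := ih (Fintype.card {z // z ∈ sᶜ})
          (by rw [← Nat.card_eq_fintype_card]; omega) _ _ hnil₂ e2 rfl
        rw [← Nat.card_eq_fintype_card] at c1 c2
        calc Nat.card N ≤ Nat.card (resHom N s hs).range *
              Nat.card (resHom N sᶜ (compl_inv N s hs)).range := hle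
          _ ≤ ba (Nat.card {z // z ∈ s}) * ba (Nat.card {z // z ∈ sᶜ}) := Nat.mul_le_mul c1 c2
          _ ≤ ba (Nat.card {z // z ∈ s} + Nat.card {z // z ∈ sᶜ}) := ba_add h1 h2'
          _ = ba n := by rw [hsumN]
      · push Not at hpar
        obtain ⟨g₀, hg₀⟩ := hpar
        let χ : ((resHom N s hs).range × (resHom N sᶜ (compl_inv N s hs)).range) →* ℤˣ :=
          (Equiv.Perm.sign.comp (resHom N s hs).range.subtype).coprod
            (Equiv.Perm.sign.comp (resHom N sᶜ (compl_inv N s hs)).range.subtype)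
        have hχ : ∀ g : N, ((resHom N s hs).rangeRestrict g,
            (resHom N sᶜ (compl_inv N s hs)).rangeRestrict g) ∈ χ.ker := by
          intro g
          rw [MonoidHom.mem_ker]
          exact hsign g
        have hcardle : Nat.card N ≤ Nat.card χ.ker := by
          apply Nat.card_le_card_of_injective (fun g => (⟨_, hχ g⟩ : χ.ker))
          intro g h hgh
          have hgh' := congrArg Subtype.val hgh
          simp only [Prod.mk.injEq] at hgh'
          exact res_inj N s hs g h (congrArg Subtype.val hgh'.1) (congrArg Subtype.val hgh'.2)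
        have hidx : 2 ≤ χ.ker.index := by
          have h0 : χ.ker.index ≠ 0 := Subgroup.index_ne_zero_of_finite
          have h1 : χ.ker.index ≠ 1 := by
            rw [Ne, Subgroup.index_eq_one]
            intro htop
            have : ((resHom N s hs).rangeRestrict g₀,
                (1 : (resHom N sᶜ (compl_inv N s hs)).range)) ∈ χ.ker := by
              rw [htop]; trivial
            rw [MonoidHom.mem_ker] at this
            apply hg₀
            simpa [χ] using this
          omega
        have hmul := Subgroup.card_mul_index χ.ker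
        rw [Nat.card_prod] at hmul
        have b1 := nilp_le_bb _ _ (resHom N s hs).range hnil₁ rfl
        have b2 := nilp_le_bb _ _ (resHom N sᶜ (compl_inv N s hs)).range hnil₂ rfl
        have hadd := bb_add (Nat.card {z // z ∈ s}) (Nat.card {z // z ∈ sᶜ})
        rw [hsumN] at hadd
        have hhalf := half_le_ba n
        have : 2 * Nat.card N ≤ bb n := by
          calc 2 * Nat.card N ≤ 2 * Nat.card χ.ker := Nat.mul_le_mul_left 2 hcardle
            _ ≤ Nat.card χ.ker * χ.ker.index := by
                rw [mul_comm]; exact Nat.mul_le_mul_left _ hidx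
            _ = Nat.card (resHom N s hs).range *
                Nat.card (resHom N sᶜ (compl_inv N s hs)).range := hmul
            _ ≤ bb (Nat.card {z // z ∈ s}) * bb (Nat.card {z // z ∈ sᶜ}) :=
                Nat.mul_le_mul b1 b2
            _ ≤ bb n := hadd
        omega

theorem alt_card_le (n : ℕ) (N : Subgroup (alternatingGroup (Fin n)))
    (hN : Group.IsNilpotent N) : Nat.card N ≤ ba n := by
  have e := Subgroup.equivMapOfInjective N (alternatingGroup (Fin n)).subtype
    (Subgroup.subtype_injective _)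
  have hnil : Group.IsNilpotent (N.map (alternatingGroup (Fin n)).subtype) :=
    Group.nilpotent_of_mulEquiv e
  have h := alt_le n (Fin n) (N.map (alternatingGroup (Fin n)).subtype) hnil (by
    rintro _ ⟨g, _, rfl⟩
    exact Equiv.Perm.mem_alternatingGroup.mp g.2) (by simp)
  rwa [← Nat.card_congr e.toEquiv] at h

theorem card_sylow_two_alt (n : ℕ) (hn : 2 ≤ n) (P : Sylow 2 (alternatingGroup (Fin n))) :
    2 * Nat.card P = 2 ^ nu n := by
  haveI : Nontrivial (Fin n) := Fin.nontrivial_iff_two_le.mpr hn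
  have hA : 2 * Nat.card (alternatingGroup (Fin n)) = n.factorial := by
    rw [two_mul_nat_card_alternatingGroup, Nat.card_perm, Nat.card_fin]
  rw [P.card_eq_multiplicity, Nat.factorization_def _ Nat.prime_two]
  have h1 : nu n = 1 + padicValNat 2 (Nat.card (alternatingGroup (Fin n))) := by
    unfold nu
    rw [← hA, padicValNat.mul (by norm_num) Nat.card_pos.ne', padicValNat_self]
  rw [h1, pow_add, pow_one]

end Cfsg.Agent.Lib.helper19.NilpSym
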