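import Cfsg.Agent.Lib.helper19.NilpAlt

/-!
Nilpotent subgroups of `A_n`, `n ≡ 3 (mod 4)`: structure of the extremal subgroups, existence and
conjugacy.
-/

namespace Cfsg.Agent.Lib.helper19.NilpSym

universe u

theorem structure3g (n : ℕ) (hn : n % 4 = 3) (v : ℕ) (hvn : nu (n - 3) ≤ v + 1)
    (N : Subgroup (Equiv.Perm (Fin n)))
    (hN : Group.IsNilpotent N) (hcard : Nat.card N = 3 * 2 ^ v) :
    ∃ z ∈ N, z.IsThreeCycle ∧ ∃ T : Subgroup (Equiv.Perm (Fin n)), T ≤ N ∧
      Nat.card T = 2 ^ v ∧ ∀ t ∈ T, ∀ x, z x ≠ x → t x = x := by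
  classical
  haveI : Fact (Nat.Prime 3) := ⟨Nat.prime_three⟩
  let Q : Sylow 3 N := default
  have hQcard : Nat.card Q = 3 := by
    rw [Q.card_eq_multiplicity, hcard, fact3, pow_one]
  obtain ⟨zq, hzqQ, hzqo⟩ : ∃ zq : N, zq ∈ (Q : Subgroup N) ∧ orderOf zq = 3 := by
    obtain ⟨g, hg⟩ := exists_prime_orderOf_dvd_card' (G := Q) 3 (by rw [hQcard])
    exact ⟨g.1, g.2, (Subgroup.orderOf_coe g).trans hg⟩
  have hcent : ∀ g : N, g * zq = zq * g := by
    intro g
    have hM := cent_sup_sylow 3 Q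
    have hg : g ∈ ((Subgroup.centralizer ((Q : Subgroup N) : Set N) ⊔ (Q : Subgroup N)
        : Subgroup N) : Set N) := by rw [hM]; trivial
    rw [Subgroup.mul_normal] at hg
    obtain ⟨c, hc, u, hu, rfl⟩ := Set.mem_mul.mp hg
    have hu' : u ∈ Subgroup.zpowers zq := by
      have hle : Subgroup.zpowers zq ≤ (Q : Subgroup N) := by
        rw [Subgroup.zpowers_le]; exact hzqQ
      have heq : Subgroup.zpowers zq = (Q : Subgroup N) :=
        Subgroup.eq_of_le_of_card_ge hle (by rw [Nat.card_zpowers, hzqo, hQcard])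
      rw [heq]; exact hu
    obtain ⟨i, rfl⟩ := Subgroup.mem_zpowers_iff.mp hu'
    have h1 : zq * c = c * zq := Subgroup.mem_centralizer_iff.mp hc zq hzqQ
    calc c * zq ^ i * zq = c * (zq ^ i * zq) := mul_assoc _ _ _
      _ = c * (zq * zq ^ i) := by rw [(Commute.zpow_self zq i).eq]
      _ = (c * zq) * zq ^ i := (mul_assoc _ _ _).symm
      _ = (zq * c) * zq ^ i := by rw [h1]
      _ = zq * (c * zq ^ i) := mul_assoc _ _ _
  obtain ⟨z, hzdef⟩ : ∃ z : Equiv.Perm (Fin n), z = zq.1 := ⟨_, rfl⟩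
  have hz : z ∈ N := by rw [hzdef]; exact zq.2
  have hzo : orderOf z = 3 := by rw [hzdef, Subgroup.orderOf_coe]; exact hzqo
  have hcomm : ∀ g ∈ N, g * z = z * g := by
    intro g hg
    have := congrArg Subtype.val (hcent ⟨g, hg⟩)
    rw [hzdef]; exact this
  have hz3 : z ^ 3 = 1 := by rw [← hzo]; exact pow_orderOf_eq_one z
  have hz1 : z ≠ 1 := by
    intro h
    rw [h, orderOf_one] at hzo
    norm_num at hzo
  obtain ⟨s, hsdef⟩ : ∃ s : Set (Fin n), s = {x | z x ≠ x} := ⟨_, rfl⟩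
  have hs : ∀ g ∈ N, ∀ x, g x ∈ s ↔ x ∈ s := by
    intro g hg x
    have hc : z (g x) = g (z x) := by
      have := congrArg (fun f : Equiv.Perm (Fin n) => f x) (hcomm g hg)
      simpa using this.symm
    rw [hsdef]
    show z (g x) ≠ g x ↔ z x ≠ x
    rw [hc, Ne, Ne, g.injective.eq_iff]
  have hz3' : (⟨z, hz⟩ : N) ^ 3 = 1 := Subtype.ext hz3
  have hfp' : ∀ x ∈ s, z x ≠ x := by
    intro x hx
    rw [hsdef] at hx
    exact hx
  have cC := claimC (Nat.card {x // x ∈ s}) _ (resHom N s hs).range (resHom N s hs ⟨z, hz⟩)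
    (Group.nilpotent_of_surjective _ (MonoidHom.rangeRestrict_surjective _)) ⟨_, rfl⟩
    (by rw [← map_pow, hz3', map_one])
    (fun y h => hfp' y.1 y.2 (congrArg Subtype.val h)) rfl
  obtain ⟨cCa, cCb⟩ := cC
  have hsum : Nat.card {z // z ∈ s} + Nat.card {z // z ∈ sᶜ} = n := by
    have h1 : Nat.card {z // z ∈ s} = s.ncard := Nat.card_coe_set_eq _
    have h2 : Nat.card {z // z ∈ sᶜ} = sᶜ.ncard := Nat.card_coe_set_eq sᶜ
    rw [h1, h2, Set.ncard_add_ncard_compl, Nat.card_fin]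
  have hf : padicValNat 2 (Nat.card (resHom N sᶜ (compl_inv N s hs)).range)
      ≤ nu (Nat.card {z // z ∈ sᶜ}) := by
    have := Subgroup.card_subgroup_dvd_card (resHom N sᶜ (compl_inv N s hs)).range
    rw [Nat.card_perm] at this
    exact pv_le_of_dvd (Nat.factorial_ne_zero _) this
  have hv2 : padicValNat 2 (Nat.card N) = v := by
    rw [hcard, ← Nat.factorization_def _ Nat.prime_two, fact2]
  have hd := res_card_dvd N s hs
  have hvle : padicValNat 2 (Nat.card N) ≤
      padicValNat 2 (Nat.card (resHom N s hs).range) +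
      padicValNat 2 (Nat.card (resHom N sᶜ (compl_inv N s hs)).range) := by
    rw [← padicValNat.mul Nat.card_pos.ne' Nat.card_pos.ne']
    exact pv_le_of_dvd (Nat.mul_ne_zero Nat.card_pos.ne' Nat.card_pos.ne') hd
  have hpos : 0 < Nat.card {x // x ∈ s} := by
    have : ∃ x, z x ≠ x := by
      by_contra hall
      push Not at hall
      exact hz1 (Equiv.ext hall)
    obtain ⟨x, hx⟩ := this
    haveI : Nonempty {x // x ∈ s} := ⟨⟨x, by rw [hsdef]; exact hx⟩⟩
    exact Nat.card_pos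
  have hk3 : Nat.card {x // x ∈ s} = 3 := by
    obtain ⟨k, hk⟩ := cCb
    by_contra hne
    have hk2 : 2 ≤ k := by omega
    obtain ⟨j, hj⟩ : ∃ j, n = 4 * j + 3 := ⟨n / 4, by omega⟩
    have hj1 : 1 ≤ j := by omega
    obtain ⟨j', rfl⟩ : ∃ j', j = j' + 1 := ⟨j - 1, by omega⟩
    have e1 : nu (n - 3) = nu (j' + 1) + 3 * (j' + 1) := by
      rw [hj, show 4 * (j' + 1) + 3 - 3 = 4 * (j' + 1) by omega, nu_four]
    have e2 : nu (Nat.card {x // x ∈ s} / 3) + nu (Nat.card {z // z ∈ sᶜ}) ≤ nu (4 * j' + 3) := by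
      refine (nu_add _ _).trans (nu_mono ?_)
      omega
    rw [nu_four3] at e2
    have e3 : nu j' ≤ nu (j' + 1) := nu_mono (by omega)
    have := hvle.trans (Nat.add_le_add cCa hf)
    omega
  have hthree : z.IsThreeCycle := by
    apply card_support_eq_three_iff.mp
    rw [← hk3, Nat.card_eq_fintype_card, Fintype.card_subtype]
    congr 1
    ext x
    simp [hsdef]
  refine ⟨z, hz, hthree, ?_⟩
  let T₀ : Sylow 2 N := default
  have hT₀card : Nat.card T₀ = 2 ^ v := by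
    rw [T₀.card_eq_multiplicity, hcard, fact2]
  have hTs : (T₀ : Subgroup N).map (resHom N s hs) = ⊥ := by
    have hp : IsPGroup 2 ((T₀ : Subgroup N).map (resHom N s hs)) := T₀.isPGroup'.map _
    obtain ⟨e, he⟩ := IsPGroup.iff_card.mp hp
    have hd : Nat.card ((T₀ : Subgroup N).map (resHom N s hs)) ∣
        Nat.card (resHom N s hs).range :=
      Subgroup.card_dvd_of_le (by rintro _ ⟨t, _, rfl⟩; exact ⟨t, rfl⟩)
    rw [he] at hd
    have h1 : e ≤ padicValNat 2 (Nat.card (resHom N s hs).range) :=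
      (padicValNat_dvd_iff_le Nat.card_pos.ne').mp hd
    have e0 : e = 0 := by
      rw [hk3] at cCa
      have : nu (3 / 3) = 0 := by norm_num [nu_one]
      omega
    rw [e0, pow_zero] at he
    exact (Subgroup.card_eq_one).mp he
  refine ⟨(T₀ : Subgroup N).map N.subtype, ?_, ?_, ?_⟩
  · rintro _ ⟨t, _, rfl⟩
    exact t.2
  · rw [Subgroup.card_map_of_injective (Subgroup.subtype_injective N)]
    exact hT₀card
  · rintro _ ⟨t, ht, rfl⟩ x hx
    have hmem : resHom N s hs t ∈ (T₀ : Subgroup N).map (resHom N s hs) := ⟨t, ht, rfl⟩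
    rw [hTs, Subgroup.mem_bot] at hmem
    have hxs : x ∈ s := by rw [hsdef]; exact hx
    have := congrArg (fun f => ((f ⟨x, hxs⟩ : {z // z ∈ s}) : Fin n)) hmem
    exact this

theorem conj3A (n : ℕ) (hn : n % 4 = 3) (h7 : 7 ≤ n) (N₁ N₂ : Subgroup (Equiv.Perm (Fin n)))
    (h₁ : Group.IsNilpotent N₁) (h₂ : Group.IsNilpotent N₂)
    (ev₁ : ∀ g ∈ N₁, Equiv.Perm.sign g = 1) (ev₂ : ∀ g ∈ N₂, Equiv.Perm.sign g = 1)
    (c₁ : Nat.card N₁ = 3 * 2 ^ (nu (n - 3) - 1))
    (c₂ : Nat.card N₂ = 3 * 2 ^ (nu (n - 3) - 1)) :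
    ∃ g : Equiv.Perm (Fin n), Equiv.Perm.sign g = 1 ∧
      N₂ = N₁.map (MulAut.conj g).toMonoidHom := by
  classical
  have hvn : nu (n - 3) ≤ nu (n - 3) - 1 + 1 := by omega
  obtain ⟨z₁, hz₁, t₁, T₁, hT₁, cT₁, f₁⟩ := structure3g n hn _ hvn N₁ h₁ c₁
  obtain ⟨z₂, hz₂, t₂, T₂, hT₂, cT₂, f₂⟩ := structure3g n hn _ hvn N₂ h₂ c₂
  have hsupp₁ : z₁.support.card = 3 := card_support_eq_three_iff.mpr t₁
  have hsupp : z₂.support.card = 3 := card_support_eq_three_iff.mpr t₂
  obtain ⟨g₀, hg₀, hg₀s⟩ : ∃ g₀ : Equiv.Perm (Fin n), g₀ * z₁ * g₀⁻¹ = z₂ ∧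
      Equiv.Perm.sign g₀ = 1 := by
    obtain ⟨g, hg⟩ := isConj_iff.mp (Equiv.Perm.isConj_iff_cycleType_eq.mpr (t₁.trans t₂.symm))
    rcases Int.units_eq_one_or (Equiv.Perm.sign g) with h | h
    · exact ⟨g, hg, h⟩
    · have hc : 1 < z₁.supportᶜ.card := by
        rw [Finset.card_compl, hsupp₁, Fintype.card_fin]; omega
      obtain ⟨a, ha, b, hb, hab⟩ := Finset.one_lt_card.mp hc
      have ha' : z₁ a = a := by simpa using ha
      have hb' : z₁ b = b := by simpa using hb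
      have hdis : Equiv.Perm.Disjoint (Equiv.swap a b) z₁ := by
        intro x
        by_cases hxa : x = a
        · right; rw [hxa]; exact ha'
        · by_cases hxb : x = b
          · right; rw [hxb]; exact hb'
          · left; exact Equiv.swap_apply_of_ne_of_ne hxa hxb
      have hcomm : Equiv.swap a b * z₁ = z₁ * Equiv.swap a b := hdis.commute.eq
      refine ⟨g * Equiv.swap a b, ?_, ?_⟩
      · rw [← hg, mul_inv_rev, Equiv.swap_inv]
        calc g * Equiv.swap a b * z₁ * (Equiv.swap a b * g⁻¹)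
            = g * (Equiv.swap a b * z₁) * Equiv.swap a b * g⁻¹ := by group
          _ = g * (z₁ * Equiv.swap a b) * Equiv.swap a b * g⁻¹ := by rw [hcomm]
          _ = g * z₁ * (Equiv.swap a b * Equiv.swap a b) * g⁻¹ := by group
          _ = g * z₁ * g⁻¹ := by rw [Equiv.swap_mul_self, mul_one]
      · rw [map_mul, h, Equiv.Perm.sign_swap hab]; decide
  let H : Subgroup (Equiv.Perm (Fin n)) :=
    { carrier := {f | ∀ a, ¬ (z₂ a = a) → f a = a}
      mul_mem' := fun {f g} hf hg a ha => by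
        rw [Equiv.Perm.mul_apply, hg a ha, hf a ha]
      one_mem' := fun a _ => rfl
      inv_mem' := fun {f} hf a ha => by
        rw [Equiv.Perm.inv_eq_iff_eq]; exact (hf a ha).symm }
  have hHmem : ∀ f : Equiv.Perm (Fin n), f ∈ H ↔ ∀ a, ¬ (z₂ a = a) → f a = a := fun f => Iff.rfl
  have hHcard : Nat.card H = (n - 3).factorial := by
    have e := Equiv.Perm.subtypeEquivSubtypePerm (fun a : Fin n => z₂ a = a)
    have h1 : Nat.card H = Nat.card (Equiv.Perm {a : Fin n // z₂ a = a}) :=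
      (Nat.card_congr e).symm
    rw [h1, Nat.card_perm]
    congr 1
    rw [Nat.card_eq_fintype_card, Fintype.card_subtype]
    have : (Finset.univ.filter (fun a : Fin n => z₂ a = a)) = z₂.supportᶜ := by
      ext a; simp
    rw [this, Finset.card_compl, hsupp, Fintype.card_fin]
  obtain ⟨L, hLdef⟩ : ∃ L : Subgroup (Equiv.Perm (Fin n)), L = H ⊓ alternatingGroup (Fin n) :=
    ⟨_, rfl⟩
  have hLH : L ≤ H := by rw [hLdef]; exact inf_le_left
  have hLA : ∀ f ∈ L, Equiv.Perm.sign f = 1 := by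
    intro f hf
    rw [hLdef] at hf
    exact Equiv.Perm.mem_alternatingGroup.mp hf.2
  have hrel : (alternatingGroup (Fin n)).relIndex H = 2 := by
    have hc : 1 < z₂.supportᶜ.card := by
      rw [Finset.card_compl, hsupp, Fintype.card_fin]; omega
    obtain ⟨a, ha, b, hb, hab⟩ := Finset.one_lt_card.mp hc
    have ha' : z₂ a = a := by simpa using ha
    have hb' : z₂ b = b := by simpa using hb
    have hsw : Equiv.swap a b ∈ H := by
      rw [hHmem]
      intro x hx
      exact Equiv.swap_apply_of_ne_of_ne (fun h => hx (h ▸ ha')) (fun h => hx (h ▸ hb'))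
    rw [Subgroup.relIndex, Subgroup.index_eq_two_iff]
    refine ⟨⟨Equiv.swap a b, hsw⟩, fun b' => ?_⟩
    rw [Subgroup.mem_subgroupOf, Subgroup.mem_subgroupOf, Equiv.Perm.mem_alternatingGroup,
      Equiv.Perm.mem_alternatingGroup]
    simp only [Subgroup.coe_mul, map_mul, Equiv.Perm.sign_swap hab]
    rcases Int.units_eq_one_or (Equiv.Perm.sign (b' : Equiv.Perm (Fin n))) with h | h
    · rw [h]; decide
    · rw [h]; decide
  have hLcard : 2 * Nat.card L = (n - 3).factorial := by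
    have h1 : L.relIndex H = 2 := by
      rw [hLdef, Subgroup.inf_relIndex_left]; exact hrel
    have h2 := Subgroup.relIndex_mul_index hLH
    have h3 := Subgroup.card_mul_index L
    have h4 := Subgroup.card_mul_index H
    rw [← h2, h1] at h3
    have h5 : H.index ≠ 0 := Subgroup.index_ne_zero_of_finite
    have h6 : Nat.card L * 2 * H.index = Nat.card H * H.index := by
      rw [h4, ← h3]; ring
    have h7' := Nat.eq_of_mul_eq_mul_right (Nat.pos_of_ne_zero h5) h6
    rw [← hHcard]; omega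
  have hfac : (Nat.card L).factorization 2 = nu (n - 3) - 1 := by
    rw [Nat.factorization_def _ Nat.prime_two]
    have h1 : nu (n - 3) = 1 + padicValNat 2 (Nat.card L) := by
      unfold nu
      rw [← hLcard, padicValNat.mul (by norm_num) Nat.card_pos.ne', padicValNat_self]
    omega
  have hT₂L : T₂ ≤ L := by
    intro t ht
    rw [hLdef]
    exact ⟨(hHmem t).mpr (fun a ha => f₂ t ht a ha),
      Equiv.Perm.mem_alternatingGroup.mpr (ev₂ t (hT₂ ht))⟩
  have hT₁L : T₁.map (MulAut.conj g₀).toMonoidHom ≤ L := by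
    rintro _ ⟨t, ht, rfl⟩
    rw [hLdef]
    have hA : g₀ * t * g₀⁻¹ ∈ H := by
      rw [hHmem]
      intro a ha
      have hz : z₁ (g₀⁻¹ a) ≠ g₀⁻¹ a := by
        intro h
        apply ha
        rw [← hg₀]
        show g₀ (z₁ (g₀⁻¹ a)) = a
        rw [h]
        exact g₀.apply_symm_apply a
      have := f₁ t ht _ hz
      show g₀ (t (g₀⁻¹ a)) = a
      rw [this]
      exact g₀.apply_symm_apply a
    have hB : g₀ * t * g₀⁻¹ ∈ alternatingGroup (Fin n) := by
      rw [Equiv.Perm.mem_alternatingGroup, map_mul, map_mul, map_inv, ev₁ t (hT₁ ht), hg₀s]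
      decide
    exact Subgroup.mem_inf.mpr ⟨hA, hB⟩
  have cA : Nat.card ((T₁.map (MulAut.conj g₀).toMonoidHom).subgroupOf L)
      = 2 ^ (Nat.card L).factorization 2 := by
    rw [hfac, Nat.card_congr (Subgroup.subgroupOfEquivOfLe hT₁L).toEquiv,
      Subgroup.card_map_of_injective (MulAut.conj g₀).injective, cT₁]
  have cB : Nat.card (T₂.subgroupOf L) = 2 ^ (Nat.card L).factorization 2 := by
    rw [hfac, Nat.card_congr (Subgroup.subgroupOfEquivOfLe hT₂L).toEquiv, cT₂]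
  let Q₁ : Sylow 2 L := Sylow.ofCard _ cA
  let Q₂ : Sylow 2 L := Sylow.ofCard _ cB
  obtain ⟨h, hh⟩ := MulAction.exists_smul_eq L Q₁ Q₂
  have key : ∀ t ∈ T₁, (h : Equiv.Perm (Fin n)) * (g₀ * t * g₀⁻¹) *
      (h : Equiv.Perm (Fin n))⁻¹ ∈ T₂ := by
    intro t ht
    have hm : g₀ * t * g₀⁻¹ ∈ T₁.map (MulAut.conj g₀).toMonoidHom := ⟨t, ht, rfl⟩
    have h1 : (⟨g₀ * t * g₀⁻¹, hT₁L hm⟩ : L) ∈ (Q₁ : Subgroup L) := by
      show _ ∈ (T₁.map (MulAut.conj g₀).toMonoidHom).subgroupOf L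
      exact Subgroup.mem_subgroupOf.mpr hm
    have h2 : h * ⟨g₀ * t * g₀⁻¹, hT₁L hm⟩ * h⁻¹ ∈ (Q₂ : Subgroup L) := by
      rw [← hh, Sylow.coe_subgroup_smul]
      exact Subgroup.smul_mem_pointwise_smul _ (MulAut.conj h) _ h1
    have h3 : (h * ⟨g₀ * t * g₀⁻¹, hT₁L hm⟩ * h⁻¹ : L) ∈ T₂.subgroupOf L := h2
    exact Subgroup.mem_subgroupOf.mp h3
  have hhH : ∀ a, ¬ (z₂ a = a) → (h : Equiv.Perm (Fin n)) a = a := (hHmem _).mp (hLH h.2)
  have hcommz : (h : Equiv.Perm (Fin n)) * z₂ * (h : Equiv.Perm (Fin n))⁻¹ = z₂ := by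
    rw [mul_inv_eq_iff_eq_mul]
    ext a
    simp only [Equiv.Perm.mul_apply]
    by_cases ha : z₂ a = a
    · rw [ha]
      by_cases hb : z₂ ((h : Equiv.Perm (Fin n)) a) = (h : Equiv.Perm (Fin n)) a
      · rw [hb]
      · exfalso
        have h1 := hhH _ hb
        have h2 : (h : Equiv.Perm (Fin n)) a = a := (h : Equiv.Perm (Fin n)).injective h1
        rw [h2] at hb
        exact hb ha
    · rw [hhH a ha]
      have : ¬ (z₂ (z₂ a) = z₂ a) := fun h' => ha (z₂.injective h')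
      rw [hhH _ this]
  refine ⟨(h : Equiv.Perm (Fin n)) * g₀, ?_, ?_⟩
  · rw [map_mul, hLA _ h.2, hg₀s, one_mul]
  obtain ⟨K, hK⟩ : ∃ K, K = N₁.map (MulAut.conj ((h : Equiv.Perm (Fin n)) * g₀)).toMonoidHom :=
    ⟨_, rfl⟩
  rw [← hK]
  have cK : Nat.card K = 3 * 2 ^ (nu (n - 3) - 1) := by
    rw [hK, Subgroup.card_map_of_injective (MulAut.conj _).injective, c₁]
  have hzK : z₂ ∈ K := by
    rw [hK]
    refine ⟨z₁, hz₁, ?_⟩
    simp only [MulEquiv.coe_toMonoidHom, MulAut.conj_apply, mul_inv_rev]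
    rw [← hcommz, ← hg₀]
    group
  obtain ⟨T', hT'⟩ : ∃ T', T' = T₁.map (MulAut.conj ((h : Equiv.Perm (Fin n)) * g₀)).toMonoidHom :=
    ⟨_, rfl⟩
  have hT'K : T' ≤ K := by rw [hT', hK]; exact Subgroup.map_mono hT₁
  have hT'N : T' ≤ N₂ := by
    rw [hT']
    rintro _ ⟨t, ht, rfl⟩
    have := key t ht
    apply hT₂
    simpa [MulAut.conj_apply, mul_assoc] using this
  have cT' : Nat.card T' = 2 ^ (nu (n - 3) - 1) := by
    rw [hT', Subgroup.card_map_of_injective (MulAut.conj _).injective, cT₁]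
  have hdvd : 3 * 2 ^ (nu (n - 3) - 1) ∣ Nat.card (K ⊓ N₂ : Subgroup (Equiv.Perm (Fin n))) := by
    apply Nat.Coprime.mul_dvd_of_dvd_of_dvd
    · exact Nat.Coprime.pow_right _ (by norm_num)
    · have := Subgroup.orderOf_dvd_natCard (K ⊓ N₂) (x := z₂) ⟨hzK, hz₂⟩
      rwa [t₂.orderOf] at this
    · rw [← cT']; exact Subgroup.card_dvd_of_le (le_inf hT'K hT'N)
  have hge : 3 * 2 ^ (nu (n - 3) - 1) ≤ Nat.card (K ⊓ N₂ : Subgroup (Equiv.Perm (Fin n))) :=
    Nat.le_of_dvd Nat.card_pos hdvd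
  have e1 : K ⊓ N₂ = K := Subgroup.eq_of_le_of_card_ge inf_le_left (by rw [cK]; exact hge)
  have e2 : K ⊓ N₂ = N₂ := Subgroup.eq_of_le_of_card_ge inf_le_right (by rw [c₂]; exact hge)
  rw [← e2, e1]

theorem conj3A' (n : ℕ) (hn : n % 4 = 3) (h7 : 7 ≤ n)
    (N₁ N₂ : Subgroup (alternatingGroup (Fin n)))
    (h₁ : Group.IsNilpotent N₁) (h₂ : Group.IsNilpotent N₂)
    (c₁ : Nat.card N₁ = 3 * 2 ^ (nu (n - 3) - 1))
    (c₂ : Nat.card N₂ = 3 * 2 ^ (nu (n - 3) - 1)) :
    ∃ g : alternatingGroup (Fin n), N₂ = N₁.map (MulAut.conj g).toMonoidHom := by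
  have e₁ := Subgroup.equivMapOfInjective N₁ (alternatingGroup (Fin n)).subtype
    (Subgroup.subtype_injective _)
  have e₂ := Subgroup.equivMapOfInjective N₂ (alternatingGroup (Fin n)).subtype
    (Subgroup.subtype_injective _)
  have n₁ : Group.IsNilpotent (N₁.map (alternatingGroup (Fin n)).subtype) :=
    Group.nilpotent_of_mulEquiv e₁
  have n₂ : Group.IsNilpotent (N₂.map (alternatingGroup (Fin n)).subtype) :=
    Group.nilpotent_of_mulEquiv e₂
  have ev₁ : ∀ g ∈ N₁.map (alternatingGroup (Fin n)).subtype, Equiv.Perm.sign g = 1 := by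
    rintro _ ⟨g, _, rfl⟩
    exact Equiv.Perm.mem_alternatingGroup.mp g.2
  have ev₂ : ∀ g ∈ N₂.map (alternatingGroup (Fin n)).subtype, Equiv.Perm.sign g = 1 := by
    rintro _ ⟨g, _, rfl⟩
    exact Equiv.Perm.mem_alternatingGroup.mp g.2
  obtain ⟨g', hg's, hg'⟩ := conj3A n hn h7 _ _ n₁ n₂ ev₁ ev₂
    (by rw [← Nat.card_congr e₁.toEquiv]; exact c₁)
    (by rw [← Nat.card_congr e₂.toEquiv]; exact c₂)
  refine ⟨⟨g', Equiv.Perm.mem_alternatingGroup.mpr hg's⟩, ?_⟩
  apply le_antisymm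
  · intro x hx
    have h1 : (x : Equiv.Perm (Fin n)) ∈ N₂.map (alternatingGroup (Fin n)).subtype :=
      ⟨x, hx, rfl⟩
    rw [hg'] at h1
    obtain ⟨y', ⟨y, hy, rfl⟩, hyx⟩ := h1
    exact ⟨y, hy, Subtype.ext hyx⟩
  · rintro _ ⟨y, hy, rfl⟩
    have h1 : (g' * (y : Equiv.Perm (Fin n)) * g'⁻¹) ∈
        (N₁.map (alternatingGroup (Fin n)).subtype).map (MulAut.conj g').toMonoidHom :=
      ⟨y.1, ⟨y, hy, rfl⟩, rfl⟩
    rw [← hg'] at h1
    obtain ⟨x, hx, hxe⟩ := h1
    have : x = (MulAut.conj (⟨g', Equiv.Perm.mem_alternatingGroup.mpr hg's⟩ :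
        alternatingGroup (Fin n))).toMonoidHom y := Subtype.ext hxe
    rw [← this]; exact hx

theorem exists3A (n : ℕ) (hn : n % 4 = 3) (P : Sylow 2 (alternatingGroup (Fin (n - 3)))) :
    ∃ M : Subgroup (alternatingGroup (Fin n)), Group.IsNilpotent M ∧
      Nat.card M = 3 * Nat.card P ∧
      Nonempty (M ≃* (↥(P : Subgroup (alternatingGroup (Fin (n - 3)))) ×
        Multiplicative (ZMod 3))) := by
  classical
  have e : Fin (n - 3) ⊕ Multiplicative (ZMod 3) ≃ Fin n := by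
    apply Fintype.equivOfCardEq
    simp [ZMod.card]
    omega
  let ψ₀ : (↥(P : Subgroup (alternatingGroup (Fin (n - 3)))) × Multiplicative (ZMod 3)) →*
      Equiv.Perm (Fin n) :=
    e.permCongrHom.toMonoidHom.comp ((Equiv.Perm.sumCongrHom _ _).comp
      (MonoidHom.prodMap ((alternatingGroup (Fin (n - 3))).subtype.comp
          (P : Subgroup (alternatingGroup (Fin (n - 3)))).subtype)
        (MulAction.toPermHom (Multiplicative (ZMod 3)) (Multiplicative (ZMod 3)))))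
  have hψ₀ : Function.Injective ψ₀ := by
    refine e.permCongrHom.injective.comp (Equiv.Perm.sumCongrHom_injective.comp ?_)
    exact Function.Injective.prodMap
      ((Subgroup.subtype_injective _).comp (Subgroup.subtype_injective _))
      MulAction.toPerm_injective
  have hmem : ∀ x, ψ₀ x ∈ alternatingGroup (Fin n) := by
    rintro ⟨p, c⟩
    rw [Equiv.Perm.mem_alternatingGroup]
    have h1 : Equiv.Perm.sign ((p : alternatingGroup (Fin (n - 3))) :
        Equiv.Perm (Fin (n - 3))) = 1 := Equiv.Perm.mem_alternatingGroup.mp p.1.2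
    have h2 : Equiv.Perm.sign (MulAction.toPerm c : Equiv.Perm (Multiplicative (ZMod 3))) = 1 := by
      have hc3 : c ^ 3 = 1 := by
        have := pow_card_eq_one (x := c)
        simpa [ZMod.card] using this
      have h3 : (Equiv.Perm.sign
          (MulAction.toPerm c : Equiv.Perm (Multiplicative (ZMod 3)))) ^ 3 = 1 := by
        rw [← map_pow]
        have : (MulAction.toPerm c : Equiv.Perm (Multiplicative (ZMod 3))) ^ 3 = 1 := by
          have := congrArg
            (MulAction.toPermHom (Multiplicative (ZMod 3)) (Multiplicative (ZMod 3))) hc3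
          rw [map_pow, map_one] at this
          exact this
        rw [this, map_one]
      rcases Int.units_eq_one_or (Equiv.Perm.sign
          (MulAction.toPerm c : Equiv.Perm (Multiplicative (ZMod 3)))) with h | h
      · exact h
      · rw [h] at h3; exact absurd h3 (by decide)
    show Equiv.Perm.sign (e.permCongr (Equiv.Perm.sumCongr
      ((p : alternatingGroup (Fin (n - 3))) : Equiv.Perm (Fin (n - 3)))
      (MulAction.toPerm c))) = 1
    rw [Equiv.Perm.sign_permCongr, Equiv.Perm.sign_sumCongr, h1, h2, one_mul]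
  let ψ : (↥(P : Subgroup (alternatingGroup (Fin (n - 3)))) × Multiplicative (ZMod 3)) →*
      alternatingGroup (Fin n) := ψ₀.codRestrict (alternatingGroup (Fin n)) hmem
  have hψ : Function.Injective ψ := by
    intro a b hab
    exact hψ₀ (congrArg Subtype.val hab)
  let eM : (↥(P : Subgroup (alternatingGroup (Fin (n - 3)))) × Multiplicative (ZMod 3)) ≃*
      ψ.range := MonoidHom.ofInjective hψ
  refine ⟨ψ.range, ?_, ?_, ⟨eM.symm⟩⟩
  · haveI : Group.IsNilpotent (↥(P : Subgroup (alternatingGroup (Fin (n - 3))))) :=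
      P.isPGroup'.isNilpotent
    exact Group.nilpotent_of_mulEquiv eM
  · rw [← Nat.card_congr eM.toEquiv, Nat.card_prod, mul_comm]
    congr 1
    simp [Nat.card_eq_fintype_card, ZMod.card]

end Cfsg.Agent.Lib.helper19.NilpSym
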