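import Cfsg.Agent.Lib.helper19.GL2T

/-!
Abstract part for Sylow 2-subgroups of commutator subgroups of orthogonal groups.
-/

namespace Cfsg.Agent.Lib.helper19.OmA

open Cfsg.Agent.Lib.helper19.SylAb Cfsg.Agent.Lib.helper19.GL2T

theorem tri_comm {D : Type*} [Group D] {m : ℕ} (i j k : Fin m) (hij : i ≠ j) (hik : i ≠ k)
    (hjk : j ≠ k) (d₁ d₂ x₁ x₂ : D) :
    ((Pi.mulSingle i d₁ * Pi.mulSingle j x₁ : Fin m → D) *
      (Pi.mulSingle i d₂ * Pi.mulSingle k x₂) *
      (Pi.mulSingle i d₁ * Pi.mulSingle j x₁)⁻¹ * (Pi.mulSingle i d₂ * Pi.mulSingle k x₂)⁻¹) =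
      Pi.mulSingle i (d₁ * d₂ * d₁⁻¹ * d₂⁻¹) := by
  funext l
  simp only [Pi.mul_apply, Pi.inv_apply, Pi.mulSingle_apply]
  rcases eq_or_ne l i with rfl | h1
  · simp [hij, hik]
  · rcases eq_or_ne l j with rfl | h2
    · simp [h1, hjk]
    · rcases eq_or_ne l k with rfl | h3
      · simp [h1, h2]
      · simp [h1, h2, h3]

theorem exists_two {m : ℕ} (hm : 3 ≤ m) (i : Fin m) : ∃ j k : Fin m, i ≠ j ∧ i ≠ k ∧ j ≠ k := by
  have h0 : (0 : ℕ) < m := by omega
  have h1' : (1 : ℕ) < m := by omega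
  have h2' : (2 : ℕ) < m := by omega
  by_cases c0 : (i : ℕ) = 0
  · refine ⟨⟨1, h1'⟩, ⟨2, h2'⟩, fun h => ?_, fun h => ?_, fun h => ?_⟩
    · have h' : (i : ℕ) = 1 := congrArg Fin.val h
      omega
    · have h' : (i : ℕ) = 2 := congrArg Fin.val h
      omega
    · have h' : (1 : ℕ) = 2 := congrArg Fin.val h
      omega
  · by_cases c1 : (i : ℕ) = 1
    · refine ⟨⟨0, h0⟩, ⟨2, h2'⟩, fun h => ?_, fun h => ?_, fun h => ?_⟩
      · have h' : (i : ℕ) = 0 := congrArg Fin.val h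
        omega
      · have h' : (i : ℕ) = 2 := congrArg Fin.val h
        omega
      · have h' : (0 : ℕ) = 2 := congrArg Fin.val h
        omega
    · refine ⟨⟨0, h0⟩, ⟨1, h1'⟩, fun h => ?_, fun h => ?_, fun h => ?_⟩
      · have h' : (i : ℕ) = 0 := congrArg Fin.val h
        omega
      · have h' : (i : ℕ) = 1 := congrArg Fin.val h
        omega
      · have h' : (0 : ℕ) = 1 := congrArg Fin.val h
        omega

theorem ker_EE {D : Type*} [Group D] {m : ℕ} (hm : 3 ≤ m) (R : Subgroup (Equiv.Perm (Fin m)))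
    {E A : Type*} [Group E] [CommGroup A] (φ : ↥R →* MulAut (Fin m → D))
    (Ψ : ((Fin m → D) ⋊[φ] ↥R) × E →* A)
    (h1 : ∀ π : ↥R, Ψ (SemidirectProduct.inr π, 1) = 1)
    (h2 : ∀ (i j : Fin m) (d : D), Ψ (SemidirectProduct.inl (Pi.mulSingle i d), 1) =
      Ψ (SemidirectProduct.inl (Pi.mulSingle j d), 1))
    (hR : EE 2 ↥R) (hD : EE 2 D) (hE : ∀ e : E, e * e = 1) :
    EE 2 ↥Ψ.ker := by
  classical
  obtain ⟨C, hC⟩ : ∃ C : Subgroup (((Fin m → D) ⋊[φ] ↥R) × E),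
      C = (commutator ↥Ψ.ker).map Ψ.ker.subtype := ⟨_, rfl⟩
  have F0 : ∀ a b : ((Fin m → D) ⋊[φ] ↥R) × E, Ψ a = 1 → Ψ b = 1 →
      a * b * a⁻¹ * b⁻¹ ∈ C := by
    intro a b ha hb
    rw [hC]
    exact comm_mem Ψ a b ha hb
  have F1 : ∀ a b : ((Fin m → D) ⋊[φ] ↥R) × E, Ψ a = 1 → Ψ b = 1 → a * a ∈ C → b * b ∈ C →
      (a * b) * (a * b) ∈ C := by
    intro a b ha hb haa hbb
    have e : (a * b) * (a * b) = (a * a) * (a⁻¹ * b * a⁻¹⁻¹ * b⁻¹) * (b * b) := by group
    rw [e]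
    exact C.mul_mem (C.mul_mem haa (F0 a⁻¹ b (by rw [map_inv, ha, inv_one]) hb)) hbb
  obtain ⟨ι₀, hι₀⟩ : ∃ ι₀ : (Fin m → D) →* ((Fin m → D) ⋊[φ] ↥R) × E,
      ∀ f, ι₀ f = (SemidirectProduct.inl f, 1) :=
    ⟨(MonoidHom.inl _ E).comp SemidirectProduct.inl, fun f => rfl⟩
  obtain ⟨ρ₀, hρ₀⟩ : ∃ ρ₀ : ↥R →* ((Fin m → D) ⋊[φ] ↥R) × E,
      ∀ π, ρ₀ π = (SemidirectProduct.inr π, 1) :=
    ⟨(MonoidHom.inl _ E).comp SemidirectProduct.inr, fun f => rfl⟩
  have hΨs : ∀ (i j : Fin m) (d : D), Ψ (ι₀ (Pi.mulSingle i d * Pi.mulSingle j d⁻¹)) = 1 := by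
    intro i j d
    have e1 : Ψ (ι₀ (Pi.mulSingle j d⁻¹)) = Ψ (ι₀ (Pi.mulSingle i d⁻¹)) := by
      rw [hι₀, hι₀]
      exact h2 j i d⁻¹
    rw [map_mul, map_mul, e1, ← map_mul, ← map_mul, ← Pi.mulSingle_mul, mul_inv_cancel,
      Pi.mulSingle_one, map_one, map_one]
  have S1 : ∀ i : Fin m, (commutator D).map (MonoidHom.mulSingle (fun _ : Fin m => D) i) ≤
      C.comap ι₀ := by
    intro i
    obtain ⟨j, k, hij, hik, hjk⟩ := exists_two hm i
    rw [Subgroup.map_le_iff_le_comap, commutator_def, Subgroup.commutator_le]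
    intro d₁ _ d₂ _
    rw [commutatorElement_def, Subgroup.mem_comap, Subgroup.mem_comap]
    have e := tri_comm i j k hij hik hjk d₁ d₂ d₁⁻¹ d₂⁻¹
    have e2 : ι₀ (MonoidHom.mulSingle (fun _ : Fin m => D) i (d₁ * d₂ * d₁⁻¹ * d₂⁻¹)) =
        ι₀ (Pi.mulSingle i d₁ * Pi.mulSingle j d₁⁻¹) *
        ι₀ (Pi.mulSingle i d₂ * Pi.mulSingle k d₂⁻¹) *
        (ι₀ (Pi.mulSingle i d₁ * Pi.mulSingle j d₁⁻¹))⁻¹ *
        (ι₀ (Pi.mulSingle i d₂ * Pi.mulSingle k d₂⁻¹))⁻¹ := by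
      rw [← map_inv, ← map_inv, ← map_mul, ← map_mul, ← map_mul, e]
      rfl
    rw [e2]
    exact F0 _ _ (hΨs i j d₁) (hΨs i k d₂)
  have S2 : ∀ g : Fin m → D, (∀ i, g i ∈ commutator D) → ι₀ g ∈ C := by
    intro g hg
    have hle : Subgroup.pi Set.univ (fun _ : Fin m => commutator D) ≤ C.comap ι₀ := by
      rw [Subgroup.pi_le_iff]
      exact S1
    exact hle (by rw [Subgroup.mem_pi]; intro i _; exact hg i)
  have S3 : commutator ↥R ≤ C.comap ρ₀ := by
    rw [commutator_def, Subgroup.commutator_le]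
    intro a _ b _
    rw [commutatorElement_def, Subgroup.mem_comap, map_mul, map_mul, map_mul, map_inv, map_inv]
    exact F0 _ _ (by rw [hρ₀]; exact h1 a) (by rw [hρ₀]; exact h1 b)
  intro x
  have hx : Ψ x.1 = 1 := MonoidHom.mem_ker.mp x.2
  obtain ⟨⟨n, e⟩, hxe⟩ : ∃ y, y = x.1 := ⟨_, rfl⟩
  rw [← hxe] at hx
  have hdec : ((n, e) : ((Fin m → D) ⋊[φ] ↥R) × E) =
      (SemidirectProduct.inl n.left, e) * (SemidirectProduct.inr n.right, 1) := by
    rw [Prod.mk_mul_mk, mul_one, SemidirectProduct.inl_left_mul_inr_right]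
  have hz : Ψ (SemidirectProduct.inr n.right, 1) = 1 := h1 _
  have hy : Ψ (SemidirectProduct.inl n.left, e) = 1 := by
    have h := hx
    rw [hdec, map_mul, hz, mul_one] at h
    exact h
  have hyy : ((SemidirectProduct.inl n.left, e) : ((Fin m → D) ⋊[φ] ↥R) × E) *
      (SemidirectProduct.inl n.left, e) ∈ C := by
    have e1 : ((SemidirectProduct.inl n.left, e) : ((Fin m → D) ⋊[φ] ↥R) × E) *
        (SemidirectProduct.inl n.left, e) = ι₀ (n.left * n.left) := by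
      rw [hι₀, Prod.mk_mul_mk, hE e, ← map_mul]
    rw [e1]
    apply S2
    intro i
    have h := hD (n.left i)
    rw [pow_two] at h
    exact h
  have hzz : ((SemidirectProduct.inr n.right, 1) : ((Fin m → D) ⋊[φ] ↥R) × E) *
      (SemidirectProduct.inr n.right, 1) ∈ C := by
    have e1 : ((SemidirectProduct.inr n.right, 1) : ((Fin m → D) ⋊[φ] ↥R) × E) *
        (SemidirectProduct.inr n.right, 1) = ρ₀ (n.right * n.right) := by
      rw [map_mul, hρ₀]
    rw [e1]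
    have h := hR n.right
    rw [pow_two] at h
    exact S3 h
  have h6 : x.1 * x.1 ∈ C := by
    rw [← hxe, hdec]
    exact F1 _ _ hy hz hyy hzz
  rw [hC] at h6
  obtain ⟨z, hz', hzx⟩ := Subgroup.mem_map.mp h6
  have hxz : x ^ 2 = z := Subtype.ext (by rw [pow_two]; exact hzx.symm)
  rw [hxz]
  exact hz'

theorem sylow_of_ker {G T : Type*} [Group G] [Finite G] [Group T] [Finite T] (τ : T →* G)
    (hτ : Function.Injective τ) (c : ℕ) (hT : Nat.card T = 2 ^ c)
    (hc : (Nat.card G).factorization 2 ≤ c) (hidx : (commutator G).index = 4)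
    (hK : EE 2 ↥(Abelianization.of.comp τ).ker) (P : Sylow 2 ↥(commutator G)) :
    EE 2 ↥(P : Subgroup ↥(commutator G)) := by
  classical
  have : Fact (Nat.Prime 2) := ⟨Nat.prime_two⟩
  let κ : ↥(Abelianization.of.comp τ).ker →* ↥(commutator G) :=
    (τ.comp (Abelianization.of.comp τ).ker.subtype).codRestrict (commutator G) (fun x => by
      have hx : (Abelianization.of.comp τ) x.1 = 1 := MonoidHom.mem_ker.mp x.2
      rw [← Abelianization.ker_of]
      exact MonoidHom.mem_ker.mpr hx)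
  have hκ : Function.Injective κ := by
    intro a b h
    have h1 : τ a.1 = τ b.1 := congrArg Subtype.val h
    exact Subtype.ext (hτ h1)
  have hCne : Nat.card ↥(commutator G) ≠ 0 := Nat.card_pos.ne'
  have h4 : Nat.card ↥(commutator G) * 4 = Nat.card G := by
    rw [← hidx]
    exact Subgroup.card_mul_index _
  have hf4 : (4 : ℕ).factorization 2 = 2 := by
    have e : (4 : ℕ) = 2 ^ 2 := by norm_num
    rw [e, Nat.Prime.factorization_pow Nat.prime_two]
    simp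
  have hv : (Nat.card ↥(commutator G)).factorization 2 + 2 = (Nat.card G).factorization 2 := by
    rw [← h4, Nat.factorization_mul hCne (by norm_num), Finsupp.add_apply, hf4]
  have h1 := Subgroup.card_mul_index (Abelianization.of.comp τ).ker
  rw [Subgroup.index_ker, hT] at h1
  obtain ⟨a, -, ha⟩ := (Nat.dvd_prime_pow Nat.prime_two).mp (Dvd.intro _ h1)
  obtain ⟨b, -, hb⟩ := (Nat.dvd_prime_pow Nat.prime_two).mp (Dvd.intro_left _ h1)
  rw [ha, hb, ← pow_add] at h1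
  have h3 : a + b = c := Nat.pow_right_injective (le_refl 2) h1
  have h5 : b ≤ 2 := by
    have hdvd : Nat.card (Abelianization.of.comp τ).range ∣ Nat.card (Abelianization G) :=
      Subgroup.card_subgroup_dvd_card _
    have hab : Nat.card (Abelianization G) = 4 := by
      rw [← hidx]
      exact (Subgroup.index_eq_card _).symm
    have e : (4 : ℕ) = 2 ^ 2 := by norm_num
    rw [hb, hab, e] at hdvd
    exact (Nat.pow_dvd_pow_iff_le_right (by norm_num)).mp hdvd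
  have h6 : a ≤ (Nat.card ↥(commutator G)).factorization 2 := by
    have hdvd : Nat.card κ.range ∣ Nat.card ↥(commutator G) := Subgroup.card_subgroup_dvd_card _
    rw [← Nat.card_congr (MonoidHom.ofInjective hκ).toEquiv, ha] at hdvd
    exact (Nat.prime_two.pow_dvd_iff_le_factorization hCne).mp hdvd
  have hcard : Nat.card κ.range = 2 ^ (Nat.card ↥(commutator G)).factorization 2 := by
    rw [← Nat.card_congr (MonoidHom.ofInjective hκ).toEquiv, ha]
    congr 1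
    omega
  let S₀ : Sylow 2 ↥(commutator G) := Sylow.ofCard κ.range hcard
  have e1 : ↥(P : Subgroup ↥(commutator G)) ≃* ↥κ.range := P.equiv S₀
  have e2 := MonoidHom.ofInjective hκ
  exact EE_of_surj (e2.trans e1.symm).toMonoidHom (e2.trans e1.symm).surjective hK

end Cfsg.Agent.Lib.helper19.OmA
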