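import Cfsg.Agent.Lib.helper19.OmA

/-!
Model for Sylow 2-subgroups of orthogonal groups: wreath products of 2x2 orthogonal groups.
-/

namespace Cfsg.Agent.Lib.helper19.OmB

open Matrix Cfsg.Agent.Lib.helper19.SylAb Cfsg.Agent.Lib.helper19.SL2Q
  Cfsg.Agent.Lib.helper19.GL2T Cfsg.Agent.Lib.helper19.OmA Cfsg.Agent.Lib.helper4.GLWreath

section abstract

theorem refl_EE {G : Type*} [Group G] (S : Set G) (h1 : ∀ r ∈ S, r * r = 1)
    (h2 : ∀ r ∈ S, ∀ x, x ∉ S → r * x ∈ S) (h3 : S.Nonempty) : EE 2 G := by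
  intro x
  by_cases hx : x ∈ S
  · rw [pow_two, h1 x hx]
    exact Subgroup.one_mem _
  · obtain ⟨r, hr⟩ := h3
    have e1 := h1 (r * x) (h2 r hr x hx)
    have e2 := h1 r hr
    have hr' : r⁻¹ = r := inv_eq_of_mul_eq_one_right e2
    have h4 : r * x * r = x⁻¹ := by
      calc r * x * r = r * x * (r * x) * x⁻¹ := by group
        _ = x⁻¹ := by rw [e1, one_mul]
    have h5 : r * x⁻¹ * r = x := by
      calc r * x⁻¹ * r = (r⁻¹ * x * r⁻¹)⁻¹ := by group
        _ = (r * x * r)⁻¹ := by rw [hr']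
        _ = x := by rw [h4, inv_inv]
    have e : x ^ 2 = x * r * x⁻¹ * r⁻¹ := by
      calc x ^ 2 = x * (r * x⁻¹ * r) := by rw [h5, pow_two]
        _ = x * r * x⁻¹ * r⁻¹ := by rw [hr']; group
    rw [e, commutator_def]
    exact Subgroup.commutator_mem_commutator (Subgroup.mem_top x) (Subgroup.mem_top r)

theorem swap_prod {α β : Type*} [DecidableEq α] [DecidableEq β] (a b : α) (i j l : β) :
    Equiv.swap (a, i) (a, j) (b, l) = if a = b then (b, Equiv.swap i j l) else (b, l) := by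
  by_cases hab : a = b
  · subst hab
    rw [if_pos rfl]
    by_cases h1 : l = i
    · subst h1
      rw [Equiv.swap_apply_left, Equiv.swap_apply_left]
    · by_cases h2 : l = j
      · subst h2
        rw [Equiv.swap_apply_right, Equiv.swap_apply_right]
      · rw [Equiv.swap_apply_of_ne_of_ne h1 h2,
          Equiv.swap_apply_of_ne_of_ne (fun h => h1 (congrArg Prod.snd h))
            (fun h => h2 (congrArg Prod.snd h))]
  · rw [if_neg hab, Equiv.swap_apply_of_ne_of_ne (fun h => hab (congrArg Prod.fst h).symm)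
      (fun h => hab (congrArg Prod.fst h).symm)]

theorem shE_swap {m : ℕ} (i j : Fin m) :
    shE (Fin 2) (Equiv.swap i j) =
      Equiv.swap ((0 : Fin 2), i) (0, j) * Equiv.swap ((1 : Fin 2), i) (1, j) := by
  apply Equiv.ext
  rintro ⟨a, l⟩
  show (a, Equiv.swap i j l) =
    Equiv.swap ((0 : Fin 2), i) (0, j) (Equiv.swap ((1 : Fin 2), i) (1, j) (a, l))
  have ha : a = 0 ∨ a = 1 := by
    rcases a with ⟨v, hv⟩
    rcases v with _ | _ | v
    · left; rfl
    · right; rfl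
    · omega
  rcases ha with rfl | rfl
  · rw [swap_prod 1 0, if_neg (by decide), swap_prod, if_pos rfl]
  · rw [swap_prod 1 1, if_pos rfl, swap_prod, if_neg (by decide)]

end abstract

section general

variable {F : Type*} [Field F]

/-- orthogonal matrices -/
def OrthG (F : Type*) [Field F] (J : Type*) [Fintype J] [DecidableEq J] : Subgroup (GL J F) where
  carrier := {A | (A.1)ᵀ * A.1 = 1}
  mul_mem' {A B} hA hB := by
    show ((A * B).1)ᵀ * (A * B).1 = 1
    have hA' : (A.1)ᵀ * A.1 = 1 := hA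
    have hB' : (B.1)ᵀ * B.1 = 1 := hB
    rw [Units.val_mul, Matrix.transpose_mul]
    calc (B.1)ᵀ * (A.1)ᵀ * (A.1 * B.1) = (B.1)ᵀ * ((A.1)ᵀ * A.1) * B.1 := by
          simp only [Matrix.mul_assoc]
      _ = 1 := by rw [hA', Matrix.mul_one, hB']
  one_mem' := by
    show ((1 : GL J F).1)ᵀ * (1 : GL J F).1 = 1
    simp
  inv_mem' {A} hA := by
    show ((A⁻¹).1)ᵀ * (A⁻¹).1 = 1
    have hA' : (A.1)ᵀ * A.1 = 1 := hA
    have h1 : (A⁻¹).1 = (A.1)ᵀ := by
      calc (A⁻¹).1 = ((A.1)ᵀ * A.1) * (A⁻¹).1 := by rw [hA', Matrix.one_mul]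
        _ = (A.1)ᵀ := by
          rw [Matrix.mul_assoc, ← Units.val_mul, mul_inv_cancel, Units.val_one, Matrix.mul_one]
    rw [h1, Matrix.transpose_transpose, ← h1, ← Units.val_mul, mul_inv_cancel, Units.val_one]

variable {J : Type*} [Fintype J] [DecidableEq J]

/-- permutation matrices -/
def PJ (F : Type*) [Field F] (J : Type*) [Fintype J] [DecidableEq J] (σ : Equiv.Perm J) :
    Matrix J J F := (1 : Matrix J J F).submatrix (⇑(σ⁻¹ : Equiv.Perm J)) id

theorem PJ_apply (σ : Equiv.Perm J) (x y : J) :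
    PJ F J σ x y = if σ⁻¹ x = y then 1 else 0 := by
  rw [PJ, Matrix.submatrix_apply, Matrix.one_apply]
  rfl

theorem PJ_one : PJ F J 1 = 1 := by
  ext x y
  rw [PJ_apply, Matrix.one_apply]
  rfl

theorem PJ_mulM (σ : Equiv.Perm J) (M : Matrix J J F) :
    PJ F J σ * M = M.submatrix (⇑(σ⁻¹ : Equiv.Perm J)) id := by
  ext x y
  rw [Matrix.mul_apply, Matrix.submatrix_apply, Finset.sum_eq_single (σ⁻¹ x)]
  · rw [PJ_apply, if_pos rfl, one_mul]
    rfl
  · intro b _ hb
    rw [PJ_apply, if_neg (Ne.symm hb), zero_mul]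
  · intro h
    exact absurd (Finset.mem_univ _) h

theorem PJ_mul (σ ρ : Equiv.Perm J) : PJ F J (σ * ρ) = PJ F J σ * PJ F J ρ := by
  rw [PJ_mulM]
  ext x y
  rw [PJ_apply, Matrix.submatrix_apply, PJ_apply, _root_.mul_inv_rev]
  rfl

theorem PJ_transpose (σ : Equiv.Perm J) : (PJ F J σ)ᵀ = PJ F J σ⁻¹ := by
  ext x y
  rw [Matrix.transpose_apply, PJ_apply, PJ_apply, inv_inv]
  by_cases h : σ x = y
  · have h' : σ⁻¹ y = x := by
      rw [← h]
      exact Equiv.symm_apply_apply σ x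
    rw [if_pos h, if_pos h']
  · have h' : ¬ σ⁻¹ y = x := fun e => h (by rw [← e]; exact Equiv.apply_symm_apply σ y)
    rw [if_neg h, if_neg h']

theorem PJ_orth (σ : Equiv.Perm J) : (PJ F J σ)ᵀ * PJ F J σ = 1 := by
  rw [PJ_transpose, ← PJ_mul, inv_mul_cancel, PJ_one]

/-- permutation matrices as a homomorphism into the orthogonal group -/
def PJh (F : Type*) [Field F] (J : Type*) [Fintype J] [DecidableEq J] :
    Equiv.Perm J →* ↥(OrthG F J) :=
  (MonoidHom.toHomUnits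
    { toFun := PJ F J, map_one' := PJ_one, map_mul' := PJ_mul }).codRestrict
    (OrthG F J) (fun σ => PJ_orth σ)

theorem f₁_mem {β : Type*} [Fintype β] [DecidableEq β] {m : ℕ} (f : Fin m → GL β F)
    (hf : ∀ i, f i ∈ OrthG F β) : f₁ F β m f ∈ OrthG F (β × Fin m) := by
  show (blockDiagonal (fun i => ((f i : GL β F) : Matrix β β F)))ᵀ *
    blockDiagonal (fun i => ((f i : GL β F) : Matrix β β F)) = 1
  rw [Matrix.blockDiagonal_transpose, ← Matrix.blockDiagonal_mul]
  have e : (fun k => ((f k : GL β F) : Matrix β β F)ᵀ * ((f k : GL β F) : Matrix β β F)) =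
      (1 : Fin m → Matrix β β F) := funext (fun i => hf i)
  show blockDiagonal (fun k => ((f k : GL β F) : Matrix β β F)ᵀ *
    ((f k : GL β F) : Matrix β β F)) = 1
  rw [e, Matrix.blockDiagonal_one]

theorem P_eq {β : Type*} [Fintype β] [DecidableEq β] {m : ℕ} (σ : Equiv.Perm (Fin m)) :
    P F β σ = PJ F (β × Fin m) (shE β σ) := rfl

theorem f₂_mem {β : Type*} [Fintype β] [DecidableEq β] {m : ℕ} (σ : Equiv.Perm (Fin m)) :
    f₂ F β m σ ∈ OrthG F (β × Fin m) := by
  show (P F β σ)ᵀ * P F β σ = 1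
  rw [P_eq]
  exact PJ_orth _

theorem Φ_inl {β : Type*} [Fintype β] [DecidableEq β] {m : ℕ} (f : Fin m → GL β F) :
    Φ F β m (SemidirectProduct.inl f) = f₁ F β m f := by
  rw [Φ_apply, SemidirectProduct.left_inl, SemidirectProduct.right_inl, map_one, mul_one]

theorem Φ_inr {β : Type*} [Fintype β] [DecidableEq β] {m : ℕ} (σ : Equiv.Perm (Fin m)) :
    Φ F β m (SemidirectProduct.inr σ) = f₂ F β m σ := by
  rw [Φ_apply, SemidirectProduct.left_inr, SemidirectProduct.right_inr, map_one, one_mul]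

theorem f₁_conj {β : Type*} [Fintype β] [DecidableEq β] {m : ℕ} (i j : Fin m) (x : GL β F) :
    f₁ F β m (Pi.mulSingle j x) = f₂ F β m (Equiv.swap i j) * f₁ F β m (Pi.mulSingle i x) *
      (f₂ F β m (Equiv.swap i j))⁻¹ := by
  rw [conj_rel]
  congr 1
  funext l
  rw [Pi.mulSingle_apply, Pi.mulSingle_apply, Equiv.swap_inv]
  by_cases h : l = j
  · subst h
    rw [if_pos rfl, if_pos (Equiv.swap_apply_right _ _)]
  · rw [if_neg h, if_neg]
    intro h'
    apply h
    have h3 := congrArg (Equiv.swap i j) h'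
    rw [Equiv.swap_apply_self, Equiv.swap_apply_left] at h3
    exact h3

theorem f₂_comm {m : ℕ} (σ : Equiv.Perm (Fin m)) :
    PJh F (Fin 2 × Fin m) (shE (Fin 2) σ) ∈ commutator ↥(OrthG F (Fin 2 × Fin m)) := by
  classical
  obtain ⟨sh, hsh⟩ : ∃ sh : Equiv.Perm (Fin m) →* Equiv.Perm (Fin 2 × Fin m),
      ∀ σ, sh σ = shE (Fin 2) σ :=
    ⟨{ toFun := shE (Fin 2), map_one' := by ext x <;> rfl,
       map_mul' := fun a b => by ext x <;> rfl }, fun σ => rfl⟩
  have hle : Subgroup.closure {σ : Equiv.Perm (Fin m) | σ.IsSwap} ≤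
      (commutator ↥(OrthG F (Fin 2 × Fin m))).comap ((PJh F (Fin 2 × Fin m)).comp sh) := by
    rw [Subgroup.closure_le]
    rintro σ ⟨i, j, hij, rfl⟩
    show PJh F (Fin 2 × Fin m) (sh (Equiv.swap i j)) ∈ commutator _
    rw [hsh, shE_swap]
    obtain ⟨ρ, hρ⟩ : ∃ ρ : Equiv.Perm (Fin 2 × Fin m),
        ρ = Equiv.prodCongr (Equiv.swap (0 : Fin 2) 1) (Equiv.refl (Fin m)) := ⟨_, rfl⟩
    have r1 : ∀ l : Fin m, ρ ((0 : Fin 2), l) = (1, l) := by
      intro l
      rw [hρ]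
      simp
    have e1 : Equiv.swap ((1 : Fin 2), i) (1, j) =
        ρ * Equiv.swap ((0 : Fin 2), i) (0, j) * ρ⁻¹ := by
      rw [← Equiv.swap_apply_apply, r1, r1]
    obtain ⟨U, hU⟩ : ∃ U, U = PJh F (Fin 2 × Fin m) (Equiv.swap ((0 : Fin 2), i) (0, j)) :=
      ⟨_, rfl⟩
    obtain ⟨V, hV⟩ : ∃ V, V = PJh F (Fin 2 × Fin m) ρ := ⟨_, rfl⟩
    have hUU : U * U = 1 := by
      rw [hU, ← map_mul, Equiv.swap_mul_self, map_one]
    have hUi : U⁻¹ = U := inv_eq_of_mul_eq_one_right hUU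
    have e3 : PJh F (Fin 2 × Fin m) (Equiv.swap ((0 : Fin 2), i) (0, j) *
        Equiv.swap ((1 : Fin 2), i) (1, j)) = U * V * U⁻¹ * V⁻¹ := by
      rw [e1, map_mul, map_mul, map_mul, map_inv, ← hU, ← hV, hUi]
      group
    rw [e3, commutator_def]
    exact Subgroup.commutator_mem_commutator (Subgroup.mem_top U) (Subgroup.mem_top V)
  have h1 : σ ∈ Subgroup.closure {σ : Equiv.Perm (Fin m) | σ.IsSwap} := by
    rw [Equiv.Perm.closure_isSwap]
    exact Subgroup.mem_top σ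
  have h2 := hle h1
  rw [Subgroup.mem_comap, MonoidHom.comp_apply, hsh] at h2
  exact h2

theorem orth2_sq (A : GL (Fin 2) F) (hA : (A.1)ᵀ * A.1 = 1) (hd : A.1.det = -1) :
    A * A = 1 := by
  have e00 : A.1 0 0 * A.1 0 0 + A.1 1 0 * A.1 1 0 = 1 := by
    have h := congrFun (congrFun hA 0) 0
    simpa [Matrix.mul_apply, Fin.sum_univ_two] using h
  have e01 : A.1 0 0 * A.1 0 1 + A.1 1 0 * A.1 1 1 = 0 := by
    have h := congrFun (congrFun hA 0) 1
    simpa [Matrix.mul_apply, Fin.sum_univ_two] using h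
  have hd' : A.1 0 0 * A.1 1 1 - A.1 0 1 * A.1 1 0 = -1 := by
    rw [← Matrix.det_fin_two]
    exact hd
  have htr : A.1.trace = 0 := by
    rw [Matrix.trace_fin_two]
    linear_combination (-(A.1 1 1)) * e00 + A.1 0 0 * hd' + A.1 1 0 * e01
  apply Units.ext
  rw [Units.val_mul, Units.val_one, ch2, hd, htr]
  simp

theorem orth2_det (A : GL (Fin 2) F) (hA : (A.1)ᵀ * A.1 = 1) :
    A.1.det = 1 ∨ A.1.det = -1 := by
  have h := congrArg Matrix.det hA
  rw [Matrix.det_mul, Matrix.det_transpose, Matrix.det_one] at h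
  have h0 : (A.1.det - 1) * (A.1.det + 1) = 0 := by linear_combination h
  rcases mul_eq_zero.mp h0 with h1 | h1
  · left
    linear_combination h1
  · right
    linear_combination h1

theorem orth2_EE (D : Subgroup ↥(OrthG F (Fin 2))) (r₀ : ↥D) (hr₀ : r₀.1.1.1.det = -1) :
    EE 2 ↥D := by
  refine refl_EE {d : ↥D | d.1.1.1.det = -1} ?_ ?_ ⟨r₀, hr₀⟩
  · intro r hr
    exact Subtype.ext (Subtype.ext (orth2_sq r.1.1 r.1.2 hr))
  · intro r hr x hx
    have hx1 : x.1.1.1.det = 1 := (orth2_det x.1.1 x.1.2).resolve_right hx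
    have hr1 : r.1.1.1.det = -1 := hr
    show (r.1.1.1 * x.1.1.1).det = -1
    rw [Matrix.det_mul, hr1, hx1, mul_one]

theorem exists_refl : ∃ r₀ : ↥(OrthG F (Fin 2)), r₀.1.1.det = -1 ∧ r₀ * r₀ = 1 := by
  obtain ⟨d, hd⟩ : ∃ d : Fin 2 → F, d = ![1, -1] := ⟨_, rfl⟩
  have hdd : (fun i => d i * d i) = fun _ => (1 : F) := by
    funext i
    rw [hd]
    fin_cases i <;> simp
  have hMM : Matrix.diagonal d * Matrix.diagonal d = 1 := by
    rw [Matrix.diagonal_mul_diagonal, hdd]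
    exact Matrix.diagonal_one
  refine ⟨⟨⟨Matrix.diagonal d, Matrix.diagonal d, hMM, hMM⟩, ?_⟩, ?_, ?_⟩
  · show (Matrix.diagonal d)ᵀ * Matrix.diagonal d = 1
    rw [Matrix.diagonal_transpose]
    exact hMM
  · show (Matrix.diagonal d).det = -1
    rw [Matrix.det_diagonal, Fin.prod_univ_two, hd]
    simp
  · exact Subtype.ext (Units.ext hMM)

end general

section model

variable {F : Type*} [Field F] {J : Type} [Fintype J] [DecidableEq J]

/-- the model form -/
noncomputable def QM (F : Type*) [Field F] (J : Type) [Fintype J] [DecidableEq J] (k : ℕ)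
    (a : Fin k → F) : QuadraticForm F (J ⊕ Fin k → F) :=
  QuadraticMap.weightedSumSquares F (Sum.elim (fun _ : J => (1 : F)) a)

theorem QM_apply (k : ℕ) (a : Fin k → F) (v : J ⊕ Fin k → F) :
    QM F J k a v = (∑ j, v (Sum.inl j) * v (Sum.inl j)) +
      ∑ l, a l * (v (Sum.inr l) * v (Sum.inr l)) := by
  unfold QM
  rw [QuadraticMap.weightedSumSquares_apply, Fintype.sum_sum_type]
  simp

theorem QM_polar (k : ℕ) (a : Fin k → F) (v w : J ⊕ Fin k → F) :
    QuadraticMap.polar (⇑(QM F J k a)) v w = 2 * ((∑ j, v (Sum.inl j) * w (Sum.inl j)) +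
      ∑ l, a l * (v (Sum.inr l) * w (Sum.inr l))) := by
  unfold QuadraticMap.polar
  rw [QM_apply, QM_apply, QM_apply]
  have e1 : ∑ j, (v + w) (Sum.inl j) * (v + w) (Sum.inl j) =
      ∑ j, v (Sum.inl j) * v (Sum.inl j) + ∑ j, w (Sum.inl j) * w (Sum.inl j) +
        2 * ∑ j, v (Sum.inl j) * w (Sum.inl j) := by
    rw [Finset.mul_sum, ← Finset.sum_add_distrib, ← Finset.sum_add_distrib]
    refine Finset.sum_congr rfl (fun j _ => ?_)
    simp only [Pi.add_apply]
    ring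
  have e2 : ∑ l, a l * ((v + w) (Sum.inr l) * (v + w) (Sum.inr l)) =
      ∑ l, a l * (v (Sum.inr l) * v (Sum.inr l)) + ∑ l, a l * (w (Sum.inr l) * w (Sum.inr l)) +
        2 * ∑ l, a l * (v (Sum.inr l) * w (Sum.inr l)) := by
    rw [Finset.mul_sum, ← Finset.sum_add_distrib, ← Finset.sum_add_distrib]
    refine Finset.sum_congr rfl (fun j _ => ?_)
    simp only [Pi.add_apply]
    ring
  rw [e1, e2]
  ring

theorem QM_sep (h2 : (2 : F) ≠ 0) (k : ℕ) (a : Fin k → F) (ha : ∀ l, a l ≠ 0)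
    (x : J ⊕ Fin k → F) (hx : ∀ y, QuadraticMap.polar (⇑(QM F J k a)) x y = 0) : x = 0 := by
  funext i
  rcases i with j | l
  · have h := hx (Pi.single (Sum.inl j) 1)
    rw [QM_polar] at h
    have h3 : (∑ j', x (Sum.inl j') *
        (Pi.single (Sum.inl j) (1 : F) : J ⊕ Fin k → F) (Sum.inl j')) = x (Sum.inl j) := by
      rw [Finset.sum_eq_single j]
      · simp
      · intro b _ hb
        simp [hb]
      · intro h'
        exact absurd (Finset.mem_univ j) h'
    have h4 : (∑ l, a l * (x (Sum.inr l) *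
        (Pi.single (Sum.inl j) (1 : F) : J ⊕ Fin k → F) (Sum.inr l))) = 0 := by
      apply Finset.sum_eq_zero
      intro l _
      simp
    rw [h3, h4, add_zero] at h
    exact (mul_eq_zero.mp h).resolve_left h2
  · have h := hx (Pi.single (Sum.inr l) 1)
    rw [QM_polar] at h
    have h3 : (∑ j', x (Sum.inl j') *
        (Pi.single (Sum.inr l) (1 : F) : J ⊕ Fin k → F) (Sum.inl j')) = 0 := by
      apply Finset.sum_eq_zero
      intro j' _
      simp
    have h4 : (∑ l', a l' * (x (Sum.inr l') *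
        (Pi.single (Sum.inr l) (1 : F) : J ⊕ Fin k → F) (Sum.inr l'))) = a l * x (Sum.inr l) := by
      rw [Finset.sum_eq_single l]
      · simp
      · intro b _ hb
        simp [hb]
      · intro h'
        exact absurd (Finset.mem_univ l) h'
    rw [h3, h4, zero_add] at h
    exact (mul_eq_zero.mp ((mul_eq_zero.mp h).resolve_left h2)).resolve_left (ha l)

theorem mem_iso (k : ℕ) (a : Fin k → F) (A : GL J F) (hA : (A.1)ᵀ * A.1 = 1)
    (s : Fin k → ℤˣ) :
    blk F J (Fin k) (A, τ F k ((sg F).compLeft (Fin k) s)) ∈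
      Cfsg.isometryGroup F ⇑(QM F J k a) := by
  intro u _
  obtain ⟨x, hx⟩ : ∃ x : J → F, x = u ∘ Sum.inl := ⟨_, rfl⟩
  obtain ⟨y, hy⟩ : ∃ y : Fin k → F, y = u ∘ Sum.inr := ⟨_, rfl⟩
  have hu : u = Sum.elim x y := by rw [hx, hy, Sum.elim_comp_inl_inr]
  have hM : ((blk F J (Fin k) (A, τ F k ((sg F).compLeft (Fin k) s)) : GL (J ⊕ Fin k) F) :
      Matrix (J ⊕ Fin k) (J ⊕ Fin k) F) *ᵥ u =
      Sum.elim (A.1 *ᵥ x) (fun l => ((sg F (s l) : Fˣ) : F) * y l) := by
    have e : ((blk F J (Fin k) (A, τ F k ((sg F).compLeft (Fin k) s)) : GL (J ⊕ Fin k) F) :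
        Matrix (J ⊕ Fin k) (J ⊕ Fin k) F) =
        Matrix.fromBlocks A.1 0 0 (Matrix.diagonal (fun l => ((sg F (s l) : Fˣ) : F))) := rfl
    rw [e, hu, Matrix.fromBlocks_mulVec]
    congr 1
    · rw [Matrix.zero_mulVec, add_zero, Sum.elim_comp_inl]
    · rw [Matrix.zero_mulVec, zero_add]
      funext l
      rw [Matrix.mulVec_diagonal]
      rfl
  show QM F J k a (((blk F J (Fin k) (A, τ F k ((sg F).compLeft (Fin k) s)) :
      GL (J ⊕ Fin k) F) : Matrix (J ⊕ Fin k) (J ⊕ Fin k) F) *ᵥ u) = QM F J k a u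
  rw [hM, QM_apply, QM_apply, hu]
  simp only [Sum.elim_inl, Sum.elim_inr]
  have key : ∑ j, (A.1 *ᵥ x) j * (A.1 *ᵥ x) j = ∑ j, x j * x j := by
    have h1 : (A.1 *ᵥ x) ⬝ᵥ (A.1 *ᵥ x) = x ⬝ᵥ x := by
      rw [Matrix.dotProduct_mulVec, ← Matrix.mulVec_transpose, Matrix.mulVec_mulVec, hA,
        Matrix.one_mulVec]
    exact h1
  rw [key]
  congr 1
  refine Finset.sum_congr rfl (fun l _ => ?_)
  have hd : ((sg F (s l) : Fˣ) : F) * ((sg F (s l) : Fˣ) : F) = 1 := by
    rw [← Units.val_mul, ← map_mul, Int.units_mul_self, map_one, Units.val_one]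
  linear_combination (a l * y l * y l) * hd

/-- the embedding into the isometry group of the model form -/
noncomputable def embO (k : ℕ) (a : Fin k → F) :
    ↥(OrthG F J) × (Fin k → ℤˣ) →* ↥(Cfsg.isometryGroup F ⇑(QM F J k a)) :=
  ((blk F J (Fin k)).comp (((OrthG F J).subtype).prodMap
    ((τ F k).comp ((sg F).compLeft (Fin k))))).codRestrict _
    (fun x => mem_iso k a x.1.1 x.1.2 x.2)

theorem embO_injective (h2 : (2 : F) ≠ 0) (k : ℕ) (a : Fin k → F) :
    Function.Injective (embO (J := J) k a) := by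
  intro x y h
  have h1 : blk F J (Fin k) (x.1.1, τ F k ((sg F).compLeft (Fin k) x.2)) =
      blk F J (Fin k) (y.1.1, τ F k ((sg F).compLeft (Fin k) y.2)) := congrArg Subtype.val h
  have h3 := blk_injective J (Fin k) h1
  have h4 : x.1.1 = y.1.1 := congrArg Prod.fst h3
  have h5 : τ F k ((sg F).compLeft (Fin k) x.2) = τ F k ((sg F).compLeft (Fin k) y.2) :=
    congrArg Prod.snd h3
  have h6 := τ_injective k h5
  refine Prod.ext (Subtype.ext h4) ?_
  funext l
  exact sg_injective h2 (congrFun h6 l)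

end model

end Cfsg.Agent.Lib.helper19.OmB
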