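import Cfsg.Agent.Lib.helper19.OmB

/-!
The main model theorem and transport of isometry groups along similarities.
-/

namespace Cfsg.Agent.Lib.helper19.OmC

open Matrix Cfsg.Agent.Lib.helper19.SylAb Cfsg.Agent.Lib.helper19.SL2Q
  Cfsg.Agent.Lib.helper19.GL2T Cfsg.Agent.Lib.helper19.OmA Cfsg.Agent.Lib.helper19.OmB
  Cfsg.Agent.Lib.helper4.GLWreath

variable {F : Type*} [Field F]

theorem transport {ι κ : Type} [Fintype ι] [DecidableEq ι] [Fintype κ] [DecidableEq κ]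
    (Q₁ : (ι → F) → F) (Q₂ : (κ → F) → F) (B : Matrix ι κ F) (C : Matrix κ ι F)
    (hBC : B * C = 1) (hCB : C * B = 1) (c : F) (h : ∀ x, Q₁ (B *ᵥ x) = c * Q₂ x) :
    ∃ θ : ↥(Cfsg.isometryGroup F Q₂) →* ↥(Cfsg.isometryGroup F Q₁), Function.Injective θ := by
  have hinv1 : ∀ A : GL κ F, (B * A.1 * C) * (B * (A⁻¹).1 * C) = 1 := by
    intro A
    calc (B * A.1 * C) * (B * (A⁻¹).1 * C) = B * (A.1 * ((C * B) * ((A⁻¹).1 * C))) := by
          simp only [Matrix.mul_assoc]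
      _ = B * ((A.1 * (A⁻¹).1) * C) := by rw [hCB, Matrix.one_mul, Matrix.mul_assoc]
      _ = 1 := by rw [← Units.val_mul, mul_inv_cancel, Units.val_one, Matrix.one_mul, hBC]
  have hinv2 : ∀ A : GL κ F, (B * (A⁻¹).1 * C) * (B * A.1 * C) = 1 := by
    intro A
    calc (B * (A⁻¹).1 * C) * (B * A.1 * C) = B * ((A⁻¹).1 * ((C * B) * (A.1 * C))) := by
          simp only [Matrix.mul_assoc]
      _ = B * (((A⁻¹).1 * A.1) * C) := by rw [hCB, Matrix.one_mul, Matrix.mul_assoc]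
      _ = 1 := by rw [← Units.val_mul, inv_mul_cancel, Units.val_one, Matrix.one_mul, hBC]
  let θ₀ : GL κ F →* GL ι F :=
    { toFun := fun A => ⟨B * A.1 * C, B * (A⁻¹).1 * C, hinv1 A, hinv2 A⟩
      map_one' := Units.ext (by
        show B * (1 : GL κ F).1 * C = 1
        rw [Units.val_one, Matrix.mul_one, hBC])
      map_mul' := fun A A' => Units.ext (by
        show B * (A * A').1 * C = (B * A.1 * C) * (B * A'.1 * C)
        rw [Units.val_mul]
        calc B * (A.1 * A'.1) * C = B * (A.1 * ((1 : Matrix κ κ F) * (A'.1 * C))) := by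
              rw [Matrix.one_mul]
              simp only [Matrix.mul_assoc]
          _ = (B * A.1 * C) * (B * A'.1 * C) := by
              rw [← hCB]
              simp only [Matrix.mul_assoc]) }
  have hθ₀ : ∀ A : GL κ F, (θ₀ A).1 = B * A.1 * C := fun A => rfl
  have hmem : ∀ g : ↥(Cfsg.isometryGroup F Q₂),
      (θ₀.comp (Cfsg.isometryGroup F Q₂).subtype) g ∈ Cfsg.isometryGroup F Q₁ := by
    intro g u _
    show Q₁ ((B * g.1.1 * C) *ᵥ u) = Q₁ u
    have e1 : (B * g.1.1 * C) *ᵥ u = B *ᵥ (g.1.1 *ᵥ (C *ᵥ u)) := by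
      simp only [Matrix.mulVec_mulVec, Matrix.mul_assoc]
    have e2 : Q₂ (g.1.1 *ᵥ (C *ᵥ u)) = Q₂ (C *ᵥ u) := g.2 (C *ᵥ u) (C *ᵥ u)
    rw [e1, h, e2, ← h, Matrix.mulVec_mulVec, hBC, Matrix.one_mulVec]
  refine ⟨(θ₀.comp (Cfsg.isometryGroup F Q₂).subtype).codRestrict _ hmem, ?_⟩
  intro a b hab
  have h1 : (θ₀ a.1).1 = (θ₀ b.1).1 := congrArg (fun z => ((z.1 : GL ι F)).1) hab
  rw [hθ₀, hθ₀] at h1
  have e : ∀ M : Matrix κ κ F, C * (B * M * C) * B = M := by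
    intro M
    calc C * (B * M * C) * B = (C * B) * M * (C * B) := by simp only [Matrix.mul_assoc]
      _ = M := by rw [hCB, Matrix.one_mul, Matrix.mul_one]
  have h3 : C * (B * a.1.1 * C) * B = C * (B * b.1.1 * C) * B := by rw [h1]
  rw [e, e] at h3
  exact Subtype.ext (Units.ext h3)

theorem transport_lin {ι κ : Type} [Fintype ι] [DecidableEq ι] [Fintype κ] [DecidableEq κ]
    (Q₁ : (ι → F) → F) (Q₂ : (κ → F) → F) (g : (κ → F) ≃ₗ[F] (ι → F)) (c : F)
    (h : ∀ x, Q₁ (g x) = c * Q₂ x) :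
    ∃ θ : ↥(Cfsg.isometryGroup F Q₂) →* ↥(Cfsg.isometryGroup F Q₁), Function.Injective θ := by
  refine transport Q₁ Q₂ (LinearMap.toMatrix' g.toLinearMap)
    (LinearMap.toMatrix' g.symm.toLinearMap) ?_ ?_ c ?_
  · rw [← LinearMap.toMatrix'_comp]
    have e : g.toLinearMap ∘ₗ g.symm.toLinearMap = LinearMap.id :=
      LinearMap.ext (fun x => by simp)
    rw [e, LinearMap.toMatrix'_id]
  · rw [← LinearMap.toMatrix'_comp]
    have e : g.symm.toLinearMap ∘ₗ g.toLinearMap = LinearMap.id :=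
      LinearMap.ext (fun x => by simp)
    rw [e, LinearMap.toMatrix'_id]
  · intro x
    rw [← Matrix.toLin'_apply, Matrix.toLin'_toMatrix']
    exact h x

theorem model_EE [Fintype F] (h2 : (2 : F) ≠ 0) (m : ℕ) (hm : 3 ≤ m) (k : ℕ) (a : Fin k → F)
    {G : Type*} [Group G] [Finite G]
    (θ : ↥(Cfsg.isometryGroup F ⇑(QM F (Fin 2 × Fin m) k a)) →* G) (hθ : Function.Injective θ)
    (hidx : (commutator G).index = 4)
    (hcard : (Nat.card G).factorization 2 ≤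
      m * (Nat.card ↥(OrthG F (Fin 2))).factorization 2 + padicValNat 2 m.factorial + k)
    (P : Sylow 2 ↥(commutator G)) : EE 2 ↥(P : Subgroup ↥(commutator G)) := by
  classical
  have : Fact (Nat.Prime 2) := ⟨Nat.prime_two⟩
  obtain ⟨r₀, hr₀d, hr₀2⟩ : ∃ r₀ : ↥(OrthG F (Fin 2)), r₀.1.1.det = -1 ∧ r₀ * r₀ = 1 :=
    exists_refl
  obtain ⟨D, hD⟩ := (pgroup_zpowers r₀ (by
    rw [show (4 : ℕ) = 2 + 2 from rfl, pow_add, pow_two, hr₀2, one_mul])).exists_le_sylow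
  have hr₀D : r₀ ∈ (D : Subgroup ↥(OrthG F (Fin 2))) := hD (Subgroup.mem_zpowers r₀)
  have hDEE : EE 2 ↥(D : Subgroup ↥(OrthG F (Fin 2))) :=
    orth2_EE (D : Subgroup ↥(OrthG F (Fin 2))) ⟨r₀, hr₀D⟩ hr₀d
  obtain ⟨R⟩ : Nonempty (Sylow 2 (Equiv.Perm (Fin m))) := inferInstance
  have hR : EE 2 ↥(R : Subgroup (Equiv.Perm (Fin m))) := sym_EE 2 m (Fin m) R (by simp)
  obtain ⟨φ, hφ⟩ : ∃ φ : ↥(R : Subgroup (Equiv.Perm (Fin m))) →*
      MulAut (Fin m → ↥(D : Subgroup ↥(OrthG F (Fin 2)))),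
      φ = mulAutArrow (G := ↥(R : Subgroup (Equiv.Perm (Fin m)))) (A := Fin m)
        (M := ↥(D : Subgroup ↥(OrthG F (Fin 2)))) := ⟨_, rfl⟩
  obtain ⟨ι₂, hι₂⟩ : ∃ ι₂ : ↥(D : Subgroup ↥(OrthG F (Fin 2))) →* GL (Fin 2) F,
      ∀ d, ι₂ d = d.1.1 :=
    ⟨(OrthG F (Fin 2)).subtype.comp (D : Subgroup ↥(OrthG F (Fin 2))).subtype, fun d => rfl⟩
  let Ψ₀ : (Fin m → ↥(D : Subgroup ↥(OrthG F (Fin 2)))) ⋊[φ]
      ↥(R : Subgroup (Equiv.Perm (Fin m))) →* W F (Fin 2) m :=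
    SemidirectProduct.map (ι₂.compLeft (Fin m))
      (R : Subgroup (Equiv.Perm (Fin m))).subtype
      (fun g => by
        rw [hφ]
        exact MonoidHom.ext fun f => funext fun i => rfl)
  have hΨ₀ : Function.Injective Ψ₀ := by
    intro w w' h
    have h1 : (ι₂.compLeft (Fin m)) w.left = (ι₂.compLeft (Fin m)) w'.left :=
      congrArg SemidirectProduct.left h
    have h2' : (w.right : Equiv.Perm (Fin m)) = w'.right := congrArg SemidirectProduct.right h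
    apply SemidirectProduct.ext
    · funext i
      have h3 : ι₂ (w.left i) = ι₂ (w'.left i) := congrFun h1 i
      rw [hι₂, hι₂] at h3
      exact Subtype.ext (Subtype.ext h3)
    · exact Subtype.ext h2'
  have hmemΦ : ∀ n, ((Φ F (Fin 2) m).comp Ψ₀) n ∈ OrthG F (Fin 2 × Fin m) := by
    intro n
    show (Φ F (Fin 2) m) (Ψ₀ n) ∈ OrthG F (Fin 2 × Fin m)
    rw [Φ_apply]
    refine Subgroup.mul_mem _ (f₁_mem _ (fun i => ?_)) (f₂_mem _)
    show ι₂ (n.left i) ∈ OrthG F (Fin 2)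
    rw [hι₂]
    exact (n.left i).1.2
  let Φ₀ : (Fin m → ↥(D : Subgroup ↥(OrthG F (Fin 2)))) ⋊[φ]
      ↥(R : Subgroup (Equiv.Perm (Fin m))) →* ↥(OrthG F (Fin 2 × Fin m)) :=
    ((Φ F (Fin 2) m).comp Ψ₀).codRestrict _ hmemΦ
  have hΦ₀ : Function.Injective Φ₀ := by
    intro x y h
    have h1 : (Φ F (Fin 2) m) (Ψ₀ x) = (Φ F (Fin 2) m) (Ψ₀ y) := congrArg Subtype.val h
    exact hΨ₀ (Φ_injective h1)
  let τT : ((Fin m → ↥(D : Subgroup ↥(OrthG F (Fin 2)))) ⋊[φ]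
      ↥(R : Subgroup (Equiv.Perm (Fin m)))) × (Fin k → ℤˣ) →* G :=
    θ.comp ((embO k a).comp (Φ₀.prodMap (MonoidHom.id (Fin k → ℤˣ))))
  have hτT : Function.Injective τT := by
    intro x y h
    have h1 := embO_injective h2 k a (hθ h)
    have h3 : Φ₀ x.1 = Φ₀ y.1 := congrArg Prod.fst h1
    have h4 := congrArg Prod.snd h1
    exact Prod.ext (hΦ₀ h3) h4
  obtain ⟨α, hα⟩ : ∃ α : ↥(OrthG F (Fin 2 × Fin m)) →* Abelianization G,
      ∀ n, α (Φ₀ n) = (Abelianization.of.comp τT) (n, 1) :=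
    ⟨(Abelianization.of.comp θ).comp ((embO k a).comp (MonoidHom.inl _ _)), fun n => rfl⟩
  have hcl : ∀ (i : Fin m) (d : ↥(D : Subgroup ↥(OrthG F (Fin 2)))),
      (ι₂.compLeft (Fin m)) (Pi.mulSingle i d) = Pi.mulSingle i (ι₂ d) := by
    intro i d
    funext l
    exact Pi.apply_mulSingle (fun _ => ι₂) (fun _ => map_one ι₂) i d l
  have hK : EE 2 ↥(Abelianization.of.comp τT).ker := by
    refine ker_EE hm (R : Subgroup (Equiv.Perm (Fin m))) φ (Abelianization.of.comp τT)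
      ?_ ?_ hR hDEE ?_
    · intro π
      rw [← hα]
      have hmem : Φ₀ (SemidirectProduct.inr π) ∈ commutator ↥(OrthG F (Fin 2 × Fin m)) := by
        have e : Φ₀ (SemidirectProduct.inr π) =
            PJh F (Fin 2 × Fin m) (shE (Fin 2) (π : Equiv.Perm (Fin m))) := by
          apply Subtype.ext
          show (Φ F (Fin 2) m) (Ψ₀ (SemidirectProduct.inr π)) = _
          rw [SemidirectProduct.map_inr, Φ_inr]
          apply Units.ext
          rfl
        rw [e]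
        exact f₂_comm _
      exact MonoidHom.mem_ker.mp (Abelianization.commutator_subset_ker α hmem)
    · intro i j d
      rw [← hα, ← hα]
      obtain ⟨p, hp⟩ : ∃ p : ↥(OrthG F (Fin 2 × Fin m)),
          Φ₀ (SemidirectProduct.inl (Pi.mulSingle j d)) =
            p * Φ₀ (SemidirectProduct.inl (Pi.mulSingle i d)) * p⁻¹ := by
        refine ⟨⟨f₂ F (Fin 2) m (Equiv.swap i j), f₂_mem _⟩, ?_⟩
        apply Subtype.ext
        show (Φ F (Fin 2) m) (Ψ₀ (SemidirectProduct.inl (Pi.mulSingle j d))) =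
          f₂ F (Fin 2) m (Equiv.swap i j) *
            (Φ F (Fin 2) m) (Ψ₀ (SemidirectProduct.inl (Pi.mulSingle i d))) *
            (f₂ F (Fin 2) m (Equiv.swap i j))⁻¹
        rw [SemidirectProduct.map_inl, SemidirectProduct.map_inl, Φ_inl, Φ_inl, hcl j, hcl i]
        exact f₁_conj i j (ι₂ d)
      rw [hp, map_mul, map_mul, map_inv, mul_comm (α p), mul_inv_cancel_right]
    · intro e
      funext l
      exact Int.units_mul_self (e l)
  have hcD : Nat.card ↥(D : Subgroup ↥(OrthG F (Fin 2))) =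
      2 ^ (Nat.card ↥(OrthG F (Fin 2))).factorization 2 := D.card_eq_multiplicity
  have hcR : Nat.card ↥(R : Subgroup (Equiv.Perm (Fin m))) = 2 ^ padicValNat 2 m.factorial := by
    rw [R.card_eq_multiplicity, Nat.factorization_def _ Nat.prime_two, Nat.card_perm,
      Nat.card_fin]
  have hcE : Nat.card (Fin k → ℤˣ) = 2 ^ k := by
    rw [Nat.card_fun, Nat.card_fin, Nat.card_eq_fintype_card, Fintype.card_units_int]
  have hT : Nat.card (((Fin m → ↥(D : Subgroup ↥(OrthG F (Fin 2)))) ⋊[φ]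
      ↥(R : Subgroup (Equiv.Perm (Fin m)))) × (Fin k → ℤˣ)) =
      2 ^ (m * (Nat.card ↥(OrthG F (Fin 2))).factorization 2 + padicValNat 2 m.factorial + k) := by
    rw [Nat.card_prod, SemidirectProduct.card, Nat.card_fun, Nat.card_fin, hcD, hcR, hcE,
      ← pow_mul, ← pow_add, ← pow_add, mul_comm]
  have : Finite (((Fin m → ↥(D : Subgroup ↥(OrthG F (Fin 2)))) ⋊[φ]
      ↥(R : Subgroup (Equiv.Perm (Fin m)))) × (Fin k → ℤˣ)) :=
    Nat.finite_of_card_ne_zero (by rw [hT]; positivity)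
  exact sylow_of_ker τT hτT _ hT hcard hidx hK P

end Cfsg.Agent.Lib.helper19.OmC
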