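import Cfsg.Agent.Lib.helper19.OmC
import Cfsg.Agent.Lib.helper4.OrthIdx
import Cfsg.Agent.Lib.helper4.QSim
import Cfsg.Agent.Lib.helper4.OrthOddForm
import Cfsg.Agent.S0286
import Cfsg.Agent.S0287
import Cfsg.Agent.S0288

/-!
Order of the 2x2 orthogonal group and the odd-dimensional case.
-/

namespace Cfsg.Agent.Lib.helper19.OmD

open Matrix Cfsg.Agent.Lib.helper19.SylAb Cfsg.Agent.Lib.helper19.SL2Q
  Cfsg.Agent.Lib.helper19.GL2T Cfsg.Agent.Lib.helper19.OmA Cfsg.Agent.Lib.helper19.OmB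
  Cfsg.Agent.Lib.helper19.OmC Cfsg.Agent.Lib.helper4.GLWreath

variable {F : Type*} [Field F]

/-- sum of two squares -/
def QS₂ (F : Type*) [Field F] (u : Fin 2 → F) : F := u 0 * u 0 + u 1 * u 1

theorem iso_le (h2 : (2 : F) ≠ 0) : Cfsg.isometryGroup F (QS₂ F) ≤ OrthG F (Fin 2) := by
  intro g hg
  have key : ∀ u0 u1 : F, (g.1 0 0 * u0 + g.1 0 1 * u1) * (g.1 0 0 * u0 + g.1 0 1 * u1) +
      (g.1 1 0 * u0 + g.1 1 1 * u1) * (g.1 1 0 * u0 + g.1 1 1 * u1) = u0 * u0 + u1 * u1 := by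
    intro u0 u1
    have h' : QS₂ F (g.1 *ᵥ ![u0, u1]) = QS₂ F ![u0, u1] := hg ![u0, u1] ![u0, u1]
    have e : (g.1 *ᵥ ![u0, u1]) =
        ![g.1 0 0 * u0 + g.1 0 1 * u1, g.1 1 0 * u0 + g.1 1 1 * u1] := by
      funext i
      fin_cases i <;> simp [Matrix.mulVec, dotProduct, Fin.sum_univ_two]
    rw [e] at h'
    simpa [QS₂] using h'
  have e1 := key 1 0
  have e2 := key 0 1
  have e3 := key 1 1
  have e4 : g.1 0 0 * g.1 0 1 + g.1 1 0 * g.1 1 1 = 0 := by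
    have h : (2 : F) * (g.1 0 0 * g.1 0 1 + g.1 1 0 * g.1 1 1) = 0 := by
      linear_combination e3 - e1 - e2
    exact (mul_eq_zero.mp h).resolve_left h2
  show (g.1)ᵀ * g.1 = 1
  ext i j
  fin_cases i <;> fin_cases j
  · simp [Matrix.mul_apply, Fin.sum_univ_two]
    linear_combination e1
  · simp [Matrix.mul_apply, Fin.sum_univ_two]
    linear_combination e4
  · simp [Matrix.mul_apply, Fin.sum_univ_two]
    linear_combination e4
  · simp [Matrix.mul_apply, Fin.sum_univ_two]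
    linear_combination e2

theorem plane_plus (h2 : (2 : F) ≠ 0) (i : F) (hi : i * i = -1) :
    ∃ θ : ↥(Cfsg.isometryGroup F (Cfsg.quadFormPlus 1 F)) →* ↥(OrthG F (Fin 2)),
      Function.Injective θ := by
  obtain ⟨hh, hh2⟩ : ∃ hh : F, 2 * hh = 1 := ⟨2⁻¹, mul_inv_cancel₀ h2⟩
  obtain ⟨B, hB⟩ : ∃ B : Matrix (Fin 2) (Fin 1 ⊕ Fin 1) F, B = Matrix.of
      (fun (r : Fin 2) (s : Fin 1 ⊕ Fin 1) =>
        Sum.elim (fun _ => ![hh, -i * hh] r) (fun _ => ![hh, i * hh] r) s) := ⟨_, rfl⟩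
  obtain ⟨C, hC⟩ : ∃ C : Matrix (Fin 1 ⊕ Fin 1) (Fin 2) F, C = Matrix.of
      (fun (s : Fin 1 ⊕ Fin 1) (r : Fin 2) =>
        Sum.elim (fun _ => ![1, i] r) (fun _ => ![1, -i] r) s) := ⟨_, rfl⟩
  have hBC : B * C = 1 := by
    ext r r'
    fin_cases r <;> fin_cases r'
    · simp [hB, hC, Matrix.mul_apply]
      linear_combination hh2
    · simp [hB, hC, Matrix.mul_apply]
    · simp [hB, hC, Matrix.mul_apply]
    · simp [hB, hC, Matrix.mul_apply]
      linear_combination (-2 * hh) * hi + hh2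
  have hCB : C * B = 1 := by
    ext s s'
    rcases s with s | s <;> rcases s' with s' | s'
    · obtain rfl : s = s' := Subsingleton.elim s s'
      simp [hB, hC, Matrix.mul_apply, Fin.sum_univ_two]
      linear_combination (-hh) * hi + hh2
    · simp [hB, hC, Matrix.mul_apply, Fin.sum_univ_two]
      linear_combination hh * hi
    · simp [hB, hC, Matrix.mul_apply, Fin.sum_univ_two]
      linear_combination hh * hi
    · obtain rfl : s = s' := Subsingleton.elim s s'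
      simp [hB, hC, Matrix.mul_apply, Fin.sum_univ_two]
      linear_combination (-hh) * hi + hh2
  have h : ∀ x : Fin 1 ⊕ Fin 1 → F, QS₂ F (B *ᵥ x) = 1 * Cfsg.quadFormPlus 1 F x := by
    intro x
    have e : B *ᵥ x = ![hh * x (Sum.inl 0) + hh * x (Sum.inr 0),
        -i * hh * x (Sum.inl 0) + i * hh * x (Sum.inr 0)] := by
      funext r
      fin_cases r <;> simp [hB, Matrix.mulVec, dotProduct]
    rw [e]
    simp only [QS₂, Cfsg.quadFormPlus, Matrix.cons_val_zero, Matrix.cons_val_one,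
      Finset.univ_unique, Finset.sum_singleton, Fin.default_eq_zero, one_mul]
    linear_combination (hh ^ 2 * (x (Sum.inr 0) - x (Sum.inl 0)) ^ 2) * hi +
      (x (Sum.inl 0) * x (Sum.inr 0) * (2 * hh + 1)) * hh2
  obtain ⟨θ, hθ⟩ := transport (QS₂ F) (Cfsg.quadFormPlus 1 F) B C hBC hCB 1 h
  exact ⟨(Subgroup.inclusion (iso_le h2)).comp θ,
    (Subgroup.inclusion_injective (iso_le h2)).comp hθ⟩

theorem plane_minus (h2 : (2 : F) ≠ 0) :
    ∃ θ : ↥(Cfsg.isometryGroup F (Cfsg.quadFormMinus 0 F 0 1)) →* ↥(OrthG F (Fin 2)),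
      Function.Injective θ := by
  obtain ⟨B, hB⟩ : ∃ B : Matrix (Fin 2) ((Fin 0 ⊕ Fin 0) ⊕ Fin 2) F, B = Matrix.of
      (fun (r : Fin 2) (s : (Fin 0 ⊕ Fin 0) ⊕ Fin 2) =>
        Sum.elim (fun _ => (0 : F)) (fun l => if l = r then 1 else 0) s) := ⟨_, rfl⟩
  obtain ⟨C, hC⟩ : ∃ C : Matrix ((Fin 0 ⊕ Fin 0) ⊕ Fin 2) (Fin 2) F, C = Matrix.of
      (fun (s : (Fin 0 ⊕ Fin 0) ⊕ Fin 2) (r : Fin 2) =>
        Sum.elim (fun _ => (0 : F)) (fun l => if l = r then 1 else 0) s) := ⟨_, rfl⟩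
  have hBC : B * C = 1 := by
    ext r r'
    fin_cases r <;> fin_cases r' <;> simp [hB, hC, Matrix.mul_apply, Fin.sum_univ_two]
  have hCB : C * B = 1 := by
    ext s s'
    rcases s with (s | s) | l
    · exact s.elim0
    · exact s.elim0
    · rcases s' with (s' | s') | l'
      · exact s'.elim0
      · exact s'.elim0
      · fin_cases l <;> fin_cases l' <;> simp [hB, hC, Matrix.mul_apply, Fin.sum_univ_two]
  have h : ∀ x : (Fin 0 ⊕ Fin 0) ⊕ Fin 2 → F,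
      QS₂ F (B *ᵥ x) = 1 * Cfsg.quadFormMinus 0 F 0 1 x := by
    intro x
    have e : B *ᵥ x = ![x (Sum.inr 0), x (Sum.inr 1)] := by
      funext r
      fin_cases r <;> simp [hB, Matrix.mulVec, dotProduct, Fin.sum_univ_two]
    rw [e]
    simp [QS₂, Cfsg.quadFormMinus]
    ring
  obtain ⟨θ, hθ⟩ := transport (QS₂ F) (Cfsg.quadFormMinus 0 F 0 1) B C hBC hCB 1 h
  exact ⟨(Subgroup.inclusion (iso_le h2)).comp θ,
    (Subgroup.inclusion_injective (iso_le h2)).comp hθ⟩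

theorem aniso (hns : ¬ IsSquare (-1 : F)) :
    ∀ z₁ z₂ : F, z₁ ^ 2 + 0 * z₁ * z₂ + 1 * z₂ ^ 2 = 0 → z₁ = 0 ∧ z₂ = 0 := by
  intro z₁ z₂ h
  by_cases hz : z₂ = 0
  · subst hz
    have h0 : z₁ ^ 2 = 0 := by linear_combination h
    exact ⟨(pow_eq_zero_iff (by norm_num : (2 : ℕ) ≠ 0)).mp h0, rfl⟩
  · exfalso
    apply hns
    refine ⟨z₁ / z₂, ?_⟩
    have hz2 : z₂ * z₂ ≠ 0 := mul_ne_zero hz hz
    rw [div_mul_div_comm, eq_div_iff hz2]
    linear_combination (-1 : F) * h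

theorem orth2_card [Fintype F] (hodd : Odd (Fintype.card F)) :
    padicValNat 2 (Fintype.card F ^ 2 - 1) ≤
      (Nat.card ↥(OrthG F (Fin 2))).factorization 2 := by
  classical
  have h2 : (2 : F) ≠ 0 := Cfsg.Agent.Lib.helper4.SpSylowEA.two_ne_zero_of_odd hodd
  have hsq := FiniteField.isSquare_neg_one_iff (F := F)
  obtain ⟨q, hq⟩ : ∃ q, q = Fintype.card F := ⟨_, rfl⟩
  rw [← hq] at hodd hsq ⊢
  have hq1 : 1 < q := by
    rw [hq]
    exact Fintype.one_lt_card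
  have hne : Nat.card ↥(OrthG F (Fin 2)) ≠ 0 := Nat.card_pos.ne'
  have hfac : q ^ 2 - 1 = (q - 1) * (q + 1) := by
    obtain ⟨r, rfl⟩ : ∃ r, q = r + 1 := ⟨q - 1, by omega⟩
    have e1 : (r + 1) ^ 2 = r * (r + 1 + 1) + 1 := by ring
    rw [e1, Nat.add_sub_cancel, Nat.add_sub_cancel]
  have hv : padicValNat 2 (q ^ 2 - 1) = padicValNat 2 (q - 1) + padicValNat 2 (q + 1) := by
    rw [hfac, padicValNat.mul (by omega) (by omega)]
  have hq4 : q % 4 = 1 ∨ q % 4 = 3 := by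
    obtain ⟨l, hl⟩ := hodd
    omega
  rcases hq4 with h4 | h4
  · have hs : IsSquare (-1 : F) := by
      rw [hsq]
      omega
    obtain ⟨i, hi⟩ := hs
    obtain ⟨θ, hθ⟩ := plane_plus h2 i hi.symm
    have hdvd := Subgroup.card_dvd_of_injective θ hθ
    have hc := Cfsg.Agent.S0287.result (F := F) hq.symm 1 le_rfl
    have hc' : Nat.card ↥(Cfsg.isometryGroup F (Cfsg.quadFormPlus 1 F)) = 2 * (q - 1) :=
      hc.trans (by simp)
    rw [hc'] at hdvd
    have h1 : padicValNat 2 (q + 1) = 1 := by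
      obtain ⟨t, ht⟩ : ∃ t, q + 1 = 2 * (2 * t + 1) := ⟨q / 4, by omega⟩
      rw [ht, padicValNat.mul (by norm_num) (by omega), padicValNat_self,
        padicValNat.eq_zero_of_not_dvd (by omega)]
    have h3 : padicValNat 2 (2 * (q - 1)) = 1 + padicValNat 2 (q - 1) := by
      rw [padicValNat.mul (by norm_num) (by omega), padicValNat_self]
    have h6 : padicValNat 2 (2 * (q - 1)) ≤ (Nat.card ↥(OrthG F (Fin 2))).factorization 2 :=
      (Nat.prime_two.pow_dvd_iff_le_factorization hne).mp (dvd_trans pow_padicValNat_dvd hdvd)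
    omega
  · have hns : ¬ IsSquare (-1 : F) := by
      rw [hsq]
      omega
    obtain ⟨θ, hθ⟩ := plane_minus (F := F) h2
    have hdvd := Subgroup.card_dvd_of_injective θ hθ
    have hc := Cfsg.Agent.S0288.result (F := F) hq.symm 1 le_rfl 0 1 (aniso hns)
    have hc' : Nat.card ↥(Cfsg.isometryGroup F (Cfsg.quadFormMinus 0 F 0 1)) = 2 * (q + 1) :=
      hc.trans (by simp)
    rw [hc'] at hdvd
    have h1 : padicValNat 2 (q - 1) = 1 := by
      obtain ⟨t, ht⟩ : ∃ t, q - 1 = 2 * (2 * t + 1) := ⟨q / 4, by omega⟩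
      rw [ht, padicValNat.mul (by norm_num) (by omega), padicValNat_self,
        padicValNat.eq_zero_of_not_dvd (by omega)]
    have h3 : padicValNat 2 (2 * (q + 1)) = 1 + padicValNat 2 (q + 1) := by
      rw [padicValNat.mul (by norm_num) (by omega), padicValNat_self]
    have h6 : padicValNat 2 (2 * (q + 1)) ≤ (Nat.card ↥(OrthG F (Fin 2))).factorization 2 :=
      (Nat.prime_two.pow_dvd_iff_le_factorization hne).mp (dvd_trans pow_padicValNat_dvd hdvd)
    omega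

theorem v2_prod (q : ℕ) (hq : Odd q) (hq1 : 1 < q) (m : ℕ) :
    (∏ i ∈ Finset.range m, (q ^ (2 * (i + 1)) - 1)) ≠ 0 ∧
    padicValNat 2 (∏ i ∈ Finset.range m, (q ^ (2 * (i + 1)) - 1)) =
      m * padicValNat 2 (q ^ 2 - 1) + padicValNat 2 m.factorial := by
  have hf : ∀ i : ℕ, q ^ (2 * (i + 1)) - 1 ≠ 0 := by
    intro i
    have := Nat.one_lt_pow (n := 2 * (i + 1)) (by omega) hq1
    omega
  induction m with
  | zero => simp
  | succ m ih =>
    obtain ⟨ih1, ih2⟩ := ih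
    refine ⟨?_, ?_⟩
    · rw [Finset.prod_range_succ]
      exact mul_ne_zero ih1 (hf m)
    · rw [Finset.prod_range_succ, padicValNat.mul ih1 (hf m), ih2,
        Cfsg.Agent.Lib.helper4.SpSylowEA.v2_lte q hq hq1 m, Nat.factorial_succ,
        padicValNat.mul (by omega) (Nat.factorial_ne_zero _)]
      ring

theorem omega_odd_EE [Fintype F] (hF : Odd (Fintype.card F)) (m : ℕ) (hm : 3 ≤ m)
    (P : Sylow 2 (Cfsg.Omega F (Cfsg.quadFormOdd m F))) :
    EE 2 ↥(P : Subgroup (Cfsg.Omega F (Cfsg.quadFormOdd m F))) := by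
  classical
  have h2 : (2 : F) ≠ 0 := Cfsg.Agent.Lib.helper4.SpSylowEA.two_ne_zero_of_odd hF
  have hq1 : 1 < Fintype.card F := Fintype.one_lt_card
  have key : ∀ (Qf : (Unit ⊕ (Fin m ⊕ Fin m) → F) → F),
      Qf = ⇑(Cfsg.Agent.Lib.helper4.qOdd F m) → ∀ P : Sylow 2 (Cfsg.Omega F Qf),
      EE 2 ↥(P : Subgroup (Cfsg.Omega F Qf)) := by
    intro Qf hQf P
    subst hQf
    obtain ⟨g, c, hc, hg⟩ := Cfsg.Agent.Lib.helper4.sim_odd h2 m
      ((Fin 2 × Fin m) ⊕ Fin 1 → F) (Unit ⊕ (Fin m ⊕ Fin m) → F)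
      (QM F (Fin 2 × Fin m) 1 (fun _ => 1)) (Cfsg.Agent.Lib.helper4.qOdd F m)
      (by rw [Module.finrank_fintype_fun_eq_card]; simp)
      (by rw [Module.finrank_fintype_fun_eq_card]; simp; omega)
      (fun x hx => QM_sep h2 1 _ (fun _ => one_ne_zero) x hx)
      (fun x hx => (Cfsg.Agent.Lib.helper4.nondeg_qOdd h2 m).1 x hx)
    obtain ⟨θ, hθ⟩ := transport_lin (⇑(Cfsg.Agent.Lib.helper4.qOdd F m))
      (⇑(QM F (Fin 2 × Fin m) 1 (fun _ => 1))) g c hg
    refine model_EE h2 m hm 1 (fun _ => 1) θ hθ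
      (Cfsg.Agent.Lib.helper4.omega_index_odd h2 (Cfsg.Agent.Lib.helper4.qOdd F m)
        (Cfsg.Agent.Lib.helper4.nondeg_qOdd h2 m) (by simp; omega)) ?_ P
    rw [Cfsg.Agent.Lib.helper4.qOdd_coe,
      Cfsg.Agent.S0286.result (F := F) (q := Fintype.card F) rfl hF m,
      Nat.factorization_def _ Nat.prime_two]
    obtain ⟨hp1, hp2⟩ := v2_prod (Fintype.card F) hF hq1 m
    have hqm : Fintype.card F ^ m ^ 2 ≠ 0 := pow_ne_zero _ (by omega)
    have hnd : ¬ 2 ∣ Fintype.card F ^ m ^ 2 := fun h =>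
      (Nat.not_even_iff_odd.mpr hF.pow) (even_iff_two_dvd.mpr h)
    rw [padicValNat.mul (mul_ne_zero (by norm_num) hqm) hp1,
      padicValNat.mul (by norm_num) hqm, padicValNat_self,
      padicValNat.eq_zero_of_not_dvd hnd, hp2]
    have h5 := Nat.mul_le_mul_left m (orth2_card hF)
    omega
  exact key _ (Cfsg.Agent.Lib.helper4.qOdd_coe m).symm P

end Cfsg.Agent.Lib.helper19.OmD
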