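import Cfsg.Agent.Lib.helper19.OmD
import Cfsg.Agent.Lib.helper4.OrthForms
import Cfsg.Agent.S2623
import Cfsg.Agent.S2621
import Cfsg.Agent.S2620

/-!
Even-dimensional orthogonal groups: Sylow 2-subgroups of the commutator subgroup.
-/

namespace Cfsg.Agent.Lib.helper19.OmE

open Matrix Cfsg.Agent.Lib.helper19.SylAb Cfsg.Agent.Lib.helper19.SL2Q
  Cfsg.Agent.Lib.helper19.GL2T Cfsg.Agent.Lib.helper19.OmA Cfsg.Agent.Lib.helper19.OmB
  Cfsg.Agent.Lib.helper19.OmC Cfsg.Agent.Lib.helper19.OmD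

section arith

theorem pow_mod4 (q m : ℕ) (hq : q % 4 = 3) : q ^ m % 4 = if Even m then 1 else 3 := by
  have h9 : q ^ 2 % 4 = 1 := by rw [Nat.pow_mod, hq]
  rcases Nat.even_or_odd' m with ⟨j, rfl | rfl⟩
  · have h1 : (q ^ 2) ^ j % 4 = 1 := by simp [Nat.pow_mod, h9]
    rw [if_pos (even_two_mul j), pow_mul, h1]
  · have e : q ^ (2 * j + 1) = (q ^ 2) ^ j * q := by rw [pow_succ, pow_mul]
    have h1 : (q ^ 2) ^ j % 4 = 1 := by simp [Nat.pow_mod, h9]
    have h3 : (q ^ 2) ^ j * q % 4 = 3 := by simp [Nat.mul_mod, h1, hq]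
    have hne : ¬ Even (2 * j + 1) := by simp
    rw [if_neg hne, e, h3]

theorem even_iff (q m : ℕ) (hq : Odd q) : Even (m * (q - 1) / 2) ↔ q ^ m % 4 = 1 := by
  obtain ⟨t, rfl⟩ := hq
  have e : m * (2 * t + 1 - 1) / 2 = m * t := by
    rw [Nat.add_sub_cancel, show m * (2 * t) = 2 * (m * t) from by ring,
      Nat.mul_div_cancel_left _ (by norm_num)]
  rw [e, Nat.even_mul]
  rcases Nat.even_or_odd t with ht | ht
  · have h1 : (2 * t + 1) % 4 = 1 := by
      obtain ⟨s, rfl⟩ := ht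
      omega
    have h2 : (2 * t + 1) ^ m % 4 = 1 := by simp [Nat.pow_mod, h1]
    simp [ht, h2]
  · have h3 : (2 * t + 1) % 4 = 3 := by
      obtain ⟨s, rfl⟩ := ht
      omega
    rw [pow_mod4 _ m h3]
    have hnt : ¬ Even t := Nat.not_even_iff_odd.mpr ht
    by_cases hm : Even m
    · simp [hm]
    · simp [hm, hnt]

theorem v2_pm (q m : ℕ) (hq : Odd q) (hq1 : 1 < q) (hm : 1 ≤ m) :
    padicValNat 2 (q ^ m + 1) + padicValNat 2 (q ^ m - 1) =
      padicValNat 2 (q ^ 2 - 1) + padicValNat 2 m := by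
  obtain ⟨n, rfl⟩ : ∃ n, m = n + 1 := ⟨m - 1, by omega⟩
  have h1 := Cfsg.Agent.Lib.helper4.SpSylowEA.v2_lte q hq hq1 n
  have hX : 1 < q ^ (n + 1) := Nat.one_lt_pow (by omega) hq1
  obtain ⟨X, hXdef⟩ : ∃ X, X = q ^ (n + 1) := ⟨_, rfl⟩
  rw [← hXdef] at hX ⊢
  have e : q ^ (2 * (n + 1)) - 1 = (X + 1) * (X - 1) := by
    rw [pow_mul', ← hXdef]
    obtain ⟨r, rfl⟩ : ∃ r, X = r + 1 := ⟨X - 1, by omega⟩
    have e1 : (r + 1) ^ 2 = (r + 1 + 1) * r + 1 := by ring
    rw [e1, Nat.add_sub_cancel, Nat.add_sub_cancel]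
  rw [e, padicValNat.mul (by omega) (by omega)] at h1
  exact h1

theorem v2_two_odd (X : ℕ) (h : X % 4 = 2) : padicValNat 2 X = 1 := by
  obtain ⟨t, ht⟩ : ∃ t, X = 2 * (2 * t + 1) := ⟨X / 4, by omega⟩
  rw [ht, padicValNat.mul (by norm_num) (by omega), padicValNat_self,
    padicValNat.eq_zero_of_not_dvd (by omega)]

theorem pred_mul_add (m B : ℕ) (hm : 1 ≤ m) : (m - 1) * B + B = m * B := by
  obtain ⟨n, rfl⟩ : ∃ n, m = n + 1 := ⟨m - 1, by omega⟩
  rw [Nat.add_sub_cancel]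
  ring

end arith

variable {F : Type*} [Field F]

theorem gram_det {ι : Type} [Fintype ι] [DecidableEq ι] (Q : QuadraticForm F (ι → F)) {n : ℕ}
    (b : Module.Basis (Fin n) F (ι → F))
    (hb : ∀ i j, i ≠ j → QuadraticMap.polar (⇑Q) (b i) (b j) = 0) :
    (Matrix.of (fun i j : Fin n => QuadraticMap.polar (⇑Q) (b i) (b j))).det =
      ∏ i, 2 * Q (b i) := by
  have e : Matrix.of (fun i j : Fin n => QuadraticMap.polar (⇑Q) (b i) (b j)) =
      Matrix.diagonal (fun i => 2 * Q (b i)) := by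
    ext i j
    by_cases hij : i = j
    · subst hij
      rw [Matrix.of_apply, Matrix.diagonal_apply_eq, QuadraticMap.polar_self, two_nsmul, two_mul]
    · rw [Matrix.of_apply, Matrix.diagonal_apply_ne _ hij, hb i j hij]
  rw [e, Matrix.det_diagonal]

theorem basis_hom (h2 : (2 : F) ≠ 0) {ι : Type} [Fintype ι] [DecidableEq ι]
    (Q : QuadraticForm F (ι → F)) {n : ℕ} (b : Module.Basis (Fin n) F (ι → F))
    (hb : ∀ i j, i ≠ j → QuadraticMap.polar (⇑Q) (b i) (b j) = 0)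
    {J : Type} [Fintype J] [DecidableEq J] (k : ℕ) (e : J ⊕ Fin k ≃ Fin n)
    (h1 : ∀ j, Q (b (e (Sum.inl j))) = 1) :
    ∃ θ : ↥(Cfsg.isometryGroup F ⇑(QM F J k (fun l => Q (b (e (Sum.inr l)))))) →*
      ↥(Cfsg.isometryGroup F ⇑Q), Function.Injective θ := by
  classical
  haveI : Invertible (2 : F) := invertibleOfNonzero h2
  obtain ⟨b₂, hb₂⟩ : ∃ b₂ : Module.Basis (J ⊕ Fin k) F (ι → F), ∀ x, b₂ x = b (e x) :=
    ⟨b.reindex e.symm, fun x => by rw [Module.Basis.reindex_apply, Equiv.symm_symm]⟩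
  have horth : (QuadraticMap.associated (R := F) Q).IsOrthoᵢ b₂ := by
    rw [LinearMap.isOrthoᵢ_def]
    intro x y hxy
    rw [hb₂, hb₂]
    show QuadraticMap.associatedHom F Q (b (e x)) (b (e y)) = 0
    rw [QuadraticMap.associated_apply]
    have h := hb (e x) (e y) (fun h => hxy (e.injective h))
    unfold QuadraticMap.polar at h
    rw [h, smul_zero]
  have hrepr := QuadraticMap.basisRepr_eq_of_iIsOrtho Q b₂ horth
  refine transport_lin (⇑Q) (⇑(QM F J k (fun l => Q (b (e (Sum.inr l)))))) b₂.equivFun.symm 1 ?_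
  intro v
  rw [one_mul, Module.Basis.equivFun_symm_apply, ← QuadraticMap.basisRepr_apply, hrepr,
    QuadraticMap.weightedSumSquares_apply, QM_apply, Fintype.sum_sum_type]
  congr 1
  · refine Finset.sum_congr rfl (fun j _ => ?_)
    rw [hb₂, h1, one_smul]
  · refine Finset.sum_congr rfl (fun l _ => ?_)
    rw [hb₂, smul_eq_mul]

theorem even_EE [Fintype F] (hF : Odd (Fintype.card F)) (m : ℕ) (hm : 4 ≤ m) {ι : Type}
    [Fintype ι] [DecidableEq ι] (hι : Fintype.card ι = 2 * m) (Q : QuadraticForm F (ι → F))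
    (hQ : (QuadraticMap.polarBilin Q).Nondegenerate)
    (hsq : (∃ b : Module.Basis (Fin (2 * m)) F (ι → F), IsSquare
        (Matrix.of (fun i j : Fin (2 * m) => QuadraticMap.polar (⇑Q) (b i) (b j))).det) →
      (Nat.card ↥(Cfsg.isometryGroup F ⇑Q)).factorization 2 ≤
        m * padicValNat 2 (Fintype.card F ^ 2 - 1) + padicValNat 2 m.factorial)
    (hns : (∃ b : Module.Basis (Fin (2 * m)) F (ι → F), ¬ IsSquare
        (Matrix.of (fun i j : Fin (2 * m) => QuadraticMap.polar (⇑Q) (b i) (b j))).det) →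
      (Nat.card ↥(Cfsg.isometryGroup F ⇑Q)).factorization 2 ≤
        (m - 1) * padicValNat 2 (Fintype.card F ^ 2 - 1) + padicValNat 2 (m - 1).factorial + 2)
    (P : Sylow 2 (Cfsg.Omega F ⇑Q)) : EE 2 ↥(P : Subgroup (Cfsg.Omega F ⇑Q)) := by
  classical
  have h2 : (2 : F) ≠ 0 := Cfsg.Agent.Lib.helper4.SpSylowEA.two_ne_zero_of_odd hF
  have hfin : Module.finrank F (ι → F) = 2 * m := by
    rw [Module.finrank_fintype_fun_eq_card, hι]
  obtain ⟨b, hb1, hb2, hb3⟩ := Cfsg.Agent.S2623.orth_basis h2 (2 * m) Q hfin hQ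
  have hidx := Cfsg.Agent.Lib.helper4.omega_index_odd h2 Q hQ (by rw [hι]; omega)
  have horth := orth2_card hF
  obtain ⟨last, hlast⟩ : ∃ last : Fin (2 * m), (last : ℕ) + 1 = 2 * m :=
    ⟨⟨2 * m - 1, by omega⟩, by show 2 * m - 1 + 1 = 2 * m; omega⟩
  have hne_last : ∀ i : Fin (2 * m), i ≠ last → Q (b i) = 1 := by
    intro i hi
    apply hb2
    have h1 : (i : ℕ) ≠ (last : ℕ) := fun h => hi (Fin.ext h)
    have h3 := i.2
    omega
  have h2m : (2 : F) ^ m ≠ 0 := pow_ne_zero _ h2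
  by_cases hd : IsSquare (Q (b last))
  · obtain ⟨s, hs⟩ := hd
    have hs0 : s ≠ 0 := by
      rintro rfl
      exact hb3 last (by rw [hs, mul_zero])
    obtain ⟨w, hw⟩ : ∃ w : Fin (2 * m) → Fˣ, ∀ i, (w i : F) = if i = last then s⁻¹ else 1 :=
      ⟨fun i => if i = last then (Units.mk0 s hs0)⁻¹ else 1, fun i => by
        by_cases h : i = last <;> simp [h]⟩
    obtain ⟨b', hb'⟩ : ∃ b' : Module.Basis (Fin (2 * m)) F (ι → F),
        ∀ i, b' i = (w i : F) • b i :=
      ⟨b.unitsSMul w, fun i => by rw [Module.Basis.unitsSMul_apply]; rfl⟩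
    have hb'1 : ∀ i j, i ≠ j → QuadraticMap.polar (⇑Q) (b' i) (b' j) = 0 := by
      intro i j hij
      rw [hb', hb', QuadraticMap.polar_smul_left, QuadraticMap.polar_smul_right, hb1 i j hij,
        smul_zero, smul_zero]
    have hb'2 : ∀ i, Q (b' i) = 1 := by
      intro i
      rw [hb', QuadraticMap.map_smul, hw]
      by_cases hi : i = last
      · rw [if_pos hi, hi, hs, smul_eq_mul]
        field_simp
      · rw [if_neg hi, hne_last i hi]
        simp
    have hdet : IsSquare (Matrix.of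
        (fun i j : Fin (2 * m) => QuadraticMap.polar (⇑Q) (b' i) (b' j))).det := by
      rw [gram_det Q b' hb'1]
      refine ⟨2 ^ m, ?_⟩
      have hc : ∀ i ∈ (Finset.univ : Finset (Fin (2 * m))), 2 * Q (b' i) = (2 : F) :=
        fun i _ => by rw [hb'2 i, mul_one]
      rw [Finset.prod_congr rfl hc, Finset.prod_const, Finset.card_univ, Fintype.card_fin,
        two_mul, pow_add]
    have hv := hsq ⟨b', hdet⟩
    obtain ⟨e⟩ : Nonempty ((Fin 2 × Fin m) ⊕ Fin 0 ≃ Fin (2 * m)) :=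
      ⟨Fintype.equivFinOfCardEq (by simp)⟩
    obtain ⟨θ, hθ⟩ := basis_hom h2 Q b' hb'1 0 e (fun j => hb'2 _)
    refine model_EE h2 m (by omega) 0 _ θ hθ hidx ?_ P
    have h5 := Nat.mul_le_mul_left m horth
    omega
  · have hdet : ¬ IsSquare (Matrix.of
        (fun i j : Fin (2 * m) => QuadraticMap.polar (⇑Q) (b i) (b j))).det := by
      rw [gram_det Q b hb1]
      intro hsqr
      apply hd
      have hc : ∀ i ∈ (Finset.univ : Finset (Fin (2 * m))).erase last, 2 * Q (b i) = (2 : F) :=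
        fun i hi => by rw [hne_last i (Finset.ne_of_mem_erase hi), mul_one]
      have hpw : (2 : F) ^ m * 2 ^ m = 2 * 2 ^ (2 * m - 1) := by
        rw [← pow_add, ← pow_succ']
        congr 1
        omega
      have hprod : ∏ i, 2 * Q (b i) = (2 ^ m) * (2 ^ m) * Q (b last) := by
        rw [← Finset.mul_prod_erase Finset.univ _ (Finset.mem_univ last),
          Finset.prod_congr rfl hc, Finset.prod_const,
          Finset.card_erase_of_mem (Finset.mem_univ _), Finset.card_univ, Fintype.card_fin, hpw]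
        ring
      rw [hprod] at hsqr
      obtain ⟨t, ht⟩ := hsqr
      refine ⟨t / 2 ^ m, ?_⟩
      rw [div_mul_div_comm, eq_div_iff (mul_ne_zero h2m h2m)]
      linear_combination ht
    have hv := hns ⟨b, hdet⟩
    obtain ⟨e₀⟩ : Nonempty ((Fin 2 × Fin (m - 1)) ⊕ Fin 2 ≃ Fin (2 * m)) :=
      ⟨Fintype.equivFinOfCardEq (by simp; omega)⟩
    obtain ⟨e, he⟩ : ∃ e : (Fin 2 × Fin (m - 1)) ⊕ Fin 2 ≃ Fin (2 * m),
        e (Sum.inr 1) = last :=
      ⟨e₀.trans (Equiv.swap (e₀ (Sum.inr 1)) last), by simp⟩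
    obtain ⟨θ, hθ⟩ := basis_hom h2 Q b hb1 2 e (fun j => hne_last _ (fun h => by
      rw [← he] at h
      exact Sum.inl_ne_inr (e.injective h)))
    refine model_EE h2 (m - 1) (by omega) 2 _ θ hθ hidx ?_ P
    have h5 := Nat.mul_le_mul_left (m - 1) horth
    omega

theorem omega_minus_EE [Fintype F] (hF : Odd (Fintype.card F)) (m : ℕ) (hm : 4 ≤ m) (a b : F)
    (hab : ∀ z₁ z₂ : F, z₁ ^ 2 + a * z₁ * z₂ + b * z₂ ^ 2 = 0 → z₁ = 0 ∧ z₂ = 0)
    (P : Sylow 2 (Cfsg.Omega F (Cfsg.quadFormMinus (m - 1) F a b))) :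
    EE 2 ↥(P : Subgroup (Cfsg.Omega F (Cfsg.quadFormMinus (m - 1) F a b))) := by
  classical
  have hq1 : 1 < Fintype.card F := Fintype.one_lt_card
  obtain ⟨q, hq⟩ : ∃ q, q = Fintype.card F := ⟨_, rfl⟩
  have hqo : Odd q := by rw [hq]; exact hF
  have hq1' : 1 < q := by rw [hq]; exact hq1
  have key : ∀ (Qf : ((Fin (m - 1) ⊕ Fin (m - 1)) ⊕ Fin 2 → F) → F),
      Qf = ⇑(Cfsg.Agent.S2679.qMg F (m - 1) a b) → ∀ P : Sylow 2 (Cfsg.Omega F Qf),
      EE 2 ↥(P : Subgroup (Cfsg.Omega F Qf)) := by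
    intro Qf hQf P
    subst hQf
    have hcard : Nat.card ↥(Cfsg.isometryGroup F ⇑(Cfsg.Agent.S2679.qMg F (m - 1) a b)) =
        2 * q ^ (m * (m - 1)) * (q ^ m + 1) *
          ∏ i ∈ Finset.range (m - 1), (q ^ (2 * (i + 1)) - 1) := by
      rw [Cfsg.Agent.Lib.helper4.qMg_coe]
      exact Cfsg.Agent.S0288.result hq.symm m (by omega) a b hab
    obtain ⟨hp1, hp2⟩ := v2_prod q hqo hq1' (m - 1)
    have hqm : q ^ (m * (m - 1)) ≠ 0 := pow_ne_zero _ (by omega)
    have hnd : ¬ 2 ∣ q ^ (m * (m - 1)) := fun h =>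
      (Nat.not_even_iff_odd.mpr hqo.pow) (even_iff_two_dvd.mpr h)
    have hv : (Nat.card ↥(Cfsg.isometryGroup F
        ⇑(Cfsg.Agent.S2679.qMg F (m - 1) a b))).factorization 2 =
        1 + padicValNat 2 (q ^ m + 1) +
          ((m - 1) * padicValNat 2 (q ^ 2 - 1) + padicValNat 2 (m - 1).factorial) := by
      rw [hcard, Nat.factorization_def _ Nat.prime_two,
        padicValNat.mul (mul_ne_zero (mul_ne_zero (by norm_num) hqm) (by omega)) hp1,
        padicValNat.mul (mul_ne_zero (by norm_num) hqm) (by omega),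
        padicValNat.mul (by norm_num) hqm, padicValNat_self,
        padicValNat.eq_zero_of_not_dvd hnd, hp2]
    have hI1 := v2_pm q m hqo hq1' (by omega)
    have hfact : padicValNat 2 m.factorial =
        padicValNat 2 m + padicValNat 2 (m - 1).factorial := by
      obtain ⟨n, rfl⟩ : ∃ n, m = n + 1 := ⟨m - 1, by omega⟩
      rw [Nat.factorial_succ, padicValNat.mul (by omega) (Nat.factorial_ne_zero _),
        Nat.add_sub_cancel]
    have hmod : q ^ m % 4 = 1 ∨ q ^ m % 4 = 3 := by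
      have ho : Odd (q ^ m) := hqo.pow
      obtain ⟨l, hl⟩ := ho
      omega
    have hmul : m - 1 + 1 = m := by omega
    refine even_EE hF m hm (by simp; omega) (Cfsg.Agent.S2679.qMg F (m - 1) a b)
      (Cfsg.Agent.Lib.helper4.nondeg_qMg (m - 1) a b hab) ?_ ?_ P
    · rintro ⟨bb, hbb⟩
      rw [Cfsg.Agent.Lib.helper4.qMg_coe] at hbb
      have h1 := (Cfsg.Agent.S2621.result hq.symm hqo (by omega : 1 ≤ m) a b hab bb).mp hbb
      rw [even_iff q m hqo] at h1
      have h3 : q ^ m % 4 = 3 := by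
        rcases hmod with h | h
        · exact absurd h h1
        · exact h
      have h4 : padicValNat 2 (q ^ m - 1) = 1 := v2_two_odd _ (by omega)
      rw [hv, ← hq, hfact]
      have h6 : (m - 1) * padicValNat 2 (q ^ 2 - 1) + padicValNat 2 (q ^ 2 - 1) =
          m * padicValNat 2 (q ^ 2 - 1) := pred_mul_add m _ (by omega)
      omega
    · rintro ⟨bb, hbb⟩
      rw [Cfsg.Agent.Lib.helper4.qMg_coe] at hbb
      have h1 := (Cfsg.Agent.S2621.result hq.symm hqo (by omega : 1 ≤ m) a b hab bb).not.mp hbb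
      rw [not_not, even_iff q m hqo] at h1
      have h4 : padicValNat 2 (q ^ m + 1) = 1 := v2_two_odd _ (by omega)
      rw [hv, ← hq]
      omega
  exact key _ (Cfsg.Agent.Lib.helper4.qMg_coe (m - 1) a b).symm P

end Cfsg.Agent.Lib.helper19.OmE
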