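import Cfsg.Agent.Lib.helper19.OmE
import Cfsg.Agent.S0287
import Cfsg.Agent.S2562

/-!
Plus-type even-dimensional orthogonal groups, including the four-dimensional case.
-/

namespace Cfsg.Agent.Lib.helper19.OmF

open Matrix Cfsg.Agent.Lib.helper19.SylAb Cfsg.Agent.Lib.helper19.SL2Q
  Cfsg.Agent.Lib.helper19.GL2T Cfsg.Agent.Lib.helper19.OmA Cfsg.Agent.Lib.helper19.OmB
  Cfsg.Agent.Lib.helper19.OmC Cfsg.Agent.Lib.helper19.OmD Cfsg.Agent.Lib.helper19.OmE
  Cfsg.Agent.Lib.helper4.GLWreath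

theorem ker_EE2 {D : Type*} [Group D] (R : Subgroup (Equiv.Perm (Fin 2)))
    {E A : Type*} [Group E] [CommGroup A] (φ : ↥R →* MulAut (Fin 2 → D))
    (Ψ : ((Fin 2 → D) ⋊[φ] ↥R) × E →* A)
    (h1 : ∀ π : ↥R, Ψ (SemidirectProduct.inr π, 1) = 1)
    (h2 : ∀ (i j : Fin 2) (d : D), Ψ (SemidirectProduct.inl (Pi.mulSingle i d), 1) =
      Ψ (SemidirectProduct.inl (Pi.mulSingle j d), 1))
    (hR : EE 2 ↥R) (hE : ∀ e : E, e = 1) (rot : D → Prop) (s : D) (hs : s * s = 1)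
    (hrefl : ∀ d, ¬ rot d → d * d = 1)
    (hinv : ∀ d, rot d → s * d⁻¹ * s⁻¹ * d⁻¹⁻¹ = d * d)
    (hP1 : ∀ f : Fin 2 → D, Ψ (SemidirectProduct.inl f, 1) = 1 → (rot (f 0) ↔ rot (f 1))) :
    EE 2 ↥Ψ.ker := by
  classical
  obtain ⟨C, hC⟩ : ∃ C : Subgroup (((Fin 2 → D) ⋊[φ] ↥R) × E),
      C = (commutator ↥Ψ.ker).map Ψ.ker.subtype := ⟨_, rfl⟩
  have F0 : ∀ a b : ((Fin 2 → D) ⋊[φ] ↥R) × E, Ψ a = 1 → Ψ b = 1 →
      a * b * a⁻¹ * b⁻¹ ∈ C := by
    intro a b ha hb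
    rw [hC]
    exact comm_mem Ψ a b ha hb
  have F1 : ∀ a b : ((Fin 2 → D) ⋊[φ] ↥R) × E, Ψ a = 1 → Ψ b = 1 → a * a ∈ C → b * b ∈ C →
      (a * b) * (a * b) ∈ C := by
    intro a b ha hb haa hbb
    have e : (a * b) * (a * b) = (a * a) * (a⁻¹ * b * a⁻¹⁻¹ * b⁻¹) * (b * b) := by group
    rw [e]
    exact C.mul_mem (C.mul_mem haa (F0 a⁻¹ b (by rw [map_inv, ha, inv_one]) hb)) hbb
  obtain ⟨ι₀, hι₀⟩ : ∃ ι₀ : (Fin 2 → D) →* ((Fin 2 → D) ⋊[φ] ↥R) × E,
      ∀ f, ι₀ f = (SemidirectProduct.inl f, 1) :=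
    ⟨(MonoidHom.inl _ E).comp SemidirectProduct.inl, fun f => rfl⟩
  obtain ⟨ρ₀, hρ₀⟩ : ∃ ρ₀ : ↥R →* ((Fin 2 → D) ⋊[φ] ↥R) × E,
      ∀ π, ρ₀ π = (SemidirectProduct.inr π, 1) :=
    ⟨(MonoidHom.inl _ E).comp SemidirectProduct.inr, fun f => rfl⟩
  have S3 : commutator ↥R ≤ C.comap ρ₀ := by
    rw [commutator_def, Subgroup.commutator_le]
    intro a _ b _
    rw [commutatorElement_def, Subgroup.mem_comap, map_mul, map_mul, map_mul, map_inv, map_inv]
    exact F0 _ _ (by rw [hρ₀]; exact h1 a) (by rw [hρ₀]; exact h1 b)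
  have hsbar : Ψ (ι₀ (fun _ : Fin 2 => s)) = 1 := by
    have e : (fun _ : Fin 2 => s) = Pi.mulSingle 0 s * Pi.mulSingle 1 s := by
      funext i
      fin_cases i <;> simp [Pi.mulSingle_apply]
    have e1 : Ψ (ι₀ (Pi.mulSingle 1 s)) = Ψ (ι₀ (Pi.mulSingle 0 s)) := by
      rw [hι₀, hι₀]
      exact h2 1 0 s
    have e2 : Ψ (ι₀ (Pi.mulSingle 0 s)) * Ψ (ι₀ (Pi.mulSingle 0 s)) = 1 := by
      rw [← map_mul, ← map_mul, ← Pi.mulSingle_mul, hs, Pi.mulSingle_one, map_one, map_one]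
    rw [e, map_mul, map_mul, e1, e2]
  intro x
  have hx : Ψ x.1 = 1 := MonoidHom.mem_ker.mp x.2
  obtain ⟨⟨n, e⟩, hxe⟩ : ∃ y, y = x.1 := ⟨_, rfl⟩
  rw [← hxe] at hx
  have he : e = 1 := hE e
  subst he
  have hdec : ((n, 1) : ((Fin 2 → D) ⋊[φ] ↥R) × E) =
      (SemidirectProduct.inl n.left, 1) * (SemidirectProduct.inr n.right, 1) := by
    rw [Prod.mk_mul_mk, mul_one, SemidirectProduct.inl_left_mul_inr_right]
  have hz : Ψ (SemidirectProduct.inr n.right, 1) = 1 := h1 _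
  have hy : Ψ (SemidirectProduct.inl n.left, 1) = 1 := by
    have h := hx
    rw [hdec, map_mul, hz, mul_one] at h
    exact h
  have hyy : ((SemidirectProduct.inl n.left, 1) : ((Fin 2 → D) ⋊[φ] ↥R) × E) *
      (SemidirectProduct.inl n.left, 1) ∈ C := by
    have e1 : ((SemidirectProduct.inl n.left, 1) : ((Fin 2 → D) ⋊[φ] ↥R) × E) *
        (SemidirectProduct.inl n.left, 1) = ι₀ (n.left * n.left) := by
      rw [map_mul, hι₀]
    rw [e1]
    have hiff := hP1 n.left hy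
    by_cases hr : rot (n.left 0)
    · have hall : ∀ i, rot (n.left i) := Fin.forall_fin_two.mpr ⟨hr, hiff.mp hr⟩
      have e2 : n.left * n.left =
          (fun _ : Fin 2 => s) * (n.left)⁻¹ * (fun _ : Fin 2 => s)⁻¹ * ((n.left)⁻¹)⁻¹ := by
        funext i
        exact (hinv _ (hall i)).symm
      have e3 : ι₀ (n.left * n.left) = ι₀ (fun _ : Fin 2 => s) * ι₀ (n.left)⁻¹ *
          (ι₀ (fun _ : Fin 2 => s))⁻¹ * (ι₀ (n.left)⁻¹)⁻¹ := by
        rw [e2]
        simp only [map_mul, map_inv]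
      rw [e3]
      exact F0 _ _ hsbar (by rw [map_inv, map_inv, hι₀, hy, inv_one])
    · have hall : ∀ i, ¬ rot (n.left i) :=
        Fin.forall_fin_two.mpr ⟨hr, fun h => hr (hiff.mpr h)⟩
      have e2 : n.left * n.left = 1 := by
        funext i
        exact hrefl _ (hall i)
      rw [e2, map_one]
      exact C.one_mem
  have hzz : ((SemidirectProduct.inr n.right, 1) : ((Fin 2 → D) ⋊[φ] ↥R) × E) *
      (SemidirectProduct.inr n.right, 1) ∈ C := by
    have e1 : ((SemidirectProduct.inr n.right, 1) : ((Fin 2 → D) ⋊[φ] ↥R) × E) *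
        (SemidirectProduct.inr n.right, 1) = ρ₀ (n.right * n.right) := by
      rw [map_mul, hρ₀]
    rw [e1]
    have h := hR n.right
    rw [pow_two] at h
    exact S3 h
  have h6 : x.1 * x.1 ∈ C := by
    rw [← hxe, hdec]
    exact F1 _ _ hy hz hyy hzz
  rw [hC] at h6
  obtain ⟨z, hz', hzx⟩ := Subgroup.mem_map.mp h6
  have hxz : x ^ 2 = z := Subtype.ext (by rw [pow_two]; exact hzx.symm)
  rw [hxz]
  exact hz'

variable {F : Type*} [Field F]

theorem transport' {ι κ : Type} [Fintype ι] [DecidableEq ι] [Fintype κ] [DecidableEq κ]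
    (Q₁ : (ι → F) → F) (Q₂ : (κ → F) → F) (B : Matrix ι κ F) (C : Matrix κ ι F)
    (hBC : B * C = 1) (hCB : C * B = 1) (c : F) (h : ∀ x, Q₁ (B *ᵥ x) = c * Q₂ x) :
    ∃ θ : ↥(Cfsg.isometryGroup F Q₂) →* ↥(Cfsg.isometryGroup F Q₁), Function.Injective θ ∧
      ∀ g, (θ g).1.1.det = g.1.1.det := by
  have hinv1 : ∀ A : GL κ F, (B * A.1 * C) * (B * (A⁻¹).1 * C) = 1 := by
    intro A
    calc (B * A.1 * C) * (B * (A⁻¹).1 * C) = B * (A.1 * ((C * B) * ((A⁻¹).1 * C))) := by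
          simp only [Matrix.mul_assoc]
      _ = B * ((A.1 * (A⁻¹).1) * C) := by rw [hCB, Matrix.one_mul, Matrix.mul_assoc]
      _ = 1 := by rw [← Units.val_mul, mul_inv_cancel, Units.val_one, Matrix.one_mul, hBC]
  have hinv2 : ∀ A : GL κ F, (B * (A⁻¹).1 * C) * (B * A.1 * C) = 1 := by
    intro A
    calc (B * (A⁻¹).1 * C) * (B * A.1 * C) = B * ((A⁻¹).1 * ((C * B) * (A.1 * C))) := by
          simp only [Matrix.mul_assoc]
      _ = B * (((A⁻¹).1 * A.1) * C) := by rw [hCB, Matrix.one_mul, Matrix.mul_assoc]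
      _ = 1 := by rw [← Units.val_mul, inv_mul_cancel, Units.val_one, Matrix.one_mul, hBC]
  let θ₀ : GL κ F →* GL ι F :=
    { toFun := fun A => ⟨B * A.1 * C, B * (A⁻¹).1 * C, hinv1 A, hinv2 A⟩
      map_one' := Units.ext (by
        show B * (1 : GL κ F).1 * C = 1
        rw [Units.val_one, Matrix.mul_one, hBC])
      map_mul' := fun A A' => Units.ext (by
        show B * (A * A').1 * C = (B * A.1 * C) * (B * A'.1 * C)
        rw [Units.val_mul]
        calc B * (A.1 * A'.1) * C = B * (A.1 * ((1 : Matrix κ κ F) * (A'.1 * C))) := by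
              rw [Matrix.one_mul]
              simp only [Matrix.mul_assoc]
          _ = (B * A.1 * C) * (B * A'.1 * C) := by
              rw [← hCB]
              simp only [Matrix.mul_assoc]) }
  have hθ₀ : ∀ A : GL κ F, (θ₀ A).1 = B * A.1 * C := fun A => rfl
  have hmem : ∀ g : ↥(Cfsg.isometryGroup F Q₂),
      (θ₀.comp (Cfsg.isometryGroup F Q₂).subtype) g ∈ Cfsg.isometryGroup F Q₁ := by
    intro g u _
    show Q₁ ((B * g.1.1 * C) *ᵥ u) = Q₁ u
    have e1 : (B * g.1.1 * C) *ᵥ u = B *ᵥ (g.1.1 *ᵥ (C *ᵥ u)) := by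
      simp only [Matrix.mulVec_mulVec, Matrix.mul_assoc]
    have e2 : Q₂ (g.1.1 *ᵥ (C *ᵥ u)) = Q₂ (C *ᵥ u) := g.2 (C *ᵥ u) (C *ᵥ u)
    rw [e1, h, e2, ← h, Matrix.mulVec_mulVec, hBC, Matrix.one_mulVec]
  refine ⟨(θ₀.comp (Cfsg.isometryGroup F Q₂).subtype).codRestrict _ hmem, ?_, ?_⟩
  · intro a b hab
    have h1 : (θ₀ a.1).1 = (θ₀ b.1).1 := congrArg (fun z => ((z.1 : GL ι F)).1) hab
    rw [hθ₀, hθ₀] at h1
    have e : ∀ M : Matrix κ κ F, C * (B * M * C) * B = M := by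
      intro M
      calc C * (B * M * C) * B = (C * B) * M * (C * B) := by simp only [Matrix.mul_assoc]
        _ = M := by rw [hCB, Matrix.one_mul, Matrix.mul_one]
    have h3 : C * (B * a.1.1 * C) * B = C * (B * b.1.1 * C) * B := by rw [h1]
    rw [e, e] at h3
    exact Subtype.ext (Units.ext h3)
  · intro g
    show (B * g.1.1 * C).det = g.1.1.det
    exact Matrix.det_conj_of_mul_eq_one hBC hCB

theorem transport_lin' {ι κ : Type} [Fintype ι] [DecidableEq ι] [Fintype κ] [DecidableEq κ]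
    (Q₁ : (ι → F) → F) (Q₂ : (κ → F) → F) (g : (κ → F) ≃ₗ[F] (ι → F)) (c : F)
    (h : ∀ x, Q₁ (g x) = c * Q₂ x) :
    ∃ θ : ↥(Cfsg.isometryGroup F Q₂) →* ↥(Cfsg.isometryGroup F Q₁), Function.Injective θ ∧
      ∀ g, (θ g).1.1.det = g.1.1.det := by
  refine transport' Q₁ Q₂ (LinearMap.toMatrix' g.toLinearMap)
    (LinearMap.toMatrix' g.symm.toLinearMap) ?_ ?_ c ?_
  · rw [← LinearMap.toMatrix'_comp]
    have e : g.toLinearMap ∘ₗ g.symm.toLinearMap = LinearMap.id :=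
      LinearMap.ext (fun x => by simp)
    rw [e, LinearMap.toMatrix'_id]
  · rw [← LinearMap.toMatrix'_comp]
    have e : g.symm.toLinearMap ∘ₗ g.toLinearMap = LinearMap.id :=
      LinearMap.ext (fun x => by simp)
    rw [e, LinearMap.toMatrix'_id]
  · intro x
    rw [← Matrix.toLin'_apply, Matrix.toLin'_toMatrix']
    exact h x

theorem basis_hom' (h2 : (2 : F) ≠ 0) {ι : Type} [Fintype ι] [DecidableEq ι]
    (Q : QuadraticForm F (ι → F)) {n : ℕ} (b : Module.Basis (Fin n) F (ι → F))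
    (hb : ∀ i j, i ≠ j → QuadraticMap.polar (⇑Q) (b i) (b j) = 0)
    {J : Type} [Fintype J] [DecidableEq J] (k : ℕ) (e : J ⊕ Fin k ≃ Fin n)
    (h1 : ∀ j, Q (b (e (Sum.inl j))) = 1) :
    ∃ θ : ↥(Cfsg.isometryGroup F ⇑(QM F J k (fun l => Q (b (e (Sum.inr l)))))) →*
      ↥(Cfsg.isometryGroup F ⇑Q), Function.Injective θ ∧ ∀ g, (θ g).1.1.det = g.1.1.det := by
  classical
  haveI : Invertible (2 : F) := invertibleOfNonzero h2
  obtain ⟨b₂, hb₂⟩ : ∃ b₂ : Module.Basis (J ⊕ Fin k) F (ι → F), ∀ x, b₂ x = b (e x) :=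
    ⟨b.reindex e.symm, fun x => by rw [Module.Basis.reindex_apply, Equiv.symm_symm]⟩
  have horth : (QuadraticMap.associated (R := F) Q).IsOrthoᵢ b₂ := by
    rw [LinearMap.isOrthoᵢ_def]
    intro x y hxy
    rw [hb₂, hb₂]
    show QuadraticMap.associatedHom F Q (b (e x)) (b (e y)) = 0
    rw [QuadraticMap.associated_apply]
    have h := hb (e x) (e y) (fun h => hxy (e.injective h))
    unfold QuadraticMap.polar at h
    rw [h, smul_zero]
  have hrepr := QuadraticMap.basisRepr_eq_of_iIsOrtho Q b₂ horth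
  refine transport_lin' (⇑Q) (⇑(QM F J k (fun l => Q (b (e (Sum.inr l)))))) b₂.equivFun.symm 1 ?_
  intro v
  rw [one_mul, Module.Basis.equivFun_symm_apply, ← QuadraticMap.basisRepr_apply, hrepr,
    QuadraticMap.weightedSumSquares_apply, QM_apply, Fintype.sum_sum_type]
  congr 1
  · refine Finset.sum_congr rfl (fun j _ => ?_)
    rw [hb₂, h1, one_smul]
  · refine Finset.sum_congr rfl (fun l _ => ?_)
    rw [hb₂, smul_eq_mul]

theorem model_EE2 [Fintype F] (h2 : (2 : F) ≠ 0) (a : Fin 0 → F)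
    {G : Type*} [Group G] [Finite G]
    (θ : ↥(Cfsg.isometryGroup F ⇑(QM F (Fin 2 × Fin 2) 0 a)) →* G) (hθ : Function.Injective θ)
    (hdet : ∀ g : ↥(Cfsg.isometryGroup F ⇑(QM F (Fin 2 × Fin 2) 0 a)),
      θ g ∈ commutator G → g.1.1.det = 1)
    (hidx : (commutator G).index = 4)
    (hcard : (Nat.card G).factorization 2 ≤
      2 * (Nat.card ↥(OrthG F (Fin 2))).factorization 2 + padicValNat 2 (Nat.factorial 2) + 0)
    (P : Sylow 2 ↥(commutator G)) : EE 2 ↥(P : Subgroup ↥(commutator G)) := by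
  classical
  have : Fact (Nat.Prime 2) := ⟨Nat.prime_two⟩
  obtain ⟨r₀, hr₀d, hr₀2⟩ : ∃ r₀ : ↥(OrthG F (Fin 2)), r₀.1.1.det = -1 ∧ r₀ * r₀ = 1 :=
    exists_refl
  obtain ⟨D, hD⟩ := (pgroup_zpowers r₀ (by
    rw [show (4 : ℕ) = 2 + 2 from rfl, pow_add, pow_two, hr₀2, one_mul])).exists_le_sylow
  have hr₀D : r₀ ∈ (D : Subgroup ↥(OrthG F (Fin 2))) := hD (Subgroup.mem_zpowers r₀)
  obtain ⟨R⟩ : Nonempty (Sylow 2 (Equiv.Perm (Fin 2))) := inferInstance
  have hR : EE 2 ↥(R : Subgroup (Equiv.Perm (Fin 2))) := sym_EE 2 2 (Fin 2) R (by simp)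
  obtain ⟨φ, hφ⟩ : ∃ φ : ↥(R : Subgroup (Equiv.Perm (Fin 2))) →*
      MulAut (Fin 2 → ↥(D : Subgroup ↥(OrthG F (Fin 2)))),
      φ = mulAutArrow (G := ↥(R : Subgroup (Equiv.Perm (Fin 2)))) (A := Fin 2)
        (M := ↥(D : Subgroup ↥(OrthG F (Fin 2)))) := ⟨_, rfl⟩
  obtain ⟨ι₂, hι₂⟩ : ∃ ι₂ : ↥(D : Subgroup ↥(OrthG F (Fin 2))) →* GL (Fin 2) F,
      ∀ d, ι₂ d = d.1.1 :=
    ⟨(OrthG F (Fin 2)).subtype.comp (D : Subgroup ↥(OrthG F (Fin 2))).subtype, fun d => rfl⟩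
  let Ψ₀ : (Fin 2 → ↥(D : Subgroup ↥(OrthG F (Fin 2)))) ⋊[φ]
      ↥(R : Subgroup (Equiv.Perm (Fin 2))) →* W F (Fin 2) 2 :=
    SemidirectProduct.map (ι₂.compLeft (Fin 2))
      (R : Subgroup (Equiv.Perm (Fin 2))).subtype
      (fun g => by
        rw [hφ]
        exact MonoidHom.ext fun f => funext fun i => rfl)
  have hΨ₀ : Function.Injective Ψ₀ := by
    intro w w' h
    have h1 : (ι₂.compLeft (Fin 2)) w.left = (ι₂.compLeft (Fin 2)) w'.left :=
      congrArg SemidirectProduct.left h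
    have h2' : (w.right : Equiv.Perm (Fin 2)) = w'.right := congrArg SemidirectProduct.right h
    apply SemidirectProduct.ext
    · funext i
      have h3 : ι₂ (w.left i) = ι₂ (w'.left i) := congrFun h1 i
      rw [hι₂, hι₂] at h3
      exact Subtype.ext (Subtype.ext h3)
    · exact Subtype.ext h2'
  have hmemΦ : ∀ n, ((Φ F (Fin 2) 2).comp Ψ₀) n ∈ OrthG F (Fin 2 × Fin 2) := by
    intro n
    show (Φ F (Fin 2) 2) (Ψ₀ n) ∈ OrthG F (Fin 2 × Fin 2)
    rw [Φ_apply]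
    refine Subgroup.mul_mem _ (f₁_mem _ (fun i => ?_)) (f₂_mem _)
    show ι₂ (n.left i) ∈ OrthG F (Fin 2)
    rw [hι₂]
    exact (n.left i).1.2
  let Φ₀ : (Fin 2 → ↥(D : Subgroup ↥(OrthG F (Fin 2)))) ⋊[φ]
      ↥(R : Subgroup (Equiv.Perm (Fin 2))) →* ↥(OrthG F (Fin 2 × Fin 2)) :=
    ((Φ F (Fin 2) 2).comp Ψ₀).codRestrict _ hmemΦ
  have hΦ₀ : Function.Injective Φ₀ := by
    intro x y h
    have h1 : (Φ F (Fin 2) 2) (Ψ₀ x) = (Φ F (Fin 2) 2) (Ψ₀ y) := congrArg Subtype.val h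
    exact hΨ₀ (Φ_injective h1)
  let τT : ((Fin 2 → ↥(D : Subgroup ↥(OrthG F (Fin 2)))) ⋊[φ]
      ↥(R : Subgroup (Equiv.Perm (Fin 2)))) × (Fin 0 → ℤˣ) →* G :=
    θ.comp ((embO 0 a).comp (Φ₀.prodMap (MonoidHom.id (Fin 0 → ℤˣ))))
  have hτT : Function.Injective τT := by
    intro x y h
    have h1 := embO_injective h2 0 a (hθ h)
    have h3 : Φ₀ x.1 = Φ₀ y.1 := congrArg Prod.fst h1
    have h4 := congrArg Prod.snd h1
    exact Prod.ext (hΦ₀ h3) h4
  obtain ⟨α, hα⟩ : ∃ α : ↥(OrthG F (Fin 2 × Fin 2)) →* Abelianization G,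
      ∀ n, α (Φ₀ n) = (Abelianization.of.comp τT) (n, 1) :=
    ⟨(Abelianization.of.comp θ).comp ((embO 0 a).comp (MonoidHom.inl _ _)), fun n => rfl⟩
  have hcl : ∀ (i : Fin 2) (d : ↥(D : Subgroup ↥(OrthG F (Fin 2)))),
      (ι₂.compLeft (Fin 2)) (Pi.mulSingle i d) = Pi.mulSingle i (ι₂ d) := by
    intro i d
    funext l
    exact Pi.apply_mulSingle (fun _ => ι₂) (fun _ => map_one ι₂) i d l
  have hss : (⟨r₀, hr₀D⟩ : ↥(D : Subgroup ↥(OrthG F (Fin 2)))) * ⟨r₀, hr₀D⟩ = 1 :=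
    Subtype.ext hr₀2
  have hK : EE 2 ↥(Abelianization.of.comp τT).ker := by
    refine ker_EE2 (R : Subgroup (Equiv.Perm (Fin 2))) φ (Abelianization.of.comp τT)
      ?_ ?_ hR ?_ (fun d => d.1.1.1.det = 1) ⟨r₀, hr₀D⟩ hss ?_ ?_ ?_
    · intro π
      rw [← hα]
      have hmem : Φ₀ (SemidirectProduct.inr π) ∈ commutator ↥(OrthG F (Fin 2 × Fin 2)) := by
        have e : Φ₀ (SemidirectProduct.inr π) =
            PJh F (Fin 2 × Fin 2) (shE (Fin 2) (π : Equiv.Perm (Fin 2))) := by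
          apply Subtype.ext
          show (Φ F (Fin 2) 2) (Ψ₀ (SemidirectProduct.inr π)) = _
          rw [SemidirectProduct.map_inr, Φ_inr]
          apply Units.ext
          rfl
        rw [e]
        exact f₂_comm _
      exact MonoidHom.mem_ker.mp (Abelianization.commutator_subset_ker α hmem)
    · intro i j d
      rw [← hα, ← hα]
      obtain ⟨p, hp⟩ : ∃ p : ↥(OrthG F (Fin 2 × Fin 2)),
          Φ₀ (SemidirectProduct.inl (Pi.mulSingle j d)) =
            p * Φ₀ (SemidirectProduct.inl (Pi.mulSingle i d)) * p⁻¹ := by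
        refine ⟨⟨f₂ F (Fin 2) 2 (Equiv.swap i j), f₂_mem _⟩, ?_⟩
        apply Subtype.ext
        show (Φ F (Fin 2) 2) (Ψ₀ (SemidirectProduct.inl (Pi.mulSingle j d))) =
          f₂ F (Fin 2) 2 (Equiv.swap i j) *
            (Φ F (Fin 2) 2) (Ψ₀ (SemidirectProduct.inl (Pi.mulSingle i d))) *
            (f₂ F (Fin 2) 2 (Equiv.swap i j))⁻¹
        rw [SemidirectProduct.map_inl, SemidirectProduct.map_inl, Φ_inl, Φ_inl, hcl j, hcl i]
        exact f₁_conj i j (ι₂ d)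
      rw [hp, map_mul, map_mul, map_inv, mul_comm (α p), mul_inv_cancel_right]
    · intro e
      exact Subsingleton.elim _ _
    · intro d hd
      have hd' : d.1.1.1.det = -1 := (orth2_det d.1.1 d.1.2).resolve_left hd
      exact Subtype.ext (Subtype.ext (orth2_sq d.1.1 d.1.2 hd'))
    · intro d hd
      have hd1 : d.1.1.1.det = 1 := hd
      obtain ⟨x, hx⟩ : ∃ x : ↥(D : Subgroup ↥(OrthG F (Fin 2))), x = ⟨r₀, hr₀D⟩ * d⁻¹ :=
        ⟨_, rfl⟩
      have hxd : x * d = ⟨r₀, hr₀D⟩ := by rw [hx, inv_mul_cancel_right]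
      have hdetx : x.1.1.1.det = -1 := by
        have h := congrArg (fun z : ↥(D : Subgroup ↥(OrthG F (Fin 2))) => z.1.1.1.det) hxd
        have h' : (x.1.1.1 * d.1.1.1).det = r₀.1.1.det := h
        rw [Matrix.det_mul, hd1, mul_one, hr₀d] at h'
        exact h'
      have hxx : x * x = 1 := Subtype.ext (Subtype.ext (orth2_sq x.1.1 x.1.2 hdetx))
      have hsinv : (⟨r₀, hr₀D⟩ : ↥(D : Subgroup ↥(OrthG F (Fin 2))))⁻¹ = ⟨r₀, hr₀D⟩ :=
        inv_eq_of_mul_eq_one_left hss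
      rw [hsinv, inv_inv, ← hx]
      have h3 : x * ⟨r₀, hr₀D⟩ = d := by
        rw [← hxd, ← mul_assoc, hxx, one_mul]
      rw [h3]
    · intro f hf
      have hmem : τT (SemidirectProduct.inl f, 1) ∈ commutator G := by
        rw [← Abelianization.ker_of]
        exact MonoidHom.mem_ker.mpr hf
      have hdet1 := hdet ((embO 0 a) (Φ₀ (SemidirectProduct.inl f), 1)) hmem
      have e0 : ∀ x : ↥(OrthG F (Fin 2 × Fin 2)),
          ((((embO 0 a) (x, 1)).1 : GL ((Fin 2 × Fin 2) ⊕ Fin 0) F) :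
            Matrix ((Fin 2 × Fin 2) ⊕ Fin 0) ((Fin 2 × Fin 2) ⊕ Fin 0) F) =
          Matrix.fromBlocks x.1.1 0 0 (Matrix.diagonal
            (fun l : Fin 0 => (((sg F) ((1 : Fin 0 → ℤˣ) l) : Fˣ) : F))) := fun x => rfl
      have eA : ((Φ₀ (SemidirectProduct.inl f)).1 : GL (Fin 2 × Fin 2) F) =
          f₁ F (Fin 2) 2 (fun i => (f i).1.1) := by
        show (Φ F (Fin 2) 2) (Ψ₀ (SemidirectProduct.inl f)) = _
        rw [SemidirectProduct.map_inl, Φ_inl]
        congr 1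
        funext i
        exact hι₂ (f i)
      have hprod : (f 0).1.1.1.det * (f 1).1.1.1.det = 1 := by
        rw [e0, Matrix.det_fromBlocks_zero₂₁, Matrix.det_isEmpty (n := Fin 0), mul_one, eA, f₁_coe,
          Matrix.det_blockDiagonal, Fin.prod_univ_two] at hdet1
        exact hdet1
      constructor
      · intro h
        have h' : (f 0).1.1.1.det = 1 := h
        rw [h', one_mul] at hprod
        exact hprod
      · intro h
        have h' : (f 1).1.1.1.det = 1 := h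
        rw [h', mul_one] at hprod
        exact hprod
  have hcD : Nat.card ↥(D : Subgroup ↥(OrthG F (Fin 2))) =
      2 ^ (Nat.card ↥(OrthG F (Fin 2))).factorization 2 := D.card_eq_multiplicity
  have hcR : Nat.card ↥(R : Subgroup (Equiv.Perm (Fin 2))) =
      2 ^ padicValNat 2 (Nat.factorial 2) := by
    rw [R.card_eq_multiplicity, Nat.factorization_def _ Nat.prime_two, Nat.card_perm,
      Nat.card_fin]
  have hcE : Nat.card (Fin 0 → ℤˣ) = 2 ^ 0 := by
    rw [Nat.card_fun, Nat.card_fin, Nat.card_eq_fintype_card, Fintype.card_units_int]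
  have hT : Nat.card (((Fin 2 → ↥(D : Subgroup ↥(OrthG F (Fin 2)))) ⋊[φ]
      ↥(R : Subgroup (Equiv.Perm (Fin 2)))) × (Fin 0 → ℤˣ)) =
      2 ^ (2 * (Nat.card ↥(OrthG F (Fin 2))).factorization 2 +
        padicValNat 2 (Nat.factorial 2) + 0) := by
    rw [Nat.card_prod, SemidirectProduct.card, Nat.card_fun, Nat.card_fin, hcD, hcR, hcE,
      ← pow_mul, ← pow_add, ← pow_add, mul_comm]
  have : Finite (((Fin 2 → ↥(D : Subgroup ↥(OrthG F (Fin 2)))) ⋊[φ]
      ↥(R : Subgroup (Equiv.Perm (Fin 2)))) × (Fin 0 → ℤˣ)) :=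
    Nat.finite_of_card_ne_zero (by rw [hT]; positivity)
  exact sylow_of_ker τT hτT _ hT hcard hidx hK P

theorem even_EE2 [Fintype F] (hF : Odd (Fintype.card F)) (m : ℕ) (hm : m = 2) {ι : Type}
    [Fintype ι] [DecidableEq ι] (hι : Fintype.card ι = 2 * m) (Q : QuadraticForm F (ι → F))
    (hQ : (QuadraticMap.polarBilin Q).Nondegenerate)
    (hall : ∀ b : Module.Basis (Fin (2 * m)) F (ι → F), IsSquare
        (Matrix.of (fun i j : Fin (2 * m) => QuadraticMap.polar (⇑Q) (b i) (b j))).det)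
    (hcard : (Nat.card ↥(Cfsg.isometryGroup F ⇑Q)).factorization 2 ≤
        m * padicValNat 2 (Fintype.card F ^ 2 - 1) + padicValNat 2 m.factorial)
    (P : Sylow 2 (Cfsg.Omega F ⇑Q)) : EE 2 ↥(P : Subgroup (Cfsg.Omega F ⇑Q)) := by
  classical
  have h2 : (2 : F) ≠ 0 := Cfsg.Agent.Lib.helper4.SpSylowEA.two_ne_zero_of_odd hF
  have hfin : Module.finrank F (ι → F) = 2 * m := by
    rw [Module.finrank_fintype_fun_eq_card, hι]
  obtain ⟨b, hb1, hb2, hb3⟩ := Cfsg.Agent.S2623.orth_basis h2 (2 * m) Q hfin hQ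
  have hidx := Cfsg.Agent.Lib.helper4.omega_index_odd h2 Q hQ (by rw [hι]; omega)
  have horth := orth2_card hF
  obtain ⟨last, hlast⟩ : ∃ last : Fin (2 * m), (last : ℕ) + 1 = 2 * m :=
    ⟨⟨2 * m - 1, by omega⟩, by show 2 * m - 1 + 1 = 2 * m; omega⟩
  have hne_last : ∀ i : Fin (2 * m), i ≠ last → Q (b i) = 1 := by
    intro i hi
    apply hb2
    have h1 : (i : ℕ) ≠ (last : ℕ) := fun h => hi (Fin.ext h)
    have h3 := i.2
    omega
  have h2m : (2 : F) ^ m ≠ 0 := pow_ne_zero _ h2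
  by_cases hd : IsSquare (Q (b last))
  · obtain ⟨s, hs⟩ := hd
    have hs0 : s ≠ 0 := by
      rintro rfl
      exact hb3 last (by rw [hs, mul_zero])
    obtain ⟨w, hw⟩ : ∃ w : Fin (2 * m) → Fˣ, ∀ i, (w i : F) = if i = last then s⁻¹ else 1 :=
      ⟨fun i => if i = last then (Units.mk0 s hs0)⁻¹ else 1, fun i => by
        by_cases h : i = last <;> simp [h]⟩
    obtain ⟨b', hb'⟩ : ∃ b' : Module.Basis (Fin (2 * m)) F (ι → F),
        ∀ i, b' i = (w i : F) • b i :=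
      ⟨b.unitsSMul w, fun i => by rw [Module.Basis.unitsSMul_apply]; rfl⟩
    have hb'1 : ∀ i j, i ≠ j → QuadraticMap.polar (⇑Q) (b' i) (b' j) = 0 := by
      intro i j hij
      rw [hb', hb', QuadraticMap.polar_smul_left, QuadraticMap.polar_smul_right, hb1 i j hij,
        smul_zero, smul_zero]
    have hb'2 : ∀ i, Q (b' i) = 1 := by
      intro i
      rw [hb', QuadraticMap.map_smul, hw]
      by_cases hi : i = last
      · rw [if_pos hi, hi, hs, smul_eq_mul]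
        field_simp
      · rw [if_neg hi, hne_last i hi]
        simp
    obtain ⟨e⟩ : Nonempty ((Fin 2 × Fin m) ⊕ Fin 0 ≃ Fin (2 * m)) :=
      ⟨Fintype.equivFinOfCardEq (by simp)⟩
    obtain ⟨θ, hθ, hθd⟩ := basis_hom' h2 Q b' hb'1 0 e (fun j => hb'2 _)
    subst hm
    refine model_EE2 h2 _ θ hθ ?_ hidx ?_ P
    · intro g hg
      rw [← hθd g]
      obtain ⟨dtm, hdtm⟩ : ∃ dtm : ↥(Cfsg.isometryGroup F ⇑Q) →* Fˣ,
          ∀ y, ((dtm y : Fˣ) : F) = y.1.1.det :=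
        ⟨Matrix.GeneralLinearGroup.det.comp (Cfsg.isometryGroup F ⇑Q).subtype, fun y => rfl⟩
      have h := MonoidHom.mem_ker.mp (Abelianization.commutator_subset_ker dtm hg)
      rw [← hdtm, h, Units.val_one]
    · have h5 := Nat.mul_le_mul_left 2 horth
      omega
  · have hdet : ¬ IsSquare (Matrix.of
        (fun i j : Fin (2 * m) => QuadraticMap.polar (⇑Q) (b i) (b j))).det := by
      rw [gram_det Q b hb1]
      intro hsqr
      apply hd
      have hc : ∀ i ∈ (Finset.univ : Finset (Fin (2 * m))).erase last, 2 * Q (b i) = (2 : F) :=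
        fun i hi => by rw [hne_last i (Finset.ne_of_mem_erase hi), mul_one]
      have hpw : (2 : F) ^ m * 2 ^ m = 2 * 2 ^ (2 * m - 1) := by
        rw [← pow_add, ← pow_succ']
        congr 1
        omega
      have hprod : ∏ i, 2 * Q (b i) = (2 ^ m) * (2 ^ m) * Q (b last) := by
        rw [← Finset.mul_prod_erase Finset.univ _ (Finset.mem_univ last),
          Finset.prod_congr rfl hc, Finset.prod_const,
          Finset.card_erase_of_mem (Finset.mem_univ _), Finset.card_univ, Fintype.card_fin, hpw]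
        ring
      rw [hprod] at hsqr
      obtain ⟨t, ht⟩ := hsqr
      refine ⟨t / 2 ^ m, ?_⟩
      rw [div_mul_div_comm, eq_div_iff (mul_ne_zero h2m h2m)]
      linear_combination ht
    exact absurd (hall b) hdet

theorem omega_plus_EE [Fintype F] (hF : Odd (Fintype.card F)) (m : ℕ) (hm : 4 ≤ m)
    (P : Sylow 2 (Cfsg.Omega F (Cfsg.quadFormPlus m F))) :
    EE 2 ↥(P : Subgroup (Cfsg.Omega F (Cfsg.quadFormPlus m F))) := by
  classical
  have hq1 : 1 < Fintype.card F := Fintype.one_lt_card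
  obtain ⟨q, hq⟩ : ∃ q, q = Fintype.card F := ⟨_, rfl⟩
  have hqo : Odd q := by rw [hq]; exact hF
  have hq1' : 1 < q := by rw [hq]; exact hq1
  have key : ∀ (Qf : (Fin m ⊕ Fin m → F) → F),
      Qf = ⇑(Cfsg.Agent.S2562.qP F m) → ∀ P : Sylow 2 (Cfsg.Omega F Qf),
      EE 2 ↥(P : Subgroup (Cfsg.Omega F Qf)) := by
    intro Qf hQf P
    subst hQf
    have hcard : Nat.card ↥(Cfsg.isometryGroup F ⇑(Cfsg.Agent.S2562.qP F m)) =
        2 * q ^ (m * (m - 1)) * (q ^ m - 1) *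
          ∏ i ∈ Finset.range (m - 1), (q ^ (2 * (i + 1)) - 1) := by
      rw [Cfsg.Agent.Lib.helper4.qP_coe]
      exact Cfsg.Agent.S0287.result hq.symm m (by omega)
    obtain ⟨hp1, hp2⟩ := v2_prod q hqo hq1' (m - 1)
    have hqm : q ^ (m * (m - 1)) ≠ 0 := pow_ne_zero _ (by omega)
    have hnd : ¬ 2 ∣ q ^ (m * (m - 1)) := fun h =>
      (Nat.not_even_iff_odd.mpr hqo.pow) (even_iff_two_dvd.mpr h)
    have hX : 1 < q ^ m := Nat.one_lt_pow (by omega) hq1'
    have hv : (Nat.card ↥(Cfsg.isometryGroup F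
        ⇑(Cfsg.Agent.S2562.qP F m))).factorization 2 =
        1 + padicValNat 2 (q ^ m - 1) +
          ((m - 1) * padicValNat 2 (q ^ 2 - 1) + padicValNat 2 (m - 1).factorial) := by
      rw [hcard, Nat.factorization_def _ Nat.prime_two,
        padicValNat.mul (mul_ne_zero (mul_ne_zero (by norm_num) hqm) (by omega)) hp1,
        padicValNat.mul (mul_ne_zero (by norm_num) hqm) (by omega),
        padicValNat.mul (by norm_num) hqm, padicValNat_self,
        padicValNat.eq_zero_of_not_dvd hnd, hp2]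
    have hI1 := v2_pm q m hqo hq1' (by omega)
    have hfact : padicValNat 2 m.factorial =
        padicValNat 2 m + padicValNat 2 (m - 1).factorial := by
      obtain ⟨n, rfl⟩ : ∃ n, m = n + 1 := ⟨m - 1, by omega⟩
      rw [Nat.factorial_succ, padicValNat.mul (by omega) (Nat.factorial_ne_zero _),
        Nat.add_sub_cancel]
    have hmod : q ^ m % 4 = 1 ∨ q ^ m % 4 = 3 := by
      have ho : Odd (q ^ m) := hqo.pow
      obtain ⟨l, hl⟩ := ho
      omega
    refine even_EE hF m hm (by rw [Fintype.card_sum, Fintype.card_fin]; omega)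
      (Cfsg.Agent.S2562.qP F m) (Cfsg.Agent.S2562.nondeg_qP m) ?_ ?_ P
    · rintro ⟨bb, hbb⟩
      rw [Cfsg.Agent.Lib.helper4.qP_coe] at hbb
      have h1 := (Cfsg.Agent.S2620.result hq.symm hqo (by omega : 1 ≤ m) bb).mp hbb
      rw [even_iff q m hqo] at h1
      have h4 : padicValNat 2 (q ^ m + 1) = 1 := v2_two_odd _ (by omega)
      rw [hv, ← hq, hfact]
      have h6 : (m - 1) * padicValNat 2 (q ^ 2 - 1) + padicValNat 2 (q ^ 2 - 1) =
          m * padicValNat 2 (q ^ 2 - 1) := pred_mul_add m _ (by omega)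
      omega
    · rintro ⟨bb, hbb⟩
      rw [Cfsg.Agent.Lib.helper4.qP_coe] at hbb
      have h1 := (Cfsg.Agent.S2620.result hq.symm hqo (by omega : 1 ≤ m) bb).not.mp hbb
      rw [even_iff q m hqo] at h1
      have h3 : q ^ m % 4 = 3 := by
        rcases hmod with h | h
        · exact absurd h h1
        · exact h
      have h4 : padicValNat 2 (q ^ m - 1) = 1 := v2_two_odd _ (by omega)
      rw [hv, ← hq]
      omega
  exact key _ (Cfsg.Agent.Lib.helper4.qP_coe m).symm P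

theorem omega_plus_EE2 [Fintype F] (hF : Odd (Fintype.card F))
    (P : Sylow 2 (Cfsg.Omega F (Cfsg.quadFormPlus 2 F))) :
    EE 2 ↥(P : Subgroup (Cfsg.Omega F (Cfsg.quadFormPlus 2 F))) := by
  classical
  have hq1 : 1 < Fintype.card F := Fintype.one_lt_card
  obtain ⟨q, hq⟩ : ∃ q, q = Fintype.card F := ⟨_, rfl⟩
  have hqo : Odd q := by rw [hq]; exact hF
  have hq1' : 1 < q := by rw [hq]; exact hq1
  have key : ∀ (Qf : (Fin 2 ⊕ Fin 2 → F) → F),
      Qf = ⇑(Cfsg.Agent.S2562.qP F 2) → ∀ P : Sylow 2 (Cfsg.Omega F Qf),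
      EE 2 ↥(P : Subgroup (Cfsg.Omega F Qf)) := by
    intro Qf hQf P
    subst hQf
    have hcard : Nat.card ↥(Cfsg.isometryGroup F ⇑(Cfsg.Agent.S2562.qP F 2)) =
        2 * q ^ (2 * (2 - 1)) * (q ^ 2 - 1) *
          ∏ i ∈ Finset.range (2 - 1), (q ^ (2 * (i + 1)) - 1) := by
      rw [Cfsg.Agent.Lib.helper4.qP_coe]
      exact Cfsg.Agent.S0287.result hq.symm 2 (by norm_num)
    have hcard' : Nat.card ↥(Cfsg.isometryGroup F ⇑(Cfsg.Agent.S2562.qP F 2)) =
        2 * q ^ 2 * (q ^ 2 - 1) * (q ^ 2 - 1) := by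
      rw [hcard, show (2 - 1 : ℕ) = 1 from rfl, Finset.prod_range_one]
    have hX : 1 < q ^ 2 := Nat.one_lt_pow (by norm_num) hq1'
    have hq2 : q ^ 2 - 1 ≠ 0 := by omega
    have hqm : q ^ 2 ≠ 0 := by omega
    have hnd : ¬ 2 ∣ q ^ 2 := fun h =>
      (Nat.not_even_iff_odd.mpr hqo.pow) (even_iff_two_dvd.mpr h)
    have hv : (Nat.card ↥(Cfsg.isometryGroup F
        ⇑(Cfsg.Agent.S2562.qP F 2))).factorization 2 =
        1 + padicValNat 2 (q ^ 2 - 1) + padicValNat 2 (q ^ 2 - 1) := by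
      rw [hcard', Nat.factorization_def _ Nat.prime_two,
        padicValNat.mul (mul_ne_zero (mul_ne_zero (by norm_num) hqm) hq2) hq2,
        padicValNat.mul (mul_ne_zero (by norm_num) hqm) hq2,
        padicValNat.mul (by norm_num) hqm, padicValNat_self,
        padicValNat.eq_zero_of_not_dvd hnd]
    have hf2 : padicValNat 2 (Nat.factorial 2) = 1 := by
      rw [show Nat.factorial 2 = 2 from rfl]
      exact padicValNat_self
    refine even_EE2 hF 2 rfl (by rw [Fintype.card_sum, Fintype.card_fin])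
      (Cfsg.Agent.S2562.qP F 2) (Cfsg.Agent.S2562.nondeg_qP 2) ?_ ?_ P
    · intro bb
      rw [Cfsg.Agent.Lib.helper4.qP_coe]
      refine (Cfsg.Agent.S2620.result hq.symm hqo (by norm_num : 1 ≤ 2) bb).mpr ?_
      rw [Nat.mul_div_cancel_left _ (by norm_num : 0 < 2)]
      exact Nat.Odd.sub_odd hqo odd_one
    · rw [hv, ← hq, hf2]
      omega
  exact key _ (Cfsg.Agent.Lib.helper4.qP_coe 2).symm P

theorem omega_plus_all [Fintype F] (hF : Odd (Fintype.card F)) (m : ℕ) (hm : 1 ≤ m)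
    (hm' : Even m ∨ 4 ≤ m) (P : Sylow 2 (Cfsg.Omega F (Cfsg.quadFormPlus m F))) :
    EE 2 ↥(P : Subgroup (Cfsg.Omega F (Cfsg.quadFormPlus m F))) := by
  by_cases h4 : 4 ≤ m
  · exact omega_plus_EE hF m h4 P
  · have h2 : m = 2 := by
      rcases hm' with he | h
      · obtain ⟨j, rfl⟩ := he
        omega
      · exact absurd h h4
    subst h2
    exact omega_plus_EE2 hF P

end Cfsg.Agent.Lib.helper19.OmF
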