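import Cfsg.Agent.Lib.helper19.SL2Q3
import Cfsg.Agent.Lib.helper19.SL2D
import Cfsg.Agent.Lib.helper19.MonW

/-!
Derived length of the Sylow 2-subgroups of `Sp_2n(F)`, `|F|` odd.
-/

namespace Cfsg.Agent.Lib.helper19.SL2Q

open Matrix Cfsg.Agent.Lib.helper19.SylAb Cfsg.Agent.Lib.helper4.SpWreath
  Cfsg.Agent.Lib.helper19.MonW

variable {F : Type*} [Field F]

theorem sp_sylow_iso [Fintype F] (hodd : Odd (Fintype.card F)) (n : ℕ)
    (P : Sylow 2 (symplecticGroup (Fin n) F)) (Q : Sylow 2 (symplecticGroup (Fin 1) F))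
    (R : Sylow 2 (Equiv.Perm (Fin n))) :
    Nonempty (((Fin n → ↥(Q : Subgroup (symplecticGroup (Fin 1) F))) ⋊[mulAutArrow
      (G := ↥(R : Subgroup (Equiv.Perm (Fin n)))) (A := Fin n)
        (M := ↥(Q : Subgroup (symplecticGroup (Fin 1) F)))]
      ↥(R : Subgroup (Equiv.Perm (Fin n)))) ≃* ↥(P : Subgroup (symplecticGroup (Fin n) F))) := by
  classical
  have : Fact (Nat.Prime 2) := ⟨Nat.prime_two⟩
  -- the homomorphism into the wreath product
  let Ψ : (Fin n → ↥(Q : Subgroup (symplecticGroup (Fin 1) F))) ⋊[mulAutArrow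
      (G := ↥(R : Subgroup (Equiv.Perm (Fin n)))) (A := Fin n)
        (M := ↥(Q : Subgroup (symplecticGroup (Fin 1) F)))]
      ↥(R : Subgroup (Equiv.Perm (Fin n))) →* W n F :=
    SemidirectProduct.map
      ((Q : Subgroup (symplecticGroup (Fin 1) F)).subtype.compLeft (Fin n))
      (R : Subgroup (Equiv.Perm (Fin n))).subtype
      (fun g => MonoidHom.ext fun f => funext fun i => rfl)
  have hΨ : Function.Injective Ψ := by
    intro w w' h
    have h1 : ((Q : Subgroup (symplecticGroup (Fin 1) F)).subtype.compLeft (Fin n)) w.left =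
        ((Q : Subgroup (symplecticGroup (Fin 1) F)).subtype.compLeft (Fin n)) w'.left :=
      congrArg SemidirectProduct.left h
    have h2 : (w.right : Equiv.Perm (Fin n)) = w'.right := congrArg SemidirectProduct.right h
    apply SemidirectProduct.ext
    · funext i
      exact Subtype.ext (congrFun h1 i)
    · exact Subtype.ext h2
  have hΘ : Function.Injective ((Φ n F).comp Ψ) := Φ_injective.comp hΨ
  have hq1 : 1 < Fintype.card F := Fintype.one_lt_card
  have hnd : ¬ 2 ∣ Fintype.card F := by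
    rw [Nat.odd_iff] at hodd
    omega
  have hq2 : Fintype.card F ^ 2 - 1 ≠ 0 := by
    have := Nat.one_lt_pow (n := 2) (by omega) hq1
    omega
  have hne : ∀ i : ℕ, Fintype.card F ^ (2 * (i + 1)) - 1 ≠ 0 := by
    intro i
    have := Nat.one_lt_pow (n := 2 * (i + 1)) (by omega) hq1
    omega
  have hv1 : (Nat.card (symplecticGroup (Fin 1) F)).factorization 2 =
      padicValNat 2 (Fintype.card F ^ 2 - 1) := by
    rw [Nat.factorization_def _ Nat.prime_two,
      Cfsg.Agent.Lib.helper4.card_sp (rfl : Fintype.card F = Fintype.card F) 1,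
      Finset.prod_range_one]
    have e : Fintype.card F ^ (2 * (0 + 1)) - 1 = Fintype.card F ^ 2 - 1 := by norm_num
    rw [e, padicValNat.mul (pow_ne_zero _ (by omega)) hq2, padicValNat.pow,
      padicValNat.eq_zero_of_not_dvd hnd, mul_zero, zero_add]
  have hvn : (Nat.card (symplecticGroup (Fin n) F)).factorization 2 =
      n * padicValNat 2 (Fintype.card F ^ 2 - 1) + padicValNat 2 n.factorial := by
    rw [Nat.factorization_def _ Nat.prime_two,
      Cfsg.Agent.Lib.helper4.card_sp (rfl : Fintype.card F = Fintype.card F) n,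
      padicValNat.mul (pow_ne_zero _ (by omega))
        (Finset.prod_ne_zero_iff.mpr (fun i _ => hne i)),
      padicValNat.pow, padicValNat.eq_zero_of_not_dvd hnd,
      Cfsg.Agent.Lib.helper4.SpSylowEA.v2_prod _ hodd hq1 n, mul_zero, zero_add]
  have hvp : (Nat.card (Equiv.Perm (Fin n))).factorization 2 = padicValNat 2 n.factorial := by
    rw [Nat.factorization_def _ Nat.prime_two, Nat.card_perm, Nat.card_fin]
  have hcard : Nat.card ((Φ n F).comp Ψ).range =
      2 ^ (Nat.card (symplecticGroup (Fin n) F)).factorization 2 := by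
    rw [← Nat.card_congr (MonoidHom.ofInjective hΘ).toEquiv, SemidirectProduct.card,
      Nat.card_fun, Nat.card_fin, Q.card_eq_multiplicity, R.card_eq_multiplicity, hv1, hvp, hvn,
      ← pow_mul, ← pow_add, mul_comm]
  let S₀ : Sylow 2 (symplecticGroup (Fin n) F) := Sylow.ofCard ((Φ n F).comp Ψ).range hcard
  have e1 : ↥(P : Subgroup (symplecticGroup (Fin n) F)) ≃* ↥((Φ n F).comp Ψ).range := P.equiv S₀
  have e2 := MonoidHom.ofInjective hΘ
  exact ⟨e2.trans e1.symm⟩

theorem ds_sub' {G : Type*} [Group G] (K : Subgroup G) (j : ℕ) (hK : derivedSeries G j ≤ K)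
    (a : ℕ) : derivedSeries G (j + a) ≤ (derivedSeries K a).map K.subtype := by
  induction a with
  | zero =>
    rw [derivedSeries_zero, ← MonoidHom.range_eq_map, Subgroup.range_subtype]
    exact hK
  | succ a ih =>
    rw [← add_assoc, derivedSeries_succ G (j + a), derivedSeries_succ (↥K) a,
      Subgroup.map_commutator]
    exact Subgroup.commutator_mono ih ih

theorem sp_upper [Fintype F] (hodd : Odd (Fintype.card F)) (n : ℕ)
    (P : Sylow 2 (symplecticGroup (Fin n) F)) :
    derivedSeries ↥(P : Subgroup (symplecticGroup (Fin n) F)) (Nat.log 2 n + 2) = ⊥ := by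
  classical
  have : Fact (Nat.Prime 2) := ⟨Nat.prime_two⟩
  have h2 : (2 : F) ≠ 0 := Cfsg.Agent.Lib.helper4.SpSylowEA.two_ne_zero_of_odd hodd
  obtain ⟨Q⟩ : Nonempty (Sylow 2 (symplecticGroup (Fin 1) F)) := inferInstance
  obtain ⟨R⟩ : Nonempty (Sylow 2 (Equiv.Perm (Fin n))) := inferInstance
  obtain ⟨e⟩ := sp_sylow_iso hodd n P Q R
  have hQ2 : derivedSeries ↥(Q : Subgroup (symplecticGroup (Fin 1) F)) 2 = ⊥ :=
    sl2_ds2 Q.isPGroup' h2 ((rho0 F).comp (Q : Subgroup (symplecticGroup (Fin 1) F)).subtype)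
      (rho0_injective.comp (Subgroup.subtype_injective _)) (fun g => rho0_det _)
      (sp2_nonabelian hodd Q)
  have hR : derivedSeries ↥(R : Subgroup (Equiv.Perm (Fin n))) (Nat.log 2 n) = ⊥ :=
    SylDL.pgroup_ds 2 n (Fin n) (R : Subgroup (Equiv.Perm (Fin n))) R.isPGroup' (by simp)
  obtain ⟨φ, hφ⟩ : ∃ φ : ↥(R : Subgroup (Equiv.Perm (Fin n))) →*
      MulAut (Fin n → ↥(Q : Subgroup (symplecticGroup (Fin 1) F))),
      φ = mulAutArrow (G := ↥(R : Subgroup (Equiv.Perm (Fin n)))) (A := Fin n)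
        (M := ↥(Q : Subgroup (symplecticGroup (Fin 1) F))) := ⟨_, rfl⟩
  rw [← hφ] at e
  apply SylDL.ds_bot_of_injective e.symm.toMonoidHom e.symm.injective
  -- now the semidirect product
  let K : Subgroup ((Fin n → ↥(Q : Subgroup (symplecticGroup (Fin 1) F))) ⋊[φ]
      ↥(R : Subgroup (Equiv.Perm (Fin n)))) :=
    (SemidirectProduct.rightHom : _ →* ↥(R : Subgroup (Equiv.Perm (Fin n)))).ker
  have hK : derivedSeries ((Fin n → ↥(Q : Subgroup (symplecticGroup (Fin 1) F))) ⋊[φ]
      ↥(R : Subgroup (Equiv.Perm (Fin n)))) (Nat.log 2 n) ≤ K := by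
    intro x hx
    have h1 := map_derivedSeries_le_derivedSeries
      (SemidirectProduct.rightHom : ((Fin n → ↥(Q : Subgroup (symplecticGroup (Fin 1) F))) ⋊[φ]
      ↥(R : Subgroup (Equiv.Perm (Fin n)))) →* ↥(R : Subgroup (Equiv.Perm (Fin n))))
      (Nat.log 2 n) (Subgroup.mem_map_of_mem _ hx)
    rw [hR, Subgroup.mem_bot] at h1
    exact h1
  have h3 := ds_sub' K (Nat.log 2 n) hK 2
  let lh : K →* (Fin n → ↥(Q : Subgroup (symplecticGroup (Fin 1) F))) :=
    { toFun := fun w => w.1.left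
      map_one' := rfl
      map_mul' := fun x y => by
        have hx : x.1.right = 1 := x.2
        show (x.1 * y.1).left = x.1.left * y.1.left
        rw [SemidirectProduct.mul_left, hx, map_one]
        rfl }
  have hlh : Function.Injective lh := by
    intro x y hxy
    apply Subtype.ext
    apply SemidirectProduct.ext
    · exact hxy
    · have hx : x.1.right = 1 := x.2
      have hy : y.1.right = 1 := y.2
      rw [hx, hy]
  have h4 : derivedSeries K 2 = ⊥ := SylDL.ds_bot_of_injective lh hlh 2 (SylDL.ds_pi 2 hQ2)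
  rw [h4, Subgroup.map_bot] at h3
  exact le_bot_iff.mp h3

theorem sp_lower [Fintype F] (hodd : Odd (Fintype.card F)) (n : ℕ) (hn : 1 ≤ n)
    (P : Sylow 2 (symplecticGroup (Fin n) F)) :
    derivedSeries ↥(P : Subgroup (symplecticGroup (Fin n) F)) (Nat.log 2 n + 1) ≠ ⊥ := by
  classical
  have : Fact (Nat.Prime 2) := ⟨Nat.prime_two⟩
  obtain ⟨Q⟩ : Nonempty (Sylow 2 (symplecticGroup (Fin 1) F)) := inferInstance
  have hna := sp2_nonabelian hodd Q
  obtain ⟨X, iG, iF, Λ, iT, iN, ι, hι, hp, hc, hd⟩ :=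
    exists_emb ↥(Q : Subgroup (symplecticGroup (Fin 1) F)) Q.isPGroup' (ds1_of_nonabelian hna)
      (Nat.log 2 n)
  have hle : Fintype.card Λ ≤ Fintype.card (Fin n) := by
    rw [hc, Fintype.card_fin]
    exact Nat.pow_log_le_self 2 (by omega)
  obtain ⟨em⟩ := Function.Embedding.nonempty_of_card_le hle
  let θ : X →* symplecticGroup (Fin n) F :=
    (Φ n F).comp ((monMap (Q : Subgroup (symplecticGroup (Fin 1) F)).subtype (Fin n)).comp
      ((extHom ↥(Q : Subgroup (symplecticGroup (Fin 1) F)) em).comp ι))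
  have hθ : Function.Injective θ :=
    Φ_injective.comp ((monMap_injective _ (Subgroup.subtype_injective _) _).comp
      ((extHom_injective _ em).comp hι))
  have hpr : IsPGroup 2 θ.range := hp.of_surjective _ (MonoidHom.rangeRestrict_surjective θ)
  obtain ⟨R₀, hR₀⟩ := hpr.exists_le_sylow
  have e1 : ↥(R₀ : Subgroup (symplecticGroup (Fin n) F)) ≃*
      ↥(P : Subgroup (symplecticGroup (Fin n) F)) := R₀.equiv P
  let θ' : X →* ↥(P : Subgroup (symplecticGroup (Fin n) F)) :=
    e1.toMonoidHom.comp ((Subgroup.inclusion hR₀).comp θ.rangeRestrict)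
  have hθ' : Function.Injective θ' :=
    e1.injective.comp ((Subgroup.inclusion_injective hR₀).comp
      (MonoidHom.rangeRestrict_injective_iff.mpr hθ))
  intro hbot
  exact hd (SylDL.ds_bot_of_injective θ' hθ' _ hbot)

theorem sp_dl [Fintype F] (hodd : Odd (Fintype.card F)) (n : ℕ) (hn : 1 ≤ n)
    (P : Sylow 2 (symplecticGroup (Fin n) F)) :
    derivedSeries ↥(P : Subgroup (symplecticGroup (Fin n) F)) (Nat.log 2 (2 * n) + 1) = ⊥ ∧
      derivedSeries ↥(P : Subgroup (symplecticGroup (Fin n) F)) (Nat.log 2 (2 * n)) ≠ ⊥ := by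
  have e : Nat.log 2 (2 * n) = Nat.log 2 n + 1 := by
    rw [mul_comm, Nat.log_mul_base (by norm_num) (by omega)]
  rw [e]
  exact ⟨sp_upper hodd n P, sp_lower hodd n hn P⟩

end Cfsg.Agent.Lib.helper19.SL2Q
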