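import Cfsg.Agent.Lib.helper19.SylAb

/-!
Sylow 2-subgroups of alternating groups: squares lie in the derived subgroup.
-/

namespace Cfsg.Agent.Lib.helper19.SylAb

universe u

/-- squares of elements of the kernel lie in the derived subgroup of the kernel -/
def EPs {N : Type*} [Group N] (σ : N →* ℤˣ) : Prop :=
  ∀ x : N, σ x = 1 → x * x ∈ ⁅σ.ker, σ.ker⁆

theorem EPs_of_surj {M N : Type*} [Group M] [Group N] (f : M →* N) (hf : Function.Surjective f)
    (σM : M →* ℤˣ) (σN : N →* ℤˣ) (h : ∀ y, σN (f y) = σM y) (hM : EPs σM) : EPs σN := by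
  intro x hx
  obtain ⟨y, rfl⟩ := hf x
  rw [h] at hx
  have h1 := hM y hx
  have h2 : (⁅σM.ker, σM.ker⁆).map f ≤ ⁅σN.ker, σN.ker⁆ := by
    rw [Subgroup.map_commutator]
    have : σM.ker.map f ≤ σN.ker := by
      rintro _ ⟨z, hz, rfl⟩
      have hz' : σM z = 1 := MonoidHom.mem_ker.mp hz
      rw [MonoidHom.mem_ker, h, hz']
    exact Subgroup.commutator_mono this this
  rw [← map_mul]
  exact h2 (Subgroup.mem_map_of_mem f h1)

theorem comm_ker_fst {D₁ D₂ N : Type*} [Group D₁] [Group D₂] [Group N] (ψ : D₁ × D₂ →* N)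
    (σ : N →* ℤˣ) (τ : D₂) (hτ : σ (ψ (1, τ)) = -1) (d : D₁) (hd : d ∈ commutator D₁) :
    ψ (d, 1) ∈ ⁅σ.ker, σ.ker⁆ := by
  classical
  have hne : (-1 : ℤˣ) ≠ 1 := by decide
  have key : commutator D₁ ≤ (⁅σ.ker, σ.ker⁆).comap (ψ.comp (MonoidHom.inl D₁ D₂)) := by
    rw [commutator_def, Subgroup.commutator_le]
    intro a _ b _
    rw [Subgroup.mem_comap, commutatorElement_def]
    obtain ⟨t, ht⟩ : ∃ t : D₁ → D₂, t = fun a => if σ (ψ (a, 1)) = 1 then 1 else τ := ⟨_, rfl⟩
    have hk : ∀ a : D₁, ψ (a, t a) ∈ σ.ker := by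
      intro a
      rw [MonoidHom.mem_ker]
      have e : ((a, t a) : D₁ × D₂) = (a, 1) * (1, t a) := by simp
      rw [e, map_mul, map_mul, ht]
      rcases Int.units_eq_one_or (σ (ψ (a, 1))) with h | h
      · have h11 : ((1 : D₁), (1 : D₂)) = 1 := rfl
        simp [h, h11]
      · simp [h, hne, hτ]
    have hcomm : t a * t b * (t a)⁻¹ * (t b)⁻¹ = 1 := by
      rw [ht]
      by_cases h1 : σ (ψ (a, 1)) = 1 <;> by_cases h2 : σ (ψ (b, 1)) = 1 <;> simp [h1, h2]
    have e : (ψ.comp (MonoidHom.inl D₁ D₂)) (a * b * a⁻¹ * b⁻¹) =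
        ψ (a, t a) * ψ (b, t b) * (ψ (a, t a))⁻¹ * (ψ (b, t b))⁻¹ := by
      rw [← map_inv, ← map_inv, ← map_mul, ← map_mul, ← map_mul]
      show ψ (a * b * a⁻¹ * b⁻¹, 1) = _
      congr 1
      ext
      · simp
      · simp [hcomm]
    rw [e]
    exact Subgroup.commutator_mem_commutator (hk a) (hk b)
  exact key hd

theorem comm_ker_snd {D₁ D₂ N : Type*} [Group D₁] [Group D₂] [Group N] (ψ : D₁ × D₂ →* N)
    (σ : N →* ℤˣ) (τ : D₁) (hτ : σ (ψ (τ, 1)) = -1) (d : D₂) (hd : d ∈ commutator D₂) :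
    ψ (1, d) ∈ ⁅σ.ker, σ.ker⁆ :=
  comm_ker_fst (ψ.comp (MulEquiv.prodComm (M := D₂) (N := D₁)).toMonoidHom) σ τ hτ d hd

theorem EPs_prod {N₁ N₂ : Type*} [Group N₁] [Group N₂] (σ : N₁ × N₂ →* ℤˣ)
    (τ₁ : N₁) (h1 : σ (τ₁, 1) = -1) (τ₂ : N₂) (h2 : σ (1, τ₂) = -1)
    (e1 : EE 2 N₁) (e2 : EE 2 N₂) : EPs σ := by
  intro x _
  have e : x * x = (x.1 ^ 2, 1) * (1, x.2 ^ 2) := by
    ext <;> simp [pow_two]
  rw [e]
  exact Subgroup.mul_mem _ (comm_ker_fst (MonoidHom.id _) σ τ₂ h2 _ (e1 x.1))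
    (comm_ker_snd (MonoidHom.id _) σ τ₁ h1 _ (e2 x.2))

theorem EPs_prod_left {N₁ N₂ : Type*} [Group N₁] [Group N₂] (σ : N₁ × N₂ →* ℤˣ)
    (σ₁ : N₁ →* ℤˣ) (h1 : ∀ a, σ (a, 1) = σ₁ a) (h2 : ∀ b, σ (1, b) = 1)
    (e1 : EPs σ₁) (e2 : EE 2 N₂) : EPs σ := by
  intro x hx
  have e : x * x = MonoidHom.inl N₁ N₂ (x.1 * x.1) * MonoidHom.inr N₁ N₂ (x.2 ^ 2) := by
    ext <;> simp [pow_two]
  have hx1 : σ₁ x.1 = 1 := by
    have e' : (x.1, 1) * (1, x.2) = x := by ext <;> simp
    have hx' : σ ((x.1, 1) * (1, x.2)) = 1 := by rw [e']; exact hx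
    rw [map_mul, h1, h2, mul_one] at hx'
    exact hx'
  rw [e]
  apply Subgroup.mul_mem
  · have hle : (⁅σ₁.ker, σ₁.ker⁆).map (MonoidHom.inl N₁ N₂) ≤ ⁅σ.ker, σ.ker⁆ := by
      rw [Subgroup.map_commutator]
      have : σ₁.ker.map (MonoidHom.inl N₁ N₂) ≤ σ.ker := by
        rintro _ ⟨z, hz, rfl⟩
        have hz' : σ₁ z = 1 := MonoidHom.mem_ker.mp hz
        rw [MonoidHom.mem_ker]
        show σ (z, 1) = 1
        rw [h1, hz']
      exact Subgroup.commutator_mono this this
    exact hle (Subgroup.mem_map_of_mem _ (e1 x.1 hx1))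
  · have hle : (commutator N₂).map (MonoidHom.inr N₁ N₂) ≤ ⁅σ.ker, σ.ker⁆ := by
      rw [commutator_def, Subgroup.map_commutator]
      have : (⊤ : Subgroup N₂).map (MonoidHom.inr N₁ N₂) ≤ σ.ker := by
        rintro _ ⟨z, -, rfl⟩
        rw [MonoidHom.mem_ker]
        exact h2 z
      exact Subgroup.commutator_mono this this
    exact hle (Subgroup.mem_map_of_mem _ (e2 x.2))

theorem EPs_prod_right {N₁ N₂ : Type*} [Group N₁] [Group N₂] (σ : N₁ × N₂ →* ℤˣ)
    (σ₂ : N₂ →* ℤˣ) (h2 : ∀ b, σ (1, b) = σ₂ b) (h1 : ∀ a, σ (a, 1) = 1)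
    (e2 : EPs σ₂) (e1 : EE 2 N₁) : EPs σ := by
  have h := EPs_prod_left (σ.comp (MulEquiv.prodComm (M := N₂) (N := N₁)).toMonoidHom) σ₂ h2 h1
    e2 e1
  exact EPs_of_surj (MulEquiv.prodComm (M := N₂) (N := N₁)).toMonoidHom
    (MulEquiv.prodComm (M := N₂) (N := N₁)).surjective _ σ (fun y => rfl) h

/-- the pair function -/
def pairHom (D G : Type*) [Group D] [Group G] [DecidableEq G] : D × D →* (G → D) :=
  { toFun := fun d x => if x = 1 then d.1 else d.2
    map_one' := by funext x; simp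
    map_mul' := fun a b => by funext x; by_cases h : x = 1 <;> simp [h] }

/-- the base group of a wreath product with a group of order two -/
def BB (D G : Type*) [Group D] [Group G] [DecidableEq G] : D × D →* D ≀ᵣ G :=
  (baseHom D G).comp (pairHom D G)

theorem BB_left {D G : Type*} [Group D] [Group G] [DecidableEq G] (d : D × D) (x : G) :
    (BB D G d).left x = if x = 1 then d.1 else d.2 := rfl

theorem BB_right {D G : Type*} [Group D] [Group G] [DecidableEq G] (d : D × D) :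
    (BB D G d).right = 1 := rfl

section wr

variable {D G : Type*} [Group D] [Group G] [DecidableEq G] (c : G)
  (hG : ∀ q : G, q = 1 ∨ q = c) (hc : c ≠ 1)

include hG hc

theorem cc : c * c = 1 := by
  rcases hG (c * c) with h | h
  · exact h
  · exfalso
    apply hc
    have : c * c = c * 1 := by rw [h, mul_one]
    exact mul_left_cancel this

theorem cinv : c⁻¹ = c := inv_eq_of_mul_eq_one_right (cc c hG hc)

theorem BB_of_left (f : G → D) : baseHom D G f = BB D G (f 1, f c) := by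
  apply RegularWreathProduct.ext
  · funext x
    show f x = if x = 1 then f 1 else f c
    rcases hG x with rfl | rfl
    · simp
    · simp [hc]
  · rfl

theorem BB_of_right_one (w : D ≀ᵣ G) (h : w.right = 1) :
    w = BB D G (w.left 1, w.left c) := by
  have e := baseHom_mul_inl w
  rw [h, map_one, mul_one, BB_of_left c hG hc] at e
  exact e

theorem BB_of_right_c (w : D ≀ᵣ G) (h : w.right = c) :
    w = BB D G (w.left 1, w.left c) * RegularWreathProduct.inl c := by
  have e := baseHom_mul_inl w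
  rw [h, BB_of_left c hG hc] at e
  exact e

theorem inl_BB_inl (d₁ d₂ : D) :
    RegularWreathProduct.inl c * BB D G (d₁, d₂) * RegularWreathProduct.inl c =
      BB D G (d₂, d₁) := by
  have hci := cinv c hG hc
  have hcc := cc c hG hc
  apply RegularWreathProduct.ext
  · funext x
    simp only [RegularWreathProduct.mul_left, RegularWreathProduct.left_inl,
      RegularWreathProduct.mul_right, RegularWreathProduct.right_inl, Pi.mul_apply,
      Pi.one_apply, one_mul, mul_one, BB_left, BB_right]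
    rcases hG x with rfl | rfl
    · simp [hci, hc]
    · simp [hc]
  · show c * 1 * c = 1
    rw [mul_one]
    exact hcc

theorem wr_EPs (σD : D →* ℤˣ) (σ : D ≀ᵣ G →* ℤˣ)
    (F1 : ∀ f : G → D, σ (baseHom D G f) = σD (f 1) * σD (f c))
    (F2 : σ (RegularWreathProduct.inl c) = 1)
    (hE : EE 2 D) (τ : D) (hτ : σD τ = -1) : EPs σ := by
  have hσB : ∀ d₁ d₂ : D, σ (BB D G (d₁, d₂)) = σD d₁ * σD d₂ := by
    intro d₁ d₂
    show σ (baseHom D G (pairHom D G (d₁, d₂))) = _
    rw [F1]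
    show σD (if (1 : G) = 1 then d₁ else d₂) * σD (if c = 1 then d₁ else d₂) = _
    rw [if_pos rfl, if_neg hc]
  have step1 : ∀ d₁ d₂ : D, d₁ ∈ commutator D → d₂ ∈ commutator D →
      BB D G (d₁, d₂) ∈ ⁅σ.ker, σ.ker⁆ := by
    intro d₁ d₂ h1 h2
    have e : ((d₁, d₂) : D × D) = (d₁, 1) * (1, d₂) := by simp
    rw [e, map_mul]
    apply Subgroup.mul_mem
    · exact comm_ker_fst (BB D G) σ τ (by rw [hσB, map_one, one_mul, hτ]) d₁ h1
    · exact comm_ker_snd (BB D G) σ τ (by rw [hσB, map_one, mul_one, hτ]) d₂ h2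
  have hsq : ∀ d : D, d * d ∈ commutator D := fun d => by
    have := hE d
    rwa [pow_two] at this
  intro w hw
  rcases hG w.right with hr | hr
  · have e := BB_of_right_one c hG hc w hr
    have e2 : w * w = BB D G (w.left 1 * w.left 1, w.left c * w.left c) := by
      conv_lhs => rw [e]
      rw [← map_mul]
      rfl
    rw [e2]
    exact step1 _ _ (hsq _) (hsq _)
  · have e := BB_of_right_c c hG hc w hr
    obtain ⟨u, hu⟩ : ∃ u : D, u = w.left 1 := ⟨_, rfl⟩
    obtain ⟨v, hv⟩ : ∃ v : D, v = w.left c := ⟨_, rfl⟩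
    rw [← hu, ← hv] at e
    have hww : w * w = BB D G (u * v, v * u) := by
      conv_lhs => rw [e]
      calc BB D G (u, v) * RegularWreathProduct.inl c *
            (BB D G (u, v) * RegularWreathProduct.inl c)
          = BB D G (u, v) * (RegularWreathProduct.inl c * BB D G (u, v) *
              RegularWreathProduct.inl c) := by simp only [mul_assoc]
        _ = BB D G (u, v) * BB D G (v, u) := by rw [inl_BB_inl c hG hc]
        _ = BB D G (u * v, v * u) := by rw [← map_mul]; rfl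
    have huv : σD (u * v) = 1 := by
      have h3 : σ (BB D G (u, v) * RegularWreathProduct.inl c) = 1 := by rw [← e]; exact hw
      rw [map_mul, F2, mul_one, hσB] at h3
      rw [map_mul]
      exact h3
    have hc1 : BB D G (u * v, 1) ∈ σ.ker := by
      rw [MonoidHom.mem_ker, hσB, map_one, mul_one, huv]
    have hc2 : (RegularWreathProduct.inl c : D ≀ᵣ G) ∈ σ.ker := F2
    have hcm : BB D G (u * v, 1) * RegularWreathProduct.inl c * (BB D G (u * v, 1))⁻¹ *
        (RegularWreathProduct.inl c : D ≀ᵣ G)⁻¹ ∈ ⁅σ.ker, σ.ker⁆ :=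
      Subgroup.commutator_mem_commutator hc1 hc2
    have hinv : (RegularWreathProduct.inl c : D ≀ᵣ G)⁻¹ = RegularWreathProduct.inl c := by
      apply inv_eq_of_mul_eq_one_right
      rw [← map_mul, cc c hG hc, map_one]
    have hcomm : BB D G (u * v, 1) * RegularWreathProduct.inl c * (BB D G (u * v, 1))⁻¹ *
        (RegularWreathProduct.inl c : D ≀ᵣ G)⁻¹ = BB D G (u * v, (u * v)⁻¹) := by
      rw [hinv, ← map_inv]
      calc BB D G (u * v, 1) * RegularWreathProduct.inl c * BB D G (u * v, 1)⁻¹ *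
            RegularWreathProduct.inl c
          = BB D G (u * v, 1) * (RegularWreathProduct.inl c * BB D G ((u * v)⁻¹, 1) *
              RegularWreathProduct.inl c) := by
            simp only [mul_assoc, Prod.inv_mk, inv_one]
        _ = BB D G (u * v, 1) * BB D G (1, (u * v)⁻¹) := by rw [inl_BB_inl c hG hc]
        _ = BB D G (u * v, (u * v)⁻¹) := by rw [← map_mul]; simp
    rw [hcomm] at hcm
    have e3 : BB D G (u * v, v * u) =
        BB D G (u * v, (u * v)⁻¹) * BB D G (1, u * v * (v * u)) := by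
      rw [← map_mul]
      congr 1
      ext
      · simp
      · show v * u = (u * v)⁻¹ * (u * v * (v * u))
        group
    rw [hww, e3]
    apply Subgroup.mul_mem _ hcm
    apply step1 _ _ (Subgroup.one_mem _)
    have e4 : u * v * (v * u) = (u * (v * v) * u⁻¹) * (u * u) := by group
    rw [e4]
    apply Subgroup.mul_mem _ _ (hsq u)
    exact (inferInstance : (commutator D).Normal).conj_mem _ (hsq v) u

end wr

end Cfsg.Agent.Lib.helper19.SylAb
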