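import Cfsg.Agent.Lib.helper19.SylAb2

/-!
Sign computations in iterated wreath products, and the orbit induction.
-/

namespace Cfsg.Agent.Lib.helper19.SylAb

universe u

theorem sign_toPerm_base {D Q Λ : Type*} [Group D] [Group Q] [MulAction D Λ] [Fintype Q]
    [DecidableEq Q] [Fintype Λ] [DecidableEq Λ] (f : Q → D) :
    Equiv.Perm.sign (RegularWreathProduct.toPerm D Q Λ (baseHom D Q f)) =
      ∏ q, Equiv.Perm.sign (MulAction.toPerm (f q) : Equiv.Perm Λ) := by
  have : RegularWreathProduct.toPerm D Q Λ (baseHom D Q f) =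
      Equiv.prodCongrLeft (fun q => MulAction.toPerm (f q)) := by
    ext ⟨l, q⟩ <;> simp [RegularWreathProduct.toPerm, baseHom]
  rw [this, Equiv.Perm.sign_prodCongrLeft]

theorem sign_toPerm_inl {D Q Λ : Type*} [Group D] [Group Q] [MulAction D Λ] [Fintype Q]
    [DecidableEq Q] [Fintype Λ] [DecidableEq Λ] (c : Q) :
    Equiv.Perm.sign (RegularWreathProduct.toPerm D Q Λ (RegularWreathProduct.inl c)) =
      (Equiv.Perm.sign (Equiv.mulLeft c)) ^ Fintype.card Λ := by
  have : RegularWreathProduct.toPerm D Q Λ (RegularWreathProduct.inl c) =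
      Equiv.prodCongrRight (fun _ => Equiv.mulLeft c) := by
    ext ⟨l, q⟩ <;> simp [RegularWreathProduct.toPerm]
  rw [this, Equiv.Perm.sign_prodCongrRight, Finset.prod_const, Finset.card_univ]

/-- the sign of an element of an iterated wreath product -/
noncomputable def sgn (G : Type u) [Group G] [Fintype G] [DecidableEq G] (a : ℕ) :
    IteratedWreathProduct G a →* ℤˣ :=
  Equiv.Perm.sign.comp (iteratedWreathToPermHom G a)

theorem sgn_succ (G : Type u) [Group G] [Fintype G] [DecidableEq G] (a : ℕ)
    (w : IteratedWreathProduct G (a + 1)) :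
    sgn G (a + 1) w = Equiv.Perm.sign (@RegularWreathProduct.toPerm (IteratedWreathProduct G a) G
      _ _ (Fin a → G) (MulAction.compHom (Fin a → G) (iteratedWreathToPermHom G a)) w) := by
  have h : iteratedWreathToPermHom G (a + 1) w = (Fin.succFunEquiv G a).symm.permCongr
      (@RegularWreathProduct.toPerm (IteratedWreathProduct G a) G
      _ _ (Fin a → G) (MulAction.compHom (Fin a → G) (iteratedWreathToPermHom G a)) w) := rfl
  show Equiv.Perm.sign (iteratedWreathToPermHom G (a + 1) w) = _
  rw [h, Equiv.Perm.sign_permCongr]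

section iw

variable (G : Type u) [Group G] [Fintype G] [DecidableEq G] (c : G)
  (hG : ∀ q : G, q = 1 ∨ q = c) (hc : c ≠ 1)

include hG hc

theorem sgn_base (a : ℕ) (f : G → IteratedWreathProduct G a) :
    sgn G (a + 1) (baseHom (IteratedWreathProduct G a) G f) = sgn G a (f 1) * sgn G a (f c) := by
  refine (sgn_succ G a _).trans ?_
  letI := MulAction.compHom (Fin a → G) (iteratedWreathToPermHom G a)
  rw [sign_toPerm_base]
  rw [Fintype.prod_eq_mul 1 c (Ne.symm hc) (fun x hx => absurd (hG x) (by tauto))]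
  have h : ∀ d : IteratedWreathProduct G a,
      (MulAction.toPerm d : Equiv.Perm (Fin a → G)) = iteratedWreathToPermHom G a d :=
    fun d => Equiv.ext fun x => rfl
  rw [h, h]
  rfl

theorem sgn_inl (hG2 : Fintype.card G = 2) (a : ℕ) :
    sgn G (a + 2) (RegularWreathProduct.inl c : IteratedWreathProduct G (a + 1) ≀ᵣ G) = 1 := by
  refine (sgn_succ G (a + 1) _).trans ?_
  letI := MulAction.compHom (Fin (a + 1) → G) (iteratedWreathToPermHom G (a + 1))
  rw [sign_toPerm_inl]
  have hcard : Fintype.card (Fin (a + 1) → G) = 2 * 2 ^ a := by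
    rw [Fintype.card_fun, Fintype.card_fin, hG2, pow_succ, mul_comm]
  rw [hcard, pow_mul, Int.units_sq, one_pow]

theorem iw_odd (a : ℕ) : ∃ τ : IteratedWreathProduct G (a + 1), sgn G (a + 1) τ = -1 := by
  induction a with
  | zero =>
    refine ⟨(RegularWreathProduct.inl c : IteratedWreathProduct G 0 ≀ᵣ G), ?_⟩
    refine (sgn_succ G 0 _).trans ?_
    letI := MulAction.compHom (Fin 0 → G) (iteratedWreathToPermHom G 0)
    rw [sign_toPerm_inl]
    have hcard : Fintype.card (Fin 0 → G) = 1 := by simp
    rw [hcard, pow_one]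
    have : Equiv.mulLeft c = Equiv.swap 1 c := by
      have hcc := cc c hG hc
      ext q
      rcases hG q with h | h
      · rw [h]; simp
      · rw [h]; simp [hcc]
    rw [this, Equiv.Perm.sign_swap (Ne.symm hc)]
  | succ a ih =>
    obtain ⟨τ, hτ⟩ := ih
    refine ⟨baseHom (IteratedWreathProduct G (a + 1)) G (pairHom _ G (τ, 1)), ?_⟩
    rw [sgn_base G c hG hc]
    show sgn G (a + 1) (if (1 : G) = 1 then τ else 1) *
      sgn G (a + 1) (if c = 1 then τ else 1) = -1
    rw [if_pos rfl, if_neg hc, hτ, map_one, mul_one]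

theorem iw_EPs (hG2 : Fintype.card G = 2) (a : ℕ) : EPs (sgn G a) := by
  have hs : Subsingleton (IteratedWreathProduct G 0) := by
    rw [IteratedWreathProduct_zero]; infer_instance
  rcases a with _ | _ | a
  · intro x _
    rw [Subsingleton.elim (x * x) 1]
    exact Subgroup.one_mem _
  · intro x _
    have hx : ∀ y : IteratedWreathProduct G 0 ≀ᵣ G, y * y = 1 := by
      intro y
      apply RegularWreathProduct.ext
      · funext q
        exact Subsingleton.elim _ _
      · show y.right * y.right = 1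
        rcases hG y.right with h | h
        · rw [h, mul_one]
        · rw [h]
          exact cc c hG hc
    have : x * x = 1 := hx x
    rw [this]
    exact Subgroup.one_mem _
  · obtain ⟨τ, hτ⟩ := iw_odd G c hG hc a
    have hsq : ∀ q : G, q ^ 2 = 1 := by
      intro q
      rw [pow_two]
      rcases hG q with h | h
      · rw [h, mul_one]
      · rw [h]
        exact cc c hG hc
    exact wr_EPs (D := IteratedWreathProduct G (a + 1)) (G := G) c hG hc (sgn G (a + 1))
      (sgn G (a + 2)) (fun f => sgn_base G c hG hc (a + 1) f) (sgn_inl G c hG hc hG2 a)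
      (iw_EE 2 G hsq (a + 1)) τ hτ

end iw

theorem trans_hom {α : Type u} [Fintype α] [DecidableEq α] (a : ℕ) (hα : Nat.card α = 2 ^ a)
    (P : Sylow 2 (Equiv.Perm α)) (G : Type) [Group G] [Fintype G] [DecidableEq G]
    (hG : Nat.card G = 2) :
    ∃ F : IteratedWreathProduct G a →* (P : Subgroup (Equiv.Perm α)), Function.Surjective F ∧
      ∀ w, Equiv.Perm.sign (F w).1 = sgn G a w := by
  let e1 : α ≃ (Fin a → G) := (Finite.equivFinOfCardEq hα).trans
    (Finite.equivFinOfCardEq (by rw [Nat.card_fun, Nat.card_fin, hG])).symm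
  let f := e1.symm.permCongrHom.toMonoidHom.comp (iteratedWreathToPermHom G a)
  have hf : Function.Injective f :=
    (e1.symm.permCongrHom.comp_injective _).mpr (iteratedWreathToPermHomInj G a)
  let g := (MonoidHom.ofInjective hf).symm
  let P' : Sylow 2 (Equiv.Perm α) := Sylow.ofCard (MonoidHom.range f) (by
    rw [Nat.card_congr g.toEquiv, IteratedWreathProduct.card, hG, Nat.card_perm, hα,
        ← Nat.multiplicity_eq_factorization Nat.prime_two (2 ^ a).factorial_ne_zero,
        Nat.Prime.multiplicity_factorial_pow Nat.prime_two])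
  obtain ⟨k, hk⟩ := MulAction.exists_smul_eq (Equiv.Perm α) P' P
  let f' := (MulAut.conj k).toMonoidHom.comp f
  have hr : ∀ w, f' w ∈ (P : Subgroup (Equiv.Perm α)) := by
    intro w
    rw [← hk, Sylow.coe_subgroup_smul]
    exact Subgroup.smul_mem_pointwise_smul _ _ _ ⟨w, rfl⟩
  refine ⟨f'.codRestrict _ hr, ?_, ?_⟩
  · intro ⟨x, hx⟩
    have hx' : x ∈ ((k • P' : Sylow 2 (Equiv.Perm α)) : Subgroup (Equiv.Perm α)) := by
      rw [hk]; exact hx
    rw [Sylow.coe_subgroup_smul, Subgroup.mem_smul_pointwise_iff_exists] at hx'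
    obtain ⟨y, ⟨w, rfl⟩, rfl⟩ := hx'
    exact ⟨w, Subtype.ext rfl⟩
  · intro w
    show Equiv.Perm.sign (k * f w * k⁻¹) = _
    rw [map_mul, map_mul, map_inv, mul_comm, inv_mul_cancel_left]
    show Equiv.Perm.sign (e1.symm.permCongr (iteratedWreathToPermHom G a w)) = _
    rw [Equiv.Perm.sign_permCongr]
    rfl

theorem sign_subtypeCongr' {α : Type u} [Fintype α] [DecidableEq α] {p : α → Prop}
    [DecidablePred p] [Fintype {a // p a}] [DecidableEq {a // p a}] [Fintype {a // ¬ p a}]
    [DecidableEq {a // ¬ p a}] (ep : Equiv.Perm {a // p a}) (en : Equiv.Perm {a // ¬ p a}) :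
    Equiv.Perm.sign (ep.subtypeCongr en) = Equiv.Perm.sign ep * Equiv.Perm.sign en := by
  convert Equiv.Perm.sign_subtypeCongr ep en

end Cfsg.Agent.Lib.helper19.SylAb
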