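import Cfsg.Agent.Lib.helper19.SylAb3

/-!
The orbit induction for Sylow 2-subgroups, and the alternating group.
-/

namespace Cfsg.Agent.Lib.helper19.SylAb

universe u

theorem zmod2_cases : ∀ q : Multiplicative (ZMod 2), q = 1 ∨ q = Multiplicative.ofAdd 1 := by
  decide

theorem zmod2_ne : (Multiplicative.ofAdd 1 : Multiplicative (ZMod 2)) ≠ 1 := by
  decide

theorem sym_EPs : ∀ (m : ℕ) (α : Type u) [Fintype α] [DecidableEq α]
    (P : Sylow 2 (Equiv.Perm α)), Nat.card α = m →
    EPs (Equiv.Perm.sign.comp (P : Subgroup (Equiv.Perm α)).subtype) := by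
  intro m
  induction m using Nat.strong_induction_on with
  | _ m ih =>
    intro α _ _ P hcard
    rcases isEmpty_or_nonempty α with hα | hα
    · have : Subsingleton (Equiv.Perm α) := ⟨fun a b => Equiv.ext (fun x => isEmptyElim x)⟩
      intro x _
      rw [Subsingleton.elim (x * x) 1]
      exact Subgroup.one_mem _
    by_cases htr : MulAction.IsPretransitive (P : Subgroup (Equiv.Perm α)) α
    · obtain ⟨x⟩ := hα
      obtain ⟨a, ha⟩ := P.isPGroup'.card_orbit x
      have hm : Nat.card α = 2 ^ a := by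
        rw [← ha, MulAction.orbit_eq_univ]
        exact (Nat.card_congr (Equiv.Set.univ α)).symm
      have hG : Nat.card (Multiplicative (ZMod 2)) = 2 := by
        rw [Nat.card_congr Multiplicative.toAdd, Nat.card_zmod]
      have hG2 : Fintype.card (Multiplicative (ZMod 2)) = 2 := by
        rw [← Nat.card_eq_fintype_card, hG]
      obtain ⟨F, hF, hs⟩ := trans_hom a hm P (Multiplicative (ZMod 2)) hG
      exact EPs_of_surj F hF _ _ hs
        (iw_EPs (Multiplicative (ZMod 2)) (Multiplicative.ofAdd 1) zmod2_cases zmod2_ne hG2 a)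
    · obtain ⟨x⟩ := hα
      have hne : ∃ y, y ∉ MulAction.orbit (P : Subgroup (Equiv.Perm α)) x := by
        by_contra hall
        push Not at hall
        apply htr
        refine ⟨fun y z => ?_⟩
        obtain ⟨a, ha⟩ := hall y
        obtain ⟨b, hb⟩ := hall z
        refine ⟨b * a⁻¹, ?_⟩
        rw [← ha, ← hb, mul_smul, inv_smul_smul]
      obtain ⟨y, hy⟩ := hne
      have hs : ∀ g ∈ (P : Subgroup (Equiv.Perm α)), ∀ z,
          g z ∈ MulAction.orbit (P : Subgroup (Equiv.Perm α)) x ↔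
            z ∈ MulAction.orbit (P : Subgroup (Equiv.Perm α)) x := by
        intro g hg z
        constructor
        · intro h
          have := MulAction.mem_orbit_of_mem_orbit
            ((⟨g, hg⟩ : (P : Subgroup (Equiv.Perm α)))⁻¹) h
          have e : ((⟨g, hg⟩ : (P : Subgroup (Equiv.Perm α)))⁻¹) • (g z) = z := by
            change (g⁻¹ : Equiv.Perm α) (g z) = z
            simp
          rwa [e] at this
        · intro h
          exact MulAction.mem_orbit_of_mem_orbit (⟨g, hg⟩ : (P : Subgroup (Equiv.Perm α))) h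
      obtain ⟨s, hsdef⟩ : ∃ s : Set α, s = MulAction.orbit (P : Subgroup (Equiv.Perm α)) x :=
        ⟨_, rfl⟩
      rw [← hsdef] at hs hy
      classical
      have hsum : Nat.card {z // z ∈ s} + Nat.card {z // ¬ z ∈ s} = m := by
        have h1 : Nat.card {z // z ∈ s} = s.ncard := Nat.card_coe_set_eq _
        have h2 : Nat.card {z // ¬ z ∈ s} = sᶜ.ncard := Nat.card_coe_set_eq sᶜ
        rw [h1, h2, Set.ncard_add_ncard_compl, hcard]
      have h1 : 0 < Nat.card {z // z ∈ s} := by
        have : Nonempty {z // z ∈ s} := ⟨⟨x, by rw [hsdef]; exact MulAction.mem_orbit_self x⟩⟩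
        exact Nat.card_pos
      have h2 : 0 < Nat.card {z // ¬ z ∈ s} := by
        have : Nonempty {z // ¬ z ∈ s} := ⟨⟨y, hy⟩⟩
        exact Nat.card_pos
      obtain ⟨S₁, S₂, e, he⟩ := split_sylow 2 P s hs
      have hsg : ∀ g : ↥(P : Subgroup (Equiv.Perm α)), Equiv.Perm.sign g.1 =
          Equiv.Perm.sign (e g).1.1 * Equiv.Perm.sign (e g).2.1 := by
        intro g
        conv_lhs => rw [he g]
        exact sign_subtypeCongr' _ _
      obtain ⟨σ', hσ'⟩ : ∃ σ' : (↥(S₁ : Subgroup (Equiv.Perm {z // z ∈ s})) ×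
          ↥(S₂ : Subgroup (Equiv.Perm {z // ¬ z ∈ s}))) →* ℤˣ,
          σ' = (Equiv.Perm.sign.comp (P : Subgroup (Equiv.Perm α)).subtype).comp
            e.symm.toMonoidHom := ⟨_, rfl⟩
      have hσ : ∀ y, σ' y = Equiv.Perm.sign y.1.1 * Equiv.Perm.sign y.2.1 := by
        intro y
        have := hsg (e.symm y)
        rw [e.apply_symm_apply] at this
        rw [hσ']
        exact this
      have hσ1 : ∀ a, σ' (a, 1) = Equiv.Perm.sign a.1 := by
        intro a
        rw [hσ]
        show Equiv.Perm.sign a.1 * Equiv.Perm.sign (1 : Equiv.Perm {z // ¬ z ∈ s}) = _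
        rw [map_one, mul_one]
      have hσ2 : ∀ b, σ' (1, b) = Equiv.Perm.sign b.1 := by
        intro b
        rw [hσ]
        show Equiv.Perm.sign (1 : Equiv.Perm {z // z ∈ s}) * Equiv.Perm.sign b.1 = _
        rw [map_one, one_mul]
      have c1 := sym_EE 2 _ _ S₁ rfl
      have c2 := sym_EE 2 _ _ S₂ rfl
      have d1 := ih (Nat.card {z // z ∈ s}) (by omega) _ S₁ rfl
      have d2 := ih (Nat.card {z // ¬ z ∈ s}) (by omega) _ S₂ rfl
      have key : EPs σ' := by
        by_cases k1 : ∀ a : ↥(S₁ : Subgroup (Equiv.Perm {z // z ∈ s})),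
            Equiv.Perm.sign a.1 = 1
        · exact EPs_prod_right σ' _ hσ2 (fun a => by rw [hσ1, k1]) d2 c1
        by_cases k2 : ∀ b : ↥(S₂ : Subgroup (Equiv.Perm {z // ¬ z ∈ s})),
            Equiv.Perm.sign b.1 = 1
        · exact EPs_prod_left σ' _ hσ1 (fun b => by rw [hσ2, k2]) d1 c2
        push Not at k1 k2
        obtain ⟨τ₁, hτ₁⟩ := k1
        obtain ⟨τ₂, hτ₂⟩ := k2
        have t1 : σ' (τ₁, 1) = -1 := by
          rw [hσ1]
          exact (Int.units_eq_one_or _).resolve_left hτ₁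
        have t2 : σ' (1, τ₂) = -1 := by
          rw [hσ2]
          exact (Int.units_eq_one_or _).resolve_left hτ₂
        exact EPs_prod σ' τ₁ t1 τ₂ t2 c1 c2
      refine EPs_of_surj e.symm.toMonoidHom e.symm.surjective σ' _ (fun y => ?_) key
      rw [hσ']
      rfl

theorem alt_EE_odd (p : ℕ) [hp : Fact p.Prime] (hp2 : p ≠ 2) (n : ℕ)
    (Q : Sylow p (alternatingGroup (Fin n))) :
    EE p (Q : Subgroup (alternatingGroup (Fin n))) := by
  have hQ' : IsPGroup p ((Q : Subgroup (alternatingGroup (Fin n))).map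
      (alternatingGroup (Fin n)).subtype) := Q.isPGroup'.map _
  obtain ⟨P, hP⟩ := hQ'.exists_le_sylow
  have heven : ∀ g ∈ (P : Subgroup (Equiv.Perm (Fin n))), g ∈ alternatingGroup (Fin n) := by
    intro g hg
    rw [Equiv.Perm.mem_alternatingGroup]
    obtain ⟨k, hk⟩ := P.isPGroup' ⟨g, hg⟩
    have hk' : g ^ p ^ k = 1 := congrArg Subtype.val hk
    have h1 : Equiv.Perm.sign g ^ p ^ k = 1 := by rw [← map_pow, hk', map_one]
    rcases Int.units_eq_one_or (Equiv.Perm.sign g) with h | h
    · exact h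
    · exfalso
      rw [h] at h1
      have hodd : Odd (p ^ k) := (hp.out.odd_of_ne_two hp2).pow
      rw [hodd.neg_one_pow] at h1
      exact absurd h1 (by decide)
  have hR : IsPGroup p ((P : Subgroup (Equiv.Perm (Fin n))).comap
      (alternatingGroup (Fin n)).subtype) :=
    P.isPGroup'.comap_of_injective _ (Subgroup.subtype_injective _)
  have hQR : (Q : Subgroup (alternatingGroup (Fin n))) ≤
      (P : Subgroup (Equiv.Perm (Fin n))).comap (alternatingGroup (Fin n)).subtype :=
    fun x hx => hP (Subgroup.mem_map_of_mem _ hx)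
  have hRQ := Q.is_maximal' hR hQR
  let θ : ↥(P : Subgroup (Equiv.Perm (Fin n))) →*
      ↥(Q : Subgroup (alternatingGroup (Fin n))) :=
    { toFun := fun g => ⟨⟨g.1, heven g.1 g.2⟩, by rw [← hRQ]; exact g.2⟩
      map_one' := rfl
      map_mul' := fun _ _ => rfl }
  have hθ : Function.Surjective θ := by
    intro x
    exact ⟨⟨x.1.1, hP (Subgroup.mem_map_of_mem _ x.2)⟩, rfl⟩
  exact EE_of_surj θ hθ (sym_EE p n (Fin n) P (by simp))

theorem alt_EE_two (n : ℕ) (Q : Sylow 2 (alternatingGroup (Fin n))) :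
    EE 2 (Q : Subgroup (alternatingGroup (Fin n))) := by
  have hQ' : IsPGroup 2 ((Q : Subgroup (alternatingGroup (Fin n))).map
      (alternatingGroup (Fin n)).subtype) := Q.isPGroup'.map _
  obtain ⟨P, hP⟩ := hQ'.exists_le_sylow
  have hR : IsPGroup 2 ((P : Subgroup (Equiv.Perm (Fin n))).comap
      (alternatingGroup (Fin n)).subtype) :=
    P.isPGroup'.comap_of_injective _ (Subgroup.subtype_injective _)
  have hQR : (Q : Subgroup (alternatingGroup (Fin n))) ≤
      (P : Subgroup (Equiv.Perm (Fin n))).comap (alternatingGroup (Fin n)).subtype :=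
    fun x hx => hP (Subgroup.mem_map_of_mem _ hx)
  have hRQ := Q.is_maximal' hR hQR
  have hEP := sym_EPs n (Fin n) P (by simp)
  obtain ⟨σ, hσ⟩ : ∃ σ : ↥(P : Subgroup (Equiv.Perm (Fin n))) →* ℤˣ,
      σ = Equiv.Perm.sign.comp (P : Subgroup (Equiv.Perm (Fin n))).subtype := ⟨_, rfl⟩
  rw [← hσ] at hEP
  have hσa : ∀ g : ↥(P : Subgroup (Equiv.Perm (Fin n))), σ g = Equiv.Perm.sign g.1 := by
    intro g
    rw [hσ]
    rfl
  let θ : σ.ker →* ↥(Q : Subgroup (alternatingGroup (Fin n))) :=
    { toFun := fun k => ⟨⟨k.1.1, by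
          rw [Equiv.Perm.mem_alternatingGroup]
          have h := k.2
          rw [MonoidHom.mem_ker, hσa] at h
          exact h⟩, by rw [← hRQ]; exact k.1.2⟩
      map_one' := rfl
      map_mul' := fun _ _ => rfl }
  intro x
  have hxP : x.1.1 ∈ (P : Subgroup (Equiv.Perm (Fin n))) :=
    hP (Subgroup.mem_map_of_mem _ x.2)
  have hxσ : σ ⟨x.1.1, hxP⟩ = 1 := by
    rw [hσa]
    exact Equiv.Perm.mem_alternatingGroup.mp x.1.2
  have h1 := hEP ⟨x.1.1, hxP⟩ hxσ
  have h2 : ⁅σ.ker, σ.ker⁆ = (commutator σ.ker).map σ.ker.subtype := by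
    rw [commutator_def, Subgroup.map_commutator, ← MonoidHom.range_eq_map,
      Subgroup.range_subtype]
  rw [h2] at h1
  obtain ⟨y, hy, hy2⟩ := h1
  have h3 := comm_map θ hy
  have h4 : θ y = x ^ 2 := by
    apply Subtype.ext
    apply Subtype.ext
    show y.1.1 = (x ^ 2).1.1
    have := congrArg Subtype.val hy2
    rw [pow_two]
    exact this
  rw [← h4]
  exact h3

end Cfsg.Agent.Lib.helper19.SylAb
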